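import Cfsg.Agent.KnownA.Bounded.Pres
import Cfsg.Agent.Suzuki.TripleCarmichael

/-! Bounded presentations of alternating groups: Carmichael's generators and prime degree plus two. -/

set_option autoImplicit false
set_option linter.unusedSectionVars false

namespace Cfsg.Agent.KnownA.Bounded

open Equiv

variable {α : Type*} [Fintype α] [DecidableEq α]

/-- The three-cycle through two base points and `i`, as an even permutation. -/
def cycA (a b i : α) : alternatingGroup α :=
  if h : a ≠ b ∧ a ≠ i then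
    ⟨swap a i * swap a b, Perm.mem_alternatingGroup.mpr (by
      rw [map_mul, Perm.sign_swap h.1, Perm.sign_swap h.2]; rfl)⟩
  else 1

theorem coe_cycA {a b i : α} (hab : a ≠ b) (hai : a ≠ i) :
    (cycA a b i : Perm α) = swap a i * swap a b := by
  rw [cycA, dif_pos ⟨hab, hai⟩]

theorem cycA_cube {a b i : α} (hab : a ≠ b) (hai : a ≠ i) (hbi : b ≠ i) : cycA a b i ^ 3 = 1 := by
  refine Subtype.ext ?_
  rw [SubgroupClass.coe_pow, coe_cycA hab hai, OneMemClass.coe_one]
  exact orderOf_dvd_iff_pow_eq_one.mp (Perm.isThreeCycle_swap_mul_swap_same hai hab hbi.symm).orderOf.dvd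

theorem cycA_pair {a b i j : α} (hab : a ≠ b) (hai : a ≠ i) (hbi : b ≠ i) (haj : a ≠ j) (hbj : b ≠ j) (hij : i ≠ j) :
    (cycA a b i * cycA a b j) ^ 2 = 1 := by
  refine Subtype.ext ?_
  rw [SubgroupClass.coe_pow, Subgroup.coe_mul, coe_cycA hab hai, coe_cycA hab haj, OneMemClass.coe_one]
  have e : swap a b * swap a j * swap a b = swap b j := by
    calc swap a b * swap a j * swap a b = swap a b * swap a j * (swap a b)⁻¹ := by rw [swap_inv]
      _ = swap b j := by
        rw [← Equiv.swap_apply_apply, swap_apply_left, swap_apply_of_ne_of_ne haj.symm hbj.symm]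
  have hd : Commute (swap a i) (swap b j) := by
    refine Perm.Disjoint.commute ?_
    rw [Perm.disjoint_iff_disjoint_support, Perm.support_swap hai, Perm.support_swap hbj]
    simp [hab.symm, hbi, haj.symm, hij.symm]
  rw [show swap a i * swap a b * (swap a j * swap a b) = swap a i * swap b j by rw [← e]; group, hd.mul_pow,
    pow_two, pow_two, swap_mul_self, swap_mul_self, one_mul]

theorem cycA_conj (g : alternatingGroup α) {a b i : α} (hab : a ≠ b) (hai : a ≠ i) :
    g * cycA a b i * g⁻¹ = cycA ((g : Perm α) a) ((g : Perm α) b) ((g : Perm α) i) := by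
  refine Subtype.ext ?_
  rw [Subgroup.coe_mul, Subgroup.coe_mul, Subgroup.coe_inv, coe_cycA hab hai,
    coe_cycA ((g : Perm α).injective.ne hab) ((g : Perm α).injective.ne hai), Equiv.swap_apply_apply,
    Equiv.swap_apply_apply]
  group

theorem cycA_swap {a b i : α} (hab : a ≠ b) (hai : a ≠ i) (hbi : b ≠ i) : cycA b a i = (cycA a b i)⁻¹ := by
  refine eq_inv_of_mul_eq_one_left (Subtype.ext ?_)
  rw [Subgroup.coe_mul, coe_cycA hab hai, coe_cycA hab.symm hbi, OneMemClass.coe_one]
  ext x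
  simp only [Perm.coe_mul, Function.comp_apply, Perm.coe_one, id_eq, swap_apply_def]
  split_ifs <;> simp_all

theorem eq_top_of_cycA {a b : α} (hab : a ≠ b) (H : Subgroup (alternatingGroup α))
    (h : ∀ i, i ≠ a → i ≠ b → cycA a b i ∈ H) : H = ⊤ := by
  have : Nontrivial α := nontrivial_of_ne a b hab
  set S : Subgroup (Perm α) := H.map (alternatingGroup α).subtype
  set s : Perm α := swap a b with hs
  have hss : s * s = 1 := swap_mul_self _ _
  have hswaps : ∀ x y : α, x ≠ y → swap x y ∈ Subgroup.closure {g : Perm α | ∃ i, i ≠ a ∧ g = swap a i} := by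
    intro x y hxy
    by_cases hx : x = a
    · exact Subgroup.subset_closure ⟨y, by rw [← hx]; exact hxy.symm, by rw [hx]⟩
    by_cases hy : y = a
    · exact Subgroup.subset_closure ⟨x, hx, by rw [hy, swap_comm]⟩
    have e : swap x y = swap a x * swap a y * (swap a x)⁻¹ := by
      rw [← Equiv.swap_apply_apply, swap_apply_left, swap_apply_of_ne_of_ne hy (Ne.symm hxy)]
    rw [e]
    exact mul_mem (mul_mem (Subgroup.subset_closure ⟨x, hx, rfl⟩) (Subgroup.subset_closure ⟨y, hy, rfl⟩))
      (inv_mem (Subgroup.subset_closure ⟨x, hx, rfl⟩))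
  have hcover : ∀ g : Perm α, g ∈ S ∨ s * g ∈ S := by
    intro g
    have hg : g ∈ Subgroup.closure {g : Perm α | ∃ i, i ≠ a ∧ g = swap a i} := by
      have hle : Subgroup.closure {σ : Perm α | σ.IsSwap} ≤ Subgroup.closure {g : Perm α | ∃ i, i ≠ a ∧ g = swap a i} :=
        (Subgroup.closure_le _).mpr (by
          rintro _ ⟨x, y, hxy, rfl⟩
          exact hswaps x y hxy)
      rw [Perm.closure_isSwap] at hle
      exact hle (Subgroup.mem_top _)
    have step : ∀ i, i ≠ a → ∀ v, (v ∈ S ∨ s * v ∈ S) → (swap a i * v ∈ S ∨ s * (swap a i * v) ∈ S) := by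
      intro i hi v hv
      by_cases hib : i = b
      · rw [hib, ← hs]
        rcases hv with hv | hv
        · exact Or.inr (by rwa [← mul_assoc, hss, one_mul])
        · exact Or.inl hv
      have hc : swap a i * s ∈ S := ⟨cycA a b i, h i hi hib, coe_cycA hab (Ne.symm hi)⟩
      rcases hv with hv | hv
      · refine Or.inr ?_
        have := mul_mem (inv_mem hc) hv
        rwa [mul_inv_rev, hs, swap_inv, swap_inv, ← hs, mul_assoc] at this
      · refine Or.inl ?_
        have := mul_mem hc hv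
        rwa [mul_assoc, ← mul_assoc s, hss, one_mul] at this
    induction hg using Subgroup.closure_induction_left with
    | one => exact Or.inl (one_mem _)
    | mul_left u hu v _ hv =>
      obtain ⟨i, hi, rfl⟩ := hu
      exact step i hi v hv
    | inv_mul_cancel u hu v _ hv =>
      obtain ⟨i, hi, rfl⟩ := hu
      rw [swap_inv]
      exact step i hi v hv
  rw [eq_top_iff]
  intro g _
  rcases hcover (g : Perm α) with ⟨x, hx, e⟩ | ⟨x, -, e⟩
  · exact Subtype.coe_injective e ▸ hx
  · exfalso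
    have h1 : Perm.sign (x : Perm α) = 1 := Perm.mem_alternatingGroup.mp x.2
    rw [show (x : Perm α) = s * (g : Perm α) from e, map_mul, hs, Perm.sign_swap hab,
      Perm.mem_alternatingGroup.mp g.2] at h1
    exact absurd h1 (by decide)

/-- Carmichael's relations force the alternating group. -/
theorem carmichael_bij {m : ℕ} (hα : Fintype.card α = m + 2) {a b : α} (hab : a ≠ b) (pts : Fin m → α)
    (hpts : ∀ i, i ≠ a → i ≠ b → ∃ k, pts k = i) {E : Type*} [Group E] (x : Fin m → E) (h3 : ∀ i, x i ^ 3 = 1)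
    (h2 : ∀ i j, i ≠ j → (x i * x j) ^ 2 = 1) (hgen : Subgroup.closure (Set.range x) = ⊤)
    (ψ : E →* alternatingGroup α) (hψ : ∀ i, ψ (x i) = cycA a b (pts i)) : Function.Bijective ψ := by
  classical
  have : Nontrivial α := nontrivial_of_ne a b hab
  have hsurj : Function.Surjective ψ := by
    rw [← MonoidHom.range_eq_top]
    refine eq_top_of_cycA hab _ fun i hia hib => ?_
    obtain ⟨k, rfl⟩ := hpts i hia hib
    exact ⟨x k, hψ k⟩
  let y : ℕ → E := fun i => if h : i < m then x ⟨i, h⟩ else 1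
  obtain ⟨S, hS, hmem⟩ := Cfsg.Agent.Suzuki.Triple.carmichael_bound y (fun i => by
    by_cases h : i < m
    · simp only [y, dif_pos h]
      rw [← h3 ⟨i, h⟩, pow_succ, pow_two]
    · simp [y, dif_neg h]) m (fun i j hi hj hij => by
      simp only [y, dif_pos hi, dif_pos hj]
      rw [← pow_two]
      exact h2 _ _ (by simpa using hij))
  have hall : ∀ g : E, g ∈ S := fun g => hmem g (by
    have : Set.range x ⊆ y '' {i | i < m} := by
      rintro _ ⟨i, rfl⟩
      exact ⟨i, i.2, by simp [y]⟩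
    exact Subgroup.closure_mono this (hgen ▸ Subgroup.mem_top g))
  let : Fintype E := ⟨S, hall⟩
  refine hsurj.bijective_of_nat_card_le ?_
  have h1 : Nat.card E = S.card := by rw [Nat.card_eq_fintype_card]; rfl
  have h2' : 2 * Nat.card (alternatingGroup α) = Nat.factorial (m + 2) := by
    rw [two_mul_nat_card_alternatingGroup, Nat.card_perm, Nat.card_eq_fintype_card, hα]
  omega

/-- Carmichael's presentation. -/
theorem alt_small (m : ℕ) : PresBy (alternatingGroup (Fin (m + 2))) m (m + m * m) := by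
  classical
  let a : Fin (m + 2) := ⟨0, by omega⟩
  let b : Fin (m + 2) := ⟨1, by omega⟩
  let pts : Fin m → Fin (m + 2) := fun i => ⟨i + 2, by omega⟩
  have hne : ∀ i, a ≠ pts i ∧ b ≠ pts i := fun i => ⟨by simp [a, pts, Fin.ext_iff], by simp [b, pts, Fin.ext_iff]⟩
  let rel : Fin m × Fin m → FreeGroup (Fin m) := fun p =>
    if p.1 = p.2 then 1 else (FreeGroup.of p.1 * FreeGroup.of p.2) ^ 2
  refine of_relators (fun i => cycA a b (pts i))
    ((List.ofFn fun i : Fin m => FreeGroup.of i ^ 3) ++ (List.finRange m).flatMap fun i => List.ofFn fun j => rel (i, j))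
    (by simp [List.length_flatMap]) ?_ ?_
  · intro r hr
    simp only [List.mem_append, List.mem_ofFn, List.mem_flatMap] at hr
    rcases hr with ⟨i, rfl⟩ | ⟨i, -, j, rfl⟩
    · rw [map_pow, FreeGroup.lift_apply_of]
      exact cycA_cube (by simp [a, b]) (hne i).1 (hne i).2
    · by_cases h : i = j
      · simp [rel, h]
      · simp only [rel, if_neg h, map_pow, map_mul, FreeGroup.lift_apply_of]
        exact cycA_pair (by simp [a, b]) (hne i).1 (hne i).2 (hne j).1 (hne j).2 (by simp [pts, Fin.ext_iff]; omega)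
  · intro E _ f ψ hf hgen hψ
    refine carmichael_bij (by simp) (show a ≠ b by simp [a, b]) pts (fun i hia hib => ?_) f (fun i => ?_)
      (fun i j hij => ?_) hgen ψ hψ
    · simp only [a, b, Fin.ext_iff, ne_eq] at hia hib
      refine ⟨⟨i - 2, by omega⟩, ?_⟩
      simp [pts, Fin.ext_iff]; omega
    · have := hf (FreeGroup.of i ^ 3) (List.mem_append_left _ (List.mem_ofFn.mpr ⟨i, rfl⟩))
      simpa using this
    · have := hf (rel (i, j)) (List.mem_append_right _ (List.mem_flatMap.mpr
        ⟨i, List.mem_finRange i, List.mem_ofFn.mpr ⟨j, rfl⟩⟩))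
      simpa [rel, hij] using this

variable (p : ℕ) [hp : Fact p.Prime]

/-- The translation of the affine points. -/
def tA (i : ZMod p) : Perm (ZMod p ⊕ Fin 2) := Equiv.sumCongr (Equiv.addRight i) (Equiv.refl _)

/-- A multiplication of the affine points. -/
noncomputable def mB (r : (ZMod p)ˣ) : Perm (ZMod p ⊕ Fin 2) := Equiv.sumCongr (Units.mulLeft r) (Equiv.refl _)

theorem alt_prime (h5 : 5 ≤ p) : PresBy (alternatingGroup (Fin (p + 2))) 3 8 := by
  classical
  have hodd : Odd p := (Fact.out : p.Prime).odd_of_ne_two (by omega)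
  obtain ⟨r, hr⟩ := IsCyclic.exists_generator (α := (ZMod p)ˣ)
  have tA_pow : ∀ k : ℕ, tA p 1 ^ k = tA p (k : ZMod p) := by
    intro k
    induction k with
    | zero => ext (x | x) <;> simp [tA]
    | succ k ih =>
      rw [pow_succ, ih]
      ext (x | x) <;> simp [tA, add_comm, add_left_comm]
  have hTp : tA p 1 ^ p = 1 := by rw [tA_pow, ZMod.natCast_self]; ext (x | x) <;> simp [tA]
  have hsT : Perm.sign (tA p 1) = 1 := by
    have e := congrArg Perm.sign hTp
    rw [map_pow, map_one] at e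
    rcases Int.units_eq_one_or (Perm.sign (tA p 1)) with h | h
    · exact h
    · rw [h, hodd.neg_one_pow] at e
      exact absurd e (by decide)
  let T : alternatingGroup (ZMod p ⊕ Fin 2) := ⟨tA p 1, Perm.mem_alternatingGroup.mpr hsT⟩
  let M : alternatingGroup (ZMod p ⊕ Fin 2) :=
    ⟨mB p r ^ 2, Perm.mem_alternatingGroup.mpr (by rw [map_pow, Int.units_pow_two])⟩
  set a : ZMod p ⊕ Fin 2 := Sum.inr 0 with ha
  set b : ZMod p ⊕ Fin 2 := Sum.inr 1 with hb
  have hab : a ≠ b := by simp [a, b]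
  let Z := cycA a b (Sum.inl (0 : ZMod p))
  have hTk : ∀ k : ℕ, T ^ k * Z * (T ^ k)⁻¹ = cycA a b (Sum.inl (k : ZMod p)) := fun k => by
    rw [cycA_conj _ hab (by simp [a]), SubgroupClass.coe_pow, tA_pow]
    simp [tA, a, b]
  have hMv : ∀ x : ZMod p, (M : Perm (ZMod p ⊕ Fin 2)) (Sum.inl x) = Sum.inl ((r : ZMod p) * ((r : ZMod p) * x)) := by
    intro x; simp [M, mB, pow_two, mul_assoc]
  have hxgen : Subgroup.closure (Set.range fun k : ZMod p => cycA a b (Sum.inl k)) = ⊤ :=
    eq_top_of_cycA hab _ fun i hia hib => by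
      rcases i with i | i
      · exact Subgroup.subset_closure ⟨i, rfl⟩
      · fin_cases i
        · exact absurd rfl hia
        · exact absurd rfl hib
  obtain ⟨wT, hwT⟩ := exists_word _ hxgen T
  obtain ⟨wM, hwM⟩ := exists_word _ hxgen M
  let gT : FreeGroup (Fin 3) := FreeGroup.of 0
  let gM : FreeGroup (Fin 3) := FreeGroup.of 1
  let gZ : FreeGroup (Fin 3) := FreeGroup.of 2
  let sub : FreeGroup (ZMod p) →* FreeGroup (Fin 3) := FreeGroup.lift fun k => gT ^ k.val * gZ * (gT ^ k.val)⁻¹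
  set R : ℕ := (((r : ZMod p)) ^ 2).val
  set r1 : ℕ := (r : ZMod p).val
  let gens : Fin 3 → alternatingGroup (ZMod p ⊕ Fin 2) := ![T, M, Z]
  have hsub : (FreeGroup.lift gens).comp sub = FreeGroup.lift fun k => cycA a b (Sum.inl k) :=
    FreeGroup.ext_hom _ _ fun k => by
      simp only [MonoidHom.comp_apply, sub, FreeGroup.lift_apply_of, map_mul, map_pow, map_inv, gT, gZ, gens]
      show T ^ k.val * Z * (T ^ k.val)⁻¹ = _
      rw [hTk, ZMod.natCast_zmod_val]
  refine (of_relators gens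
    [gT ^ p, gM * gT * gM⁻¹ * (gT ^ R)⁻¹, gZ ^ 3, gM * gZ * gM⁻¹ * gZ⁻¹, (gZ * (gT * gZ * gT⁻¹)) ^ 2,
      (gZ * (gT ^ r1 * gZ * (gT ^ r1)⁻¹)) ^ 2, gT * (sub wT)⁻¹, gM * (sub wM)⁻¹] (le_refl 8) ?_ ?_).map
    (Equiv.altCongrHom (Fintype.equivFinOfCardEq (by simp [ZMod.card] )))
  · have hne : ∀ x y : ZMod p, x ≠ y → (cycA a b (Sum.inl x) * cycA a b (Sum.inl y)) ^ 2 = 1 := fun x y hxy =>
      cycA_pair hab (by simp [a]) (by simp [b]) (by simp [a]) (by simp [b]) (by simpa using hxy)
    have eZ : cycA a b (Sum.inl (0 : ZMod p)) = Z := rfl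
    intro g hg
    simp only [List.mem_cons, List.not_mem_nil, or_false] at hg
    rcases hg with rfl | rfl | rfl | rfl | rfl | rfl | rfl | rfl <;>
      simp only [map_mul, map_pow, map_inv, gT, gM, gZ, FreeGroup.lift_apply_of, gens, mul_inv_eq_one]
    · exact Subtype.ext (by rw [SubgroupClass.coe_pow]; exact hTp)
    · rw [mul_inv_eq_iff_eq_mul]
      refine Subtype.ext ?_
      show (M : Perm (ZMod p ⊕ Fin 2)) * tA p 1 = (T ^ R : alternatingGroup (ZMod p ⊕ Fin 2)) * (M : Perm (ZMod p ⊕ Fin 2))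
      rw [SubgroupClass.coe_pow, show (T : Perm (ZMod p ⊕ Fin 2)) = tA p 1 from rfl, tA_pow, ZMod.natCast_zmod_val]
      ext (x | x)
      · simp [M, mB, tA, pow_two, mul_add, mul_assoc]
      · simp [M, mB, tA, pow_two]
    · show Z ^ 3 = 1
      exact cycA_cube hab (by simp [a]) (by simp [b])
    · show M * Z * M⁻¹ = Z
      rw [cycA_conj _ hab (by simp [a])]
      simp [hMv, M, mB, a, b, pow_two, Z]
    · show (Z * (T * Z * T⁻¹)) ^ 2 = 1
      have := hTk 1
      rw [pow_one, Nat.cast_one] at this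
      rw [this, ← eZ]
      exact hne _ _ zero_ne_one
    · show (Z * (T ^ r1 * Z * (T ^ r1)⁻¹)) ^ 2 = 1
      rw [hTk, ← eZ, ZMod.natCast_zmod_val]
      exact hne _ _ r.ne_zero.symm
    · show T = _
      rw [← MonoidHom.comp_apply, hsub, hwT]
    · show M = _
      rw [← MonoidHom.comp_apply, hsub, hwM]
  intro E _ f ψ hf hgen hψ
  have hf' := fun g hg => hf g hg
  simp only [List.mem_cons, List.not_mem_nil, or_false, forall_eq_or_imp, forall_eq] at hf'
  obtain ⟨e1, e2, e3, e4, e5, e6, e7, e8⟩ := hf'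
  simp only [map_mul, map_pow, map_inv, gT, gM, gZ, FreeGroup.lift_apply_of, mul_inv_eq_one] at e1 e2 e3 e4 e5 e6 e7 e8
  set t := f 0
  set μ := f 1
  set z := f 2
  have htper : ∀ k : ℕ, t ^ k = t ^ (k % p) := fun k => pow_eq_pow_mod k e1
  let X : ZMod p → E := fun k => t ^ k.val * z * (t ^ k.val)⁻¹
  have hX : ∀ k : ℕ, t ^ k * z * (t ^ k)⁻¹ = X (k : ZMod p) := fun k => by
    simp only [X, ZMod.val_natCast, ← htper]
  have htX : ∀ (u : ℕ) (k : ZMod p), t ^ u * X k * (t ^ u)⁻¹ = X (u + k) := by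
    intro u k
    have := hX (u + k.val)
    rw [Nat.cast_add, ZMod.natCast_zmod_val, pow_add] at this
    rw [← this]; simp only [X]; group
  have hμX : ∀ k : ZMod p, μ * X k * μ⁻¹ = X ((r : ZMod p) ^ 2 * k) := by
    intro k
    have := hX (R * k.val)
    rw [Nat.cast_mul, ZMod.natCast_zmod_val, ZMod.natCast_zmod_val, pow_mul, ← e2, conj_pow] at this
    rw [← this]
    calc μ * X k * μ⁻¹ = (μ * t ^ k.val * μ⁻¹) * (μ * z * μ⁻¹) * (μ * t ^ k.val * μ⁻¹)⁻¹ := by simp only [X]; group
      _ = _ := by rw [e4]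
  have hμd : ∀ (u : ℕ) (k : ZMod p), μ ^ u * X k * (μ ^ u)⁻¹ = X ((r : ZMod p) ^ (2 * u) * k) := by
    intro u
    induction u with
    | zero => intro k; simp
    | succ u ih =>
      intro k
      calc μ ^ (u + 1) * X k * (μ ^ (u + 1))⁻¹ = μ ^ u * (μ * X k * μ⁻¹) * (μ ^ u)⁻¹ := by rw [pow_succ]; group
        _ = _ := by rw [hμX, ih]; congr 1; ring
  have hconjsq : ∀ g x y : E, (x * y) ^ 2 = 1 → (g * x * g⁻¹ * (g * y * g⁻¹)) ^ 2 = 1 := fun g x y h => by
    rw [show g * x * g⁻¹ * (g * y * g⁻¹) = g * (x * y) * g⁻¹ by group, conj_pow, h, mul_one, mul_inv_cancel]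
  have hX0 : X 0 = z := by simp [X]
  have hd : ∀ d : ZMod p, d ≠ 0 → (X 0 * X d) ^ 2 = 1 := by
    intro d hd
    obtain ⟨k, hk⟩ := mem_powers_iff_mem_zpowers.mpr (hr (Units.mk0 d hd))
    have hk' : (r : ZMod p) ^ k = d := by simpa using congrArg Units.val hk
    have base1 : (X 0 * X 1) ^ 2 = 1 := by
      have := hX 1
      rw [pow_one, Nat.cast_one] at this
      rw [hX0, ← this]; exact e5
    have base2 : (X 0 * X (r : ZMod p)) ^ 2 = 1 := by
      have := hX r1
      rw [ZMod.natCast_zmod_val] at this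
      rw [hX0, ← this]; exact e6
    obtain ⟨u, rfl | rfl⟩ := Nat.even_or_odd' k
    · have := hconjsq (μ ^ u) _ _ base1
      rwa [hμd, hμd, mul_zero, mul_one, hk'] at this
    · have := hconjsq (μ ^ u) _ _ base2
      rwa [hμd, hμd, mul_zero, ← pow_succ, hk'] at this
  have hpair : ∀ i j : ZMod p, i ≠ j → (X i * X j) ^ 2 = 1 := by
    intro i j hij
    have := hconjsq (t ^ i.val) _ _ (hd (j - i) (sub_ne_zero.mpr hij.symm))
    rwa [htX, htX, ZMod.natCast_zmod_val, add_zero, add_sub_cancel] at this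
  have hψX : ∀ k : ZMod p, ψ (X k) = cycA a b (Sum.inl k) := by
    intro k
    simp only [X, map_mul, map_pow, map_inv, t, z, hψ]
    show T ^ k.val * Z * (T ^ k.val)⁻¹ = _
    rw [hTk, ZMod.natCast_zmod_val]
  have hsubE : (FreeGroup.lift f).comp sub = FreeGroup.lift X := FreeGroup.ext_hom _ _ fun k => by
    simp [sub, gT, gZ, X, t, z]
  let eq : Fin p ≃ ZMod p := (Fintype.equivFinOfCardEq (ZMod.card p)).symm
  refine carmichael_bij (by simp [ZMod.card]) hab (fun k => Sum.inl (eq k)) ?_ (fun k => X (eq k)) (fun k => ?_)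
    (fun i j hij => hpair _ _ (eq.injective.ne hij)) ?_ ψ (fun k => hψX _)
  · rintro (i | i) hia hib
    · exact ⟨eq.symm i, by simp⟩
    · fin_cases i
      · exact absurd rfl hia
      · exact absurd rfl hib
  · simp only [X, conj_pow]
    rw [e3, mul_one, mul_inv_cancel]
  · rw [eq_top_iff, ← hgen, Subgroup.closure_le]
    have hmem : ∀ k, X k ∈ Subgroup.closure (Set.range fun i => X (eq i)) := fun k =>
      Subgroup.subset_closure ⟨eq.symm k, by simp⟩
    have hw : ∀ w, FreeGroup.lift X w ∈ Subgroup.closure (Set.range fun i => X (eq i)) := fun w => by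
      have h1 : (FreeGroup.lift X).range ≤ Subgroup.closure (Set.range fun i => X (eq i)) := by
        rw [FreeGroup.range_lift_eq_closure, Subgroup.closure_le]
        rintro _ ⟨k, rfl⟩
        exact hmem k
      exact h1 ⟨w, rfl⟩
    rintro _ ⟨i, rfl⟩
    fin_cases i
    · show t ∈ _
      rw [e7, ← MonoidHom.comp_apply, hsubE]; exact hw _
    · show μ ∈ _
      rw [e8, ← MonoidHom.comp_apply, hsubE]; exact hw _
    · show z ∈ _
      rw [← hX0]; exact hmem 0

end Cfsg.Agent.KnownA.Bounded
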