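import Cfsg.Agent.KnownA.Bounded.AltBase

/-! Gluing two presented alternating groups along a large overlap. -/

set_option autoImplicit false
set_option linter.unusedSectionVars false

namespace Cfsg.Agent.KnownA.Bounded

open Equiv

section Perms

variable {n : ℕ}

/-- Reversal of the points from two on. -/
def revTail (n : ℕ) : Perm (Fin n) :=
  Function.Involutive.toPerm
    (fun i : Fin n => if _h : i.val < 2 then i else ⟨n + 1 - i.val, by have := i.isLt; omega⟩)
    (fun i => by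
      have := i.isLt
      by_cases h : i.val < 2
      · simp [h]
      · simp only [h, dif_neg, not_false_eq_true]
        by_cases h' : n + 1 - i.val < 2
        · omega
        · simp only [h', dif_neg, not_false_eq_true]
          exact Fin.ext (by simp; omega))

theorem revTail_apply (i : Fin n) :
    (revTail n i).val = if i.val < 2 then i.val else n + 1 - i.val := by
  simp [revTail, Function.Involutive.toPerm]
  split_ifs <;> simp

/-- Rotation of an interval. -/
def rotI (lo hi : ℕ) (hhi : hi ≤ n) : Perm (Fin n) where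
  toFun i := if _h : lo ≤ i.val ∧ i.val < hi then
      (if _h' : i.val + 1 < hi then ⟨i.val + 1, by omega⟩ else ⟨lo, by omega⟩) else i
  invFun i := if _h : lo ≤ i.val ∧ i.val < hi then
      (if _h' : lo < i.val then ⟨i.val - 1, by omega⟩ else ⟨hi - 1, by omega⟩) else i
  left_inv i := by
    have := i.isLt
    dsimp only
    split_ifs <;> first | rfl | (apply Fin.ext; simp at * <;> omega) | (exfalso; simp at * <;> omega)
  right_inv i := by
    have := i.isLt
    dsimp only
    split_ifs <;> first | rfl | (apply Fin.ext; simp at * <;> omega) | (exfalso; simp at * <;> omega)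

theorem rotI_out {lo hi : ℕ} (hhi : hi ≤ n) (i : Fin n) (h : i.val < lo ∨ hi ≤ i.val) : rotI lo hi hhi i = i := by
  show (if _h : lo ≤ i.val ∧ i.val < hi then _ else i) = i
  rw [dif_neg (by omega)]

theorem rotI_succ {lo hi : ℕ} (hhi : hi ≤ n) (i : Fin n) (h1 : lo ≤ i.val) (h2 : i.val + 1 < hi) :
    (rotI lo hi hhi i).val = i.val + 1 := by
  show (if _h : lo ≤ i.val ∧ i.val < hi then
      (if _h' : i.val + 1 < hi then (⟨i.val + 1, by omega⟩ : Fin n) else ⟨lo, by omega⟩) else i).val = _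
  rw [dif_pos ⟨h1, by omega⟩, dif_pos h2]

/-- Make a permutation even by a disjoint transposition. -/
theorem exists_even_fix (ρ : Perm (Fin n)) (c d : Fin n) (hcd : c ≠ d) :
    ∃ π : alternatingGroup (Fin n), ∀ i, i ≠ c → i ≠ d → (π : Perm (Fin n)) i = ρ i := by
  rcases Int.units_eq_one_or (Perm.sign ρ) with h | h
  · exact ⟨⟨ρ, Perm.mem_alternatingGroup.mpr h⟩, fun i _ _ => rfl⟩
  · refine ⟨⟨ρ * swap c d, Perm.mem_alternatingGroup.mpr (by rw [map_mul, h, Perm.sign_swap hcd]; rfl)⟩,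
      fun i h1 h2 => ?_⟩
    show ρ (swap c d i) = ρ i
    rw [swap_apply_of_ne_of_ne h1 h2]

theorem pow_apply_interval {lo hi : ℕ} (π : Perm (Fin n))
    (h : ∀ i : Fin n, lo ≤ i.val → i.val + 1 < hi → (π i).val = i.val + 1) (a : Fin n) (ha : a.val = lo) :
    ∀ k, lo + k < hi → ((π ^ k) a).val = lo + k := by
  intro k
  induction k with
  | zero => intro _; simp [ha]
  | succ k ih =>
    intro hk
    have hih := ih (by omega)
    rw [pow_succ']
    show (π ((π ^ k) a)).val = _
    rw [h _ (by omega) (by omega), hih]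
    omega

/-- A rotation made even by a disjoint transposition, if necessary. -/
theorem exists_even_rot {lo hi : ℕ} (hhi : hi ≤ n) (c d : Fin n) (hcd : c ≠ d) :
    ∃ π : alternatingGroup (Fin n), (∀ i : Fin n, i ≠ c → i ≠ d → (π : Perm (Fin n)) i = rotI lo hi hhi i) ∧
      ((π : Perm (Fin n)) = rotI lo hi hhi ∨ (π : Perm (Fin n)) = rotI lo hi hhi * swap c d) := by
  rcases Int.units_eq_one_or (Perm.sign (rotI lo hi hhi)) with h | h
  · exact ⟨⟨rotI lo hi hhi, Perm.mem_alternatingGroup.mpr h⟩, fun i _ _ => rfl, Or.inl rfl⟩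
  · refine ⟨⟨rotI lo hi hhi * swap c d, Perm.mem_alternatingGroup.mpr (by rw [map_mul, h, Perm.sign_swap hcd]; rfl)⟩,
      fun i h1 h2 => ?_, Or.inr rfl⟩
    show rotI lo hi hhi (swap c d i) = rotI lo hi hhi i
    rw [swap_apply_of_ne_of_ne h1 h2]

theorem swap_commute_rotI {lo hi : ℕ} (hhi : hi ≤ n) (c d : Fin n) (hc : c.val < lo ∨ hi ≤ c.val)
    (hd : d.val < lo ∨ hi ≤ d.val) : Commute (swap c d) (rotI lo hi hhi) := by
  refine Perm.Disjoint.commute fun i => ?_
  by_cases h : i = c ∨ i = d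
  · rcases h with rfl | rfl
    · exact Or.inr (rotI_out hhi _ hc)
    · exact Or.inr (rotI_out hhi _ hd)
  · simp only [not_or] at h
    exact Or.inl (swap_apply_of_ne_of_ne h.1 h.2)

end Perms

section Embed

variable {m n : ℕ} (hmn : m ≤ n)

/-- The first points. -/
def lowEquiv : Fin m ≃ {i : Fin n // i.val < m} where
  toFun i := ⟨Fin.castLE hmn i, i.isLt⟩
  invFun i := ⟨i.1.val, i.2⟩
  left_inv i := rfl
  right_inv i := rfl

/-- Alternating group of the first points. -/
def emb : alternatingGroup (Fin m) →* alternatingGroup (Fin n) :=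
  MonoidHom.codRestrict ((Perm.extendDomainHom (lowEquiv hmn)).comp (alternatingGroup (Fin m)).subtype) _ fun g =>
    Perm.mem_alternatingGroup.mpr (by
      show Perm.sign (Perm.extendDomain (g : Perm (Fin m)) (lowEquiv hmn)) = 1
      rw [Perm.sign_extendDomain]; exact Perm.mem_alternatingGroup.mp g.2)

theorem emb_low (g : alternatingGroup (Fin m)) (i : Fin m) :
    (emb hmn g : Perm (Fin n)) (Fin.castLE hmn i) = Fin.castLE hmn ((g : Perm (Fin m)) i) :=
  Perm.extendDomain_apply_image _ (lowEquiv hmn) i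

theorem emb_high (g : alternatingGroup (Fin m)) (i : Fin n) (hi : m ≤ i.val) :
    (emb hmn g : Perm (Fin n)) i = i :=
  Perm.extendDomain_apply_not_subtype _ (lowEquiv hmn) (by omega)

theorem emb_injective : Function.Injective (emb hmn) := by
  intro g h e
  refine Subtype.ext (Equiv.ext fun i => Fin.castLE_injective hmn ?_)
  rw [← emb_low, ← emb_low, e]

theorem emb_cycA (a b i : Fin m) (hab : a ≠ b) (hai : a ≠ i) :
    emb hmn (cycA a b i) = cycA (Fin.castLE hmn a) (Fin.castLE hmn b) (Fin.castLE hmn i) := by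
  have inj := Fin.castLE_injective hmn
  refine Subtype.ext (Equiv.ext fun z => ?_)
  rw [coe_cycA (inj.ne hab) (inj.ne hai)]
  by_cases hz : z.val < m
  · obtain ⟨z, rfl⟩ : ∃ z', Fin.castLE hmn z' = z := ⟨⟨z.val, hz⟩, rfl⟩
    rw [emb_low, coe_cycA hab hai]
    simp only [Perm.coe_mul, Function.comp_apply, inj.map_swap]
  · rw [emb_high hmn _ _ (by omega)]
    have hne : ∀ j : Fin m, z ≠ Fin.castLE hmn j := fun j h => hz (by rw [h]; exact j.isLt)
    simp only [Perm.coe_mul, Function.comp_apply]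
    rw [swap_apply_of_ne_of_ne (hne a) (hne b), swap_apply_of_ne_of_ne (hne a) (hne i)]

theorem exists_emb (y : alternatingGroup (Fin n)) (hy : ∀ i : Fin n, m ≤ i.val → (y : Perm (Fin n)) i = i) :
    ∃ h, emb hmn h = y := by
  have hmem : ∀ x : Fin n, x.val < m ↔ ((y : Perm (Fin n)) x).val < m := by
    intro x
    constructor
    · intro hx
      by_contra hc
      have := hy _ (Nat.le_of_not_lt hc)
      rw [(y : Perm (Fin n)).injective this] at hc
      exact hc hx
    · intro hx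
      by_contra hc
      rw [hy x (by omega)] at hx
      exact hc hx
  let s : Perm {i : Fin n // i.val < m} := (y : Perm (Fin n)).subtypePerm fun x => (hmem x).symm
  let h : Perm (Fin m) := (lowEquiv hmn).symm.permCongr s
  have hext : Perm.extendDomain h (lowEquiv hmn) = (y : Perm (Fin n)) := by
    refine Equiv.ext fun z => ?_
    by_cases hz : z.val < m
    · rw [Perm.extendDomain_apply_subtype h (lowEquiv hmn) (b := z) hz]
      simp [h, s, Equiv.permCongr_apply]
    · rw [Perm.extendDomain_apply_not_subtype h (lowEquiv hmn) (b := z) hz, hy z (by omega)]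
  refine ⟨⟨h, Perm.mem_alternatingGroup.mpr ?_⟩, Subtype.ext hext⟩
  rw [← Perm.sign_extendDomain h (lowEquiv hmn), hext]
  exact Perm.mem_alternatingGroup.mp y.2

end Embed

theorem alt_glue {m n k R : ℕ} (hmn : m < n) (hn : n + 4 ≤ 2 * m) (hX : PresBy (alternatingGroup (Fin m)) k R) :
    PresBy (alternatingGroup (Fin n)) (k + 1) (R + 7) := by
  classical
  have hle : m ≤ n := hmn.le
  set r := n - m with hr
  let p0 : Fin n := ⟨0, by omega⟩
  let p1 : Fin n := ⟨1, by omega⟩
  let q0 : Fin m := ⟨0, by omega⟩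
  let q1 : Fin m := ⟨1, by omega⟩
  have hp01 : p0 ≠ p1 := by simp [p0, p1]
  have hq01 : q0 ≠ q1 := by simp [q0, q1]
  set ι := emb hle with hι
  -- the shift
  obtain ⟨g, hg0, hg1, hgup, hgdown⟩ : ∃ g : alternatingGroup (Fin n), (g : Perm (Fin n)) p0 = p0 ∧
      (g : Perm (Fin n)) p1 = p1 ∧
      (∀ i : Fin n, 2 ≤ i.val → i.val < m → 2 + r ≤ ((g : Perm (Fin n)) i).val) ∧
      (∀ j : Fin n, 2 + r ≤ j.val → ∃ i : Fin m, 2 ≤ i.val ∧ (g : Perm (Fin n)) (Fin.castLE hle i) = j) := by
    let c : Fin n := ⟨2, by omega⟩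
    let d : Fin n := ⟨3, by omega⟩
    obtain ⟨ρ, hρv⟩ : ∃ ρ : Perm (Fin n), ρ = revTail n := ⟨_, rfl⟩
    rcases Int.units_eq_one_or (Perm.sign ρ) with h | h
    · refine ⟨⟨ρ, Perm.mem_alternatingGroup.mpr h⟩, ?_, ?_, ?_, ?_⟩
      · exact Fin.ext (by simp [hρv, revTail_apply, p0])
      · exact Fin.ext (by simp [hρv, revTail_apply, p1])
      · intro i h1 h2
        show 2 + r ≤ (ρ i).val
        rw [hρv, revTail_apply]; split_ifs <;> omega
      · intro j hj
        refine ⟨⟨n + 1 - j.val, by omega⟩, by simp; omega, Fin.ext ?_⟩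
        show (ρ _).val = _
        rw [hρv, revTail_apply]; simp only [Fin.val_castLE]; split_ifs <;> omega
    · have hcd : c ≠ d := by simp [c, d]
      refine ⟨⟨ρ * swap c d, Perm.mem_alternatingGroup.mpr (by rw [map_mul, h, Perm.sign_swap hcd]; rfl)⟩,
        ?_, ?_, ?_, ?_⟩
      · show ρ (swap c d p0) = p0
        rw [swap_apply_of_ne_of_ne (by simp [p0, c]) (by simp [p0, d])]
        exact Fin.ext (by simp [hρv, revTail_apply, p0])
      · show ρ (swap c d p1) = p1
        rw [swap_apply_of_ne_of_ne (by simp [p1, c]) (by simp [p1, d])]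
        exact Fin.ext (by simp [hρv, revTail_apply, p1])
      · intro i h1 h2
        show 2 + r ≤ (ρ (swap c d i)).val
        rw [swap_apply_def]
        rw [hρv, revTail_apply]
        split_ifs <;> simp_all [c, d] <;> omega
      · intro j hj
        refine ⟨⟨(swap c d ⟨n + 1 - j.val, by omega⟩).val, ?_⟩, ?_, Fin.ext ?_⟩
        · rw [swap_apply_def]; split_ifs <;> simp [c, d] <;> omega
        · simp only [swap_apply_def]; split_ifs <;> simp [c, d] <;> omega
        · show (ρ (swap c d (swap c d _))).val = _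
          rw [swap_apply_self, hρv, revTail_apply]
          simp only
          split_ifs <;> omega
  -- the rotations
  obtain ⟨π, hπ⟩ := exists_even_fix (rotI (2 + r) m hle) p0 p1 hp01
  obtain ⟨P, hP, hP'⟩ := exists_even_rot (n := n) (lo := 2) (hi := 2 + r) (by omega)
    (⟨2 + r, by omega⟩ : Fin n) ⟨3 + r, by omega⟩ (by simp)
  obtain ⟨Q, hQ, hQ'⟩ := exists_even_rot (n := n) (lo := m) (hi := n) le_rfl
    (⟨2 + r, by omega⟩ : Fin n) ⟨3 + r, by omega⟩ (by simp)
  -- preimages
  have inRight : ∀ y : alternatingGroup (Fin n), (∀ i : Fin n, 2 ≤ i.val → i.val < 2 + r → (y : Perm (Fin n)) i = i) →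
      ∃ h, g * ι h * g⁻¹ = y := by
    intro y hy
    obtain ⟨h, hh⟩ := exists_emb hle (g⁻¹ * y * g) (fun i hi => by
      show (g : Perm (Fin n))⁻¹ ((y : Perm (Fin n)) ((g : Perm (Fin n)) i)) = i
      have hlow : 2 ≤ ((g : Perm (Fin n)) i).val ∧ ((g : Perm (Fin n)) i).val < 2 + r := by
        by_contra hc
        rcases Nat.lt_or_ge ((g : Perm (Fin n)) i).val 2 with h | h
        · rcases (show ((g : Perm (Fin n)) i).val = 0 ∨ ((g : Perm (Fin n)) i).val = 1 by omega) with h | h
          · have := (g : Perm (Fin n)).injective ((Fin.ext h : (g : Perm (Fin n)) i = p0).trans hg0.symm)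
            rw [this] at hi; simp [p0] at hi; omega
          · have := (g : Perm (Fin n)).injective ((Fin.ext h : (g : Perm (Fin n)) i = p1).trans hg1.symm)
            rw [this] at hi; simp [p1] at hi; omega
        · obtain ⟨i', -, hi'⟩ := hgdown ((g : Perm (Fin n)) i) (by omega)
          have := congrArg Fin.val ((g : Perm (Fin n)).injective hi')
          simp at this; omega
      rw [hy _ hlow.1 hlow.2, Perm.inv_eq_iff_eq])
    exact ⟨h, by rw [hι, hh]; group⟩
  have hπfix : ∀ i : Fin n, (m ≤ i.val ∨ (2 ≤ i.val ∧ i.val < 2 + r)) → (π : Perm (Fin n)) i = i := fun i hi => by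
    rw [hπ i (by simp [p0, Fin.ext_iff]; omega) (by simp [p1, Fin.ext_iff]; omega), rotI_out _ _ (by omega)]
  have hPfix : ∀ i : Fin n, (i.val < 2 ∨ m ≤ i.val) → (P : Perm (Fin n)) i = i := fun i hi => by
    rw [hP i (by simp [Fin.ext_iff]; omega) (by simp [Fin.ext_iff]; omega), rotI_out _ _ (by omega)]
  have hQfix : ∀ i : Fin n, (i.val < 2 + r) → (Q : Perm (Fin n)) i = i := fun i hi => by
    rw [hQ i (by simp [Fin.ext_iff]; omega) (by simp [Fin.ext_iff]; omega), rotI_out _ _ (by omega)]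
  obtain ⟨hπ₁, eπ₁⟩ := exists_emb hle π (fun i hi => hπfix i (Or.inl hi))
  obtain ⟨hπ₂, eπ₂⟩ := inRight π (fun i h1 h2 => hπfix i (Or.inr ⟨h1, h2⟩))
  obtain ⟨hP₁, eP₁⟩ := exists_emb hle P (fun i hi => hPfix i (Or.inr hi))
  obtain ⟨hQ₂, eQ₂⟩ := inRight Q (fun i _ h2 => hQfix i h2)
  -- the cycles
  let C : Fin n → alternatingGroup (Fin n) := fun i => cycA p0 p1 i
  let c : Fin m → alternatingGroup (Fin m) := fun i => cycA q0 q1 i
  have hne : ∀ i : Fin n, 2 ≤ i.val → p0 ≠ i ∧ p1 ≠ i := fun i hi =>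
    ⟨by simp [p0, Fin.ext_iff]; omega, by simp [p1, Fin.ext_iff]; omega⟩
  have hneq : ∀ i : Fin m, 2 ≤ i.val → q0 ≠ i ∧ q1 ≠ i := fun i hi =>
    ⟨by simp [q0, Fin.ext_iff]; omega, by simp [q1, Fin.ext_iff]; omega⟩
  have hιc : ∀ i : Fin m, 2 ≤ i.val → ι (c i) = C (Fin.castLE hle i) := fun i hi =>
    emb_cycA hle q0 q1 i hq01 (hneq i hi).1
  have hgc : ∀ i : Fin m, 2 ≤ i.val → g * ι (c i) * g⁻¹ = C ((g : Perm (Fin n)) (Fin.castLE hle i)) := fun i hi => by
    rw [hιc i hi]
    show g * cycA p0 p1 _ * g⁻¹ = _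
    rw [cycA_conj _ hp01 (hne _ (by simpa using hi)).1, hg0, hg1]
  have hgen : Subgroup.closure (C '' {i | 2 ≤ i.val}) = ⊤ :=
    eq_top_of_cycA hp01 _ fun i hi0 hi1 =>
      Subgroup.subset_closure ⟨i, (by simp [p0, p1, Fin.ext_iff] at hi0 hi1; show 2 ≤ i.val; omega), rfl⟩
  have hgenm : Subgroup.closure (c '' {i | 2 ≤ i.val}) = ⊤ :=
    eq_top_of_cycA hq01 _ fun i hi0 hi1 =>
      Subgroup.subset_closure ⟨i, (by simp [q0, q1, Fin.ext_iff] at hi0 hi1; show 2 ≤ i.val; omega), rfl⟩
  choose pre hpre2 hpre using hgdown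
  have hgen' : Subgroup.closure (Set.range fun i : {i : Fin n // 2 ≤ i.val} => C i.1) = ⊤ := by
    rw [← hgen]; congr 1; ext y; simp [Set.mem_image]
  obtain ⟨wg, hwg⟩ := exists_word _ hgen' g
  -- the relators
  let F := FreeGroup (alternatingGroup (Fin m) ⊕ Fin 1)
  let sL : alternatingGroup (Fin m) → F := fun h => FreeGroup.of (Sum.inl h)
  let gam : F := FreeGroup.of (Sum.inr 0)
  let sR : alternatingGroup (Fin m) → F := fun h => gam * sL h * gam⁻¹
  let X : {i : Fin n // 2 ≤ i.val} → F := fun i =>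
    if h : i.1.val < m then sL (c ⟨i.1.val, h⟩) else sR (c (pre i.1 (by omega)))
  let i0 : Fin n := ⟨2, by omega⟩
  let j0 : Fin n := ⟨m, hmn⟩
  let o0 : Fin n := ⟨2 + r, by omega⟩
  let ci0 := c ⟨2, by omega⟩
  let cj0 := c (pre j0 (by simp [j0]; omega))
  let L : List F := [sL (c ⟨2 + r, by omega⟩) * (sR (c (pre o0 le_rfl)))⁻¹, sL hπ₁ * (sR hπ₂)⁻¹,
    gam * (FreeGroup.lift X wg)⁻¹, sL hP₁ * sR hQ₂ * (sR hQ₂ * sL hP₁)⁻¹,
    sL hP₁ * sR cj0 * (sR cj0 * sL hP₁)⁻¹, sR hQ₂ * sL ci0 * (sL ci0 * sR hQ₂)⁻¹, (sL ci0 * sR cj0) ^ 2]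
  refine extend hX ι ![g] L (le_refl 7) ?_ ?_
  · set φ := FreeGroup.lift (Sum.elim (fun h => ι h) ![g])
    have eL : ∀ h, φ (sL h) = ι h := fun h => by simp [φ, sL]
    have eR : ∀ h, φ (sR h) = g * ι h * g⁻¹ := fun h => by simp [φ, sR, sL, gam]
    have eG : φ gam = g := by simp [φ, gam]
    have eX : φ.comp (FreeGroup.lift X) = FreeGroup.lift fun i : {i : Fin n // 2 ≤ i.val} => C i.1 :=
      FreeGroup.ext_hom _ _ fun i => by
        simp only [MonoidHom.comp_apply, FreeGroup.lift_apply_of, X]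
        split_ifs with h
        · rw [eL, hιc _ i.2]; rfl
        · rw [eR, hgc _ (hpre2 _ _), hpre]
    have hcomm : ∀ y z : alternatingGroup (Fin n),
        (∀ i, (y : Perm (Fin n)) i = i ∨ (z : Perm (Fin n)) i = i) → y * z = z * y := fun y z h =>
      Subtype.ext ((Perm.Disjoint.commute h).eq)
    intro x hx
    simp only [L, List.mem_cons, List.not_mem_nil, or_false] at hx
    rcases hx with rfl | rfl | rfl | rfl | rfl | rfl | rfl
    · rw [map_mul, map_inv, mul_inv_eq_one, eL, eR, hgc _ (hpre2 _ _), hpre, hιc _ (by simp)]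
      rfl
    · rw [map_mul, map_inv, mul_inv_eq_one, eL, eR, eπ₂]; exact eπ₁
    · rw [map_mul, map_inv, mul_inv_eq_one, eG, ← MonoidHom.comp_apply, eX, hwg]
    · rw [map_mul, map_inv, mul_inv_eq_one, map_mul φ (sL hP₁) (sR hQ₂), map_mul φ (sR hQ₂) (sL hP₁), eL, eR, eQ₂, eP₁]
      refine Subtype.ext ?_
      show (P : Perm (Fin n)) * (Q : Perm (Fin n)) = (Q : Perm (Fin n)) * (P : Perm (Fin n))
      have cAB : Commute (rotI 2 (2 + r) (by omega : 2 + r ≤ n)) (rotI m n le_rfl) :=
        Perm.Disjoint.commute fun i => by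
          by_cases h : i.val < m
          · exact Or.inr (rotI_out _ _ (Or.inl h))
          · exact Or.inl (rotI_out _ _ (Or.inr (by omega)))
      have cA := swap_commute_rotI (lo := 2) (hi := 2 + r) (by omega : 2 + r ≤ n) (⟨2 + r, by omega⟩ : Fin n)
        ⟨3 + r, by omega⟩ (by simp) (by simp)
      have cB := swap_commute_rotI (lo := m) (hi := n) le_rfl (⟨2 + r, by omega⟩ : Fin n)
        ⟨3 + r, by omega⟩ (by simp; omega) (by simp; omega)
      rcases hP' with e | e <;> rcases hQ' with e' | e' <;> rw [e, e']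
      · exact cAB.eq
      · exact (cAB.mul_right cA.symm).eq
      · exact (cAB.mul_left cB).eq
      · exact ((cAB.mul_right cA.symm).mul_left (cB.mul_right (Commute.refl _))).eq
    · rw [map_mul, map_inv, mul_inv_eq_one, map_mul φ (sL hP₁) (sR cj0), map_mul φ (sR cj0) (sL hP₁), eL, eR, hgc _ (hpre2 _ _), hpre, eP₁]
      have := cycA_conj P hp01 (hne j0 (by simp [j0]; omega)).1
      rw [hPfix p0 (by simp [p0]), hPfix p1 (by simp [p1]), hPfix j0 (by simp [j0])] at this
      exact mul_inv_eq_iff_eq_mul.mp this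
    · rw [map_mul, map_inv, mul_inv_eq_one, map_mul φ (sR hQ₂) (sL ci0), map_mul φ (sL ci0) (sR hQ₂), eL, eR, eQ₂, hιc _ (by simp)]
      have := cycA_conj Q hp01 (hne i0 (by simp [i0])).1
      rw [hQfix p0 (by simp [p0]), hQfix p1 (by simp [p1]; omega), hQfix i0 (by simp [i0]; omega)] at this
      exact mul_inv_eq_iff_eq_mul.mp this
    · rw [map_pow, map_mul, eL, eR, hgc _ (hpre2 _ _), hpre, hιc _ (by simp)]
      exact cycA_pair hp01 (hne i0 (by simp [i0])).1 (hne i0 (by simp [i0])).2 (hne j0 (by simp [j0]; omega)).1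
        (hne j0 (by simp [j0]; omega)).2 (by simp [j0, Fin.ext_iff]; omega)
  intro E _ σ f ψ hf hgenE hψσ hψf
  let γ := f 0
  let τ : alternatingGroup (Fin m) →* E := (MulAut.conj γ).toMonoidHom.comp σ
  have hψτ : ∀ h, ψ (τ h) = g * ι h * g⁻¹ := fun h => by
    simp [τ, γ, hψσ, hψf]
  set φ := FreeGroup.lift (Sum.elim (fun h => σ h) f)
  have eL : ∀ h, φ (sL h) = σ h := fun h => by simp [φ, sL]
  have eR : ∀ h, φ (sR h) = τ h := fun h => by simp [φ, sR, sL, gam, τ, γ]
  have eG : φ gam = γ := by simp [φ, gam, γ]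
  have hf' := fun x hx => hf x hx
  simp only [L, List.mem_cons, List.not_mem_nil, or_false, forall_eq_or_imp, forall_eq] at hf'
  obtain ⟨r1, r2, r3, r4, r5, r6, r7⟩ := hf'
  simp only [map_mul, map_inv, map_pow, mul_inv_eq_one, eL, eR, eG] at r1 r2 r3 r4 r5 r6 r7
  -- agreement on the overlap
  let D : Subgroup (alternatingGroup (Fin n)) :=
    { carrier := {y | ∃ h h', ι h = y ∧ g * ι h' * g⁻¹ = y ∧ σ h = τ h'}
      one_mem' := ⟨1, 1, by simp, by simp, by simp⟩
      mul_mem' := by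
        rintro y z ⟨h, h', e1, e2, e3⟩ ⟨k, k', f1, f2, f3⟩
        exact ⟨h * k, h' * k', by rw [map_mul, e1, f1], by rw [map_mul, ← e2, ← f2]; group,
          by rw [map_mul, map_mul, e3, f3]⟩
      inv_mem' := by
        rintro y ⟨h, h', e1, e2, e3⟩
        exact ⟨h⁻¹, h'⁻¹, by rw [map_inv, e1], by rw [map_inv, ← e2]; group, by rw [map_inv, map_inv, e3]⟩ }
  have hD : ∀ d, 2 + r + d < m → ∀ i : Fin n, i.val = 2 + r + d → C i ∈ D := by
    intro d
    induction d with
    | zero =>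
      intro hd i hi
      obtain rfl : i = o0 := Fin.ext hi
      exact ⟨_, _, hιc ⟨2 + r, by omega⟩ (by simp), by rw [hgc _ (hpre2 _ _), hpre], r1⟩
    | succ d ih =>
      intro hd i hi
      have hi' := ih (by omega) ⟨2 + r + d, by omega⟩ rfl
      have hπD : π ∈ D := ⟨hπ₁, hπ₂, eπ₁, eπ₂, r2⟩
      have hconj := mul_mem (mul_mem hπD hi') (inv_mem hπD)
      have e := cycA_conj π hp01 (hne ⟨2 + r + d, by omega⟩ (by simp; omega)).1
      have hπi : (π : Perm (Fin n)) ⟨2 + r + d, by omega⟩ = i := by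
        rw [hπ _ (by simp [p0, Fin.ext_iff]) (by simp [p1, Fin.ext_iff]; omega)]
        exact Fin.ext (by rw [rotI_succ _ _ (by simp) (by simp; omega)]; simp; omega)
      rw [hπi] at e
      have h2 : ∀ z : Fin n, z.val < 2 → ((π : Perm (Fin n)) z).val < 2 := by
        intro z hz
        by_contra hc
        set w := (π : Perm (Fin n)) z with hw
        rcases (show m ≤ w.val ∨ w.val < 2 + r ∨ (2 + r ≤ w.val ∧ w.val < m) by omega) with h | h | h
        · have := (π : Perm (Fin n)).injective ((hπfix w (Or.inl h)).trans hw)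
          rw [this] at h; omega
        · have := (π : Perm (Fin n)).injective ((hπfix w (Or.inr ⟨by omega, h⟩)).trans hw)
          rw [this] at hc; omega
        · obtain ⟨u, hu⟩ := (rotI (2 + r) m hle).surjective w
          have hu1 : 2 + r ≤ u.val ∧ u.val < m := by
            by_contra hc'
            rw [rotI_out _ _ (by omega)] at hu
            rw [hu] at hc'; exact hc' h
          have := (π : Perm (Fin n)).injective
            ((hπ u (by simp [p0, Fin.ext_iff]; omega) (by simp [p1, Fin.ext_iff]; omega)).trans hu |>.trans hw)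
          rw [this] at hu1; omega
      have hne' : (π : Perm (Fin n)) p0 ≠ (π : Perm (Fin n)) p1 := (π : Perm (Fin n)).injective.ne hp01
      have ha := h2 p0 (by simp [p0])
      have hb := h2 p1 (by simp [p1])
      rcases (show ((π : Perm (Fin n)) p0).val = 0 ∨ ((π : Perm (Fin n)) p0).val = 1 by omega) with h0 | h0
      · rw [show (π : Perm (Fin n)) p0 = p0 from Fin.ext h0,
          show (π : Perm (Fin n)) p1 = p1 from Fin.ext (by
            have hv := Fin.val_ne_of_ne hne'
            show ((π : Perm (Fin n)) p1).val = 1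
            omega)] at e
        show cycA p0 p1 i ∈ D
        rwa [← e]
      · rw [show (π : Perm (Fin n)) p0 = p1 from Fin.ext h0,
          show (π : Perm (Fin n)) p1 = p0 from Fin.ext (by
            have hv := Fin.val_ne_of_ne hne'
            show ((π : Perm (Fin n)) p1).val = 0
            omega),
          cycA_swap hp01 (hne i (by omega)).1 (hne i (by omega)).2] at e
        have := inv_mem hconj
        show cycA p0 p1 i ∈ D
        rwa [e, inv_inv] at this
  let x : {i : Fin n // 2 ≤ i.val} → E := fun i => φ (X i)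
  have hxl : ∀ i : {i : Fin n // 2 ≤ i.val}, ∀ h : i.1.val < m, x i = σ (c ⟨i.1.val, h⟩) := fun i h => by
    simp only [x, X, dif_pos h, eL]
  have hxr : ∀ i : {i : Fin n // 2 ≤ i.val}, ∀ h : 2 + r ≤ i.1.val, x i = τ (c (pre i.1 h)) := fun i h => by
    by_cases hlt : i.1.val < m
    · rw [hxl i hlt]
      obtain ⟨u, u', e1, e2, e3⟩ := hD (i.1.val - (2 + r)) (by omega) i.1 (by omega)
      have hu : u = c ⟨i.1.val, hlt⟩ := emb_injective hle (by
        show ι u = ι _
        rw [e1, hιc _ i.2]; rfl)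
      have hu' : u' = c (pre i.1 h) := emb_injective hle (by
        have : g * ι u' * g⁻¹ = g * ι (c (pre i.1 h)) * g⁻¹ := by rw [e2, hgc _ (hpre2 _ _), hpre]
        exact mul_left_cancel (mul_right_cancel this))
      rw [← hu, ← hu', e3]
    · simp only [x, X, dif_neg hlt, eR]
  have hψx : ∀ i, ψ (x i) = C i.1 := fun i => by
    by_cases hlt : i.1.val < m
    · rw [hxl i hlt, hψσ, hιc _ i.2]; rfl
    · rw [hxr i (by omega), hψτ, hgc _ (hpre2 _ _), hpre]
  have hcube : ∀ i, x i ^ 3 = 1 := fun i => by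
    by_cases hlt : i.1.val < m
    · rw [hxl i hlt, ← map_pow, cycA_cube hq01 (hneq _ i.2).1 (hneq _ i.2).2, map_one]
    · rw [hxr i (by omega), ← map_pow, cycA_cube hq01 (hneq _ (hpre2 _ _)).1 (hneq _ (hpre2 _ _)).2, map_one]
  let I0 : {i : Fin n // 2 ≤ i.val} := ⟨i0, by simp [i0]⟩
  let J0 : {i : Fin n // 2 ≤ i.val} := ⟨j0, by simp [j0]; omega⟩
  have hi0 : σ ci0 = x I0 := (hxl I0 (by simp [I0, i0]; omega)).symm
  have hj0 : τ cj0 = x J0 := (hxr J0 (by simp [J0, j0]; omega)).symm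
  have hcross : ∀ i j : {i : Fin n // 2 ≤ i.val}, i.1.val < 2 + r → m ≤ j.1.val → (x i * x j) ^ 2 = 1 := by
    intro i j hi hj
    set u := i.1.val - 2
    set v := j.1.val - m
    have hPu : (P : Perm (Fin n)) p0 = p0 ∧ (P : Perm (Fin n)) p1 = p1 :=
      ⟨hPfix p0 (by simp [p0]), hPfix p1 (by simp [p1])⟩
    have hPi : ((P ^ u : alternatingGroup (Fin n)) : Perm (Fin n)) i0 = i.1 := by
      refine Fin.ext ?_
      rw [SubgroupClass.coe_pow, pow_apply_interval (lo := 2) (hi := 2 + r) _ (fun z h1 h2 => ?_) i0 rfl u (by omega)]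
      · omega
      · rw [hP z (by simp [Fin.ext_iff]; omega) (by simp [Fin.ext_iff]; omega), rotI_succ _ _ h1 h2]
    have hQj : ((Q ^ v : alternatingGroup (Fin n)) : Perm (Fin n)) j0 = j.1 := by
      refine Fin.ext ?_
      rw [SubgroupClass.coe_pow, pow_apply_interval (lo := m) (hi := n) _ (fun z h1 h2 => ?_) j0 rfl v (by omega)]
      · omega
      · rw [hQ z (by simp [Fin.ext_iff]; omega) (by simp [Fin.ext_iff]; omega), rotI_succ _ _ h1 h2]
    have fixpow : ∀ (S : alternatingGroup (Fin n)) (z : Fin n) (k : ℕ), (S : Perm (Fin n)) z = z →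
        ((S ^ k : alternatingGroup (Fin n)) : Perm (Fin n)) z = z := fun S z k h => by
      induction k with
      | zero => simp
      | succ k ih => rw [pow_succ, Subgroup.coe_mul, Perm.mul_apply, h, ih]
    have exi : σ hP₁ ^ u * x I0 * (σ hP₁ ^ u)⁻¹ = x i := by
      rw [← hi0, hxl i (by omega), ← map_pow, ← map_inv, ← map_mul, ← map_mul]
      congr 1
      refine emb_injective hle ?_
      show ι _ = ι _
      rw [map_mul, map_mul, map_inv, map_pow, eP₁, hιc ⟨i.1.val, by omega⟩ i.2, hιc ⟨2, by omega⟩ le_rfl]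
      show P ^ u * cycA p0 p1 i0 * (P ^ u)⁻¹ = _
      rw [cycA_conj _ hp01 (hne i0 (by simp [i0])).1, fixpow P p0 u hPu.1, fixpow P p1 u hPu.2]
      show cycA p0 p1 (((P ^ u : alternatingGroup (Fin n)) : Perm (Fin n)) i0) = _
      rw [hPi]; rfl
    have exj : τ hQ₂ ^ v * x J0 * (τ hQ₂ ^ v)⁻¹ = x j := by
      rw [← hj0, hxr j (by omega), ← map_pow, ← map_inv, ← map_mul, ← map_mul]
      congr 1
      refine emb_injective hle ?_
      show ι _ = ι _
      have key : g * ι (hQ₂ ^ v * cj0 * (hQ₂ ^ v)⁻¹) * g⁻¹ = g * ι (c (pre j.1 (by omega))) * g⁻¹ := by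
        rw [hgc _ (hpre2 _ _), hpre,
          show g * ι (hQ₂ ^ v * cj0 * (hQ₂ ^ v)⁻¹) * g⁻¹ =
            (g * ι hQ₂ * g⁻¹) ^ v * (g * ι cj0 * g⁻¹) * ((g * ι hQ₂ * g⁻¹) ^ v)⁻¹ by
            rw [conj_pow, map_mul, map_mul, map_inv, map_pow]; group,
          eQ₂, hgc _ (hpre2 _ _), hpre]
        show Q ^ v * cycA p0 p1 j0 * (Q ^ v)⁻¹ = _
        rw [cycA_conj _ hp01 (hne j0 (by simp [j0]; omega)).1, fixpow Q p0 v (hQfix p0 (by simp [p0])),
          fixpow Q p1 v (hQfix p1 (by simp [p1]; omega)), hQj]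
      exact mul_left_cancel (mul_right_cancel key)
    have c6 : Commute (τ hQ₂) (x I0) := hi0 ▸ r6
    have c5 : Commute (σ hP₁) (x J0) := hj0 ▸ r5
    have c4 : Commute (σ hP₁) (τ hQ₂) := r4
    set G1 := σ hP₁ ^ u * τ hQ₂ ^ v with hG1
    have e1 : G1 * x I0 * G1⁻¹ = x i := by
      rw [← exi, hG1]
      calc σ hP₁ ^ u * τ hQ₂ ^ v * x I0 * (σ hP₁ ^ u * τ hQ₂ ^ v)⁻¹
          = σ hP₁ ^ u * (τ hQ₂ ^ v * x I0 * (τ hQ₂ ^ v)⁻¹) * (σ hP₁ ^ u)⁻¹ := by group
        _ = _ := by rw [(c6.pow_left v).eq, mul_inv_cancel_right]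
    have e2 : G1 * x J0 * G1⁻¹ = x j := by
      rw [← exj, hG1, (c4.pow_pow u v).eq]
      calc τ hQ₂ ^ v * σ hP₁ ^ u * x J0 * (τ hQ₂ ^ v * σ hP₁ ^ u)⁻¹
          = τ hQ₂ ^ v * (σ hP₁ ^ u * x J0 * (σ hP₁ ^ u)⁻¹) * (τ hQ₂ ^ v)⁻¹ := by group
        _ = _ := by rw [(c5.pow_left u).eq, mul_inv_cancel_right]
    rw [← e1, ← e2, show G1 * x I0 * G1⁻¹ * (G1 * x J0 * G1⁻¹) = G1 * (x I0 * x J0) * G1⁻¹ by group, conj_pow,
      ← hi0, ← hj0, r7, mul_one, mul_inv_cancel]
  have hpair : ∀ i j, i ≠ j → (x i * x j) ^ 2 = 1 := by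
    intro i j hij
    have hv : i.1.val ≠ j.1.val := fun h => hij (Subtype.ext (Fin.ext h))
    by_cases h1 : i.1.val < m ∧ j.1.val < m
    · rw [hxl i h1.1, hxl j h1.2, ← map_mul, ← map_pow,
        cycA_pair hq01 (hneq _ i.2).1 (hneq _ i.2).2 (hneq _ j.2).1 (hneq _ j.2).2
          (by simpa [Fin.ext_iff] using hv), map_one]
    by_cases h2 : 2 + r ≤ i.1.val ∧ 2 + r ≤ j.1.val
    · rw [hxr i h2.1, hxr j h2.2, ← map_mul, ← map_pow,
        cycA_pair hq01 (hneq _ (hpre2 _ _)).1 (hneq _ (hpre2 _ _)).2 (hneq _ (hpre2 _ _)).1 (hneq _ (hpre2 _ _)).2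
          (fun h => hv (by
            have := congrArg (fun z => (g : Perm (Fin n)) (Fin.castLE hle z)) h
            simp only [hpre] at this
            exact congrArg Fin.val this)), map_one]
    rcases (show (i.1.val < 2 + r ∧ m ≤ j.1.val) ∨ (j.1.val < 2 + r ∧ m ≤ i.1.val) by omega) with h | h
    · exact hcross i j h.1 h.2
    · have := hcross j i h.1 h.2
      rw [show x i * x j = (x j)⁻¹ * (x j * x i) * (x j)⁻¹⁻¹ by group, conj_pow, this, mul_one, mul_inv_cancel]
  let eq : Fin (n - 2) ≃ {i : Fin n // 2 ≤ i.val} :=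
    { toFun := fun i => ⟨⟨i.val + 2, by omega⟩, by simp⟩
      invFun := fun i => ⟨i.1.val - 2, by omega⟩
      left_inv := fun i => by simp
      right_inv := fun i => Subtype.ext (Fin.ext (by have := i.2; simp; omega)) }
  refine carmichael_bij (by simp; omega) hp01 (fun k => (eq k).1) (fun i h0 h1 => ?_) (fun k => x (eq k))
    (fun k => hcube _) (fun a b hab => hpair _ _ (eq.injective.ne hab)) ?_ ψ (fun k => hψx _)
  · simp [p0, p1, Fin.ext_iff] at h0 h1
    exact ⟨eq.symm ⟨i, by omega⟩, by simp⟩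
  · set H := Subgroup.closure (Set.range fun k => x (eq k))
    have hmem : ∀ i, x i ∈ H := fun i => Subgroup.subset_closure ⟨eq.symm i, by simp⟩
    have hσ : ∀ h, σ h ∈ H := fun h => by
      have : (⊤ : Subgroup (alternatingGroup (Fin m))) ≤ H.comap σ := by
        rw [← hgenm, Subgroup.closure_le]
        rintro _ ⟨i, hi, rfl⟩
        have := hmem ⟨Fin.castLE hle i, by simpa using hi⟩
        rw [hxl ⟨Fin.castLE hle i, _⟩ (by simp)] at this
        simpa using this
      exact this (Subgroup.mem_top h)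
    rw [eq_top_iff, ← hgenE, Subgroup.closure_le]
    rintro _ (⟨h, rfl⟩ | ⟨i, rfl⟩)
    · exact hσ h
    · obtain rfl := Subsingleton.elim i 0
      show γ ∈ H
      rw [r3, ← MonoidHom.comp_apply,
        show φ.comp (FreeGroup.lift X) = FreeGroup.lift x from FreeGroup.ext_hom _ _ fun a => by simp [x]]
      have hle' : (FreeGroup.lift x).range ≤ H := by
        rw [FreeGroup.range_lift_eq_closure, Subgroup.closure_le]
        rintro _ ⟨a, rfl⟩
        exact hmem a
      exact hle' ⟨wg, rfl⟩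

end Cfsg.Agent.KnownA.Bounded
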