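import Cfsg.Agent.KnownA.Bounded.AltGlue

/-! Every alternating group has a presentation with at most twenty-two relations. -/

set_option autoImplicit false

namespace Cfsg.Agent.KnownA.Bounded

theorem exists_prime_window (n : ℕ) (hn : 7 ≤ n) : ∃ p, p.Prime ∧ 5 ≤ p ∧ p + 2 ≤ n ∧ n + 10 ≤ 4 * p := by
  by_cases h : n ≤ 8
  · exact ⟨5, by norm_num, le_rfl, by omega, by omega⟩
  by_cases h' : n ≤ 11
  · exact ⟨7, by norm_num, by omega, by omega, by omega⟩
  obtain ⟨p, hp, h1, h2⟩ := Nat.exists_prime_lt_and_le_two_mul ((n - 2) / 2) (by omega)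
  exact ⟨p, hp, by omega, by omega, by omega⟩

theorem alt_one (n : ℕ) (hn : n ≤ 1) : PresBy (alternatingGroup (Fin n)) 0 0 := by
  have : Subsingleton (Fin n) := Fin.subsingleton_iff_le_one.mpr hn
  refine of_relators Fin.elim0 [] le_rfl (by simp) fun E _ f ψ _ hgen _ => ?_
  have hE : ∀ e : E, e = 1 := fun e => by
    have : e ∈ Subgroup.closure (Set.range f) := by rw [hgen]; trivial
    simpa [Set.range_eq_empty f] using this
  refine ⟨fun a b _ => (hE a).trans (hE b).symm, fun g => ⟨1, ?_⟩⟩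
  exact Subtype.ext (Subsingleton.elim _ _)

/-- A bounded presentation of every alternating group. -/
theorem alt_pres_bound (n : ℕ) : ∃ k, k ≤ 5 ∧ PresBy (alternatingGroup (Fin n)) k 22 := by
  by_cases h1 : n ≤ 1
  · exact ⟨0, by omega, (alt_one n h1).mono (by omega)⟩
  by_cases h6 : n ≤ 6
  · obtain ⟨m, rfl⟩ : ∃ m, n = m + 2 := ⟨n - 2, by omega⟩
    exact ⟨m, by omega, (alt_small m).mono (by nlinarith)⟩
  obtain ⟨p, hp, h5, hlo, hhi⟩ := exists_prime_window n (by omega)
  have : Fact p.Prime := ⟨hp⟩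
  have hbase := alt_prime p h5
  rcases eq_or_lt_of_le hlo with h | h
  · exact ⟨3, by omega, h ▸ hbase.mono (by omega)⟩
  by_cases h2 : n + 2 ≤ 2 * p
  · exact ⟨4, by omega, (alt_glue h (by omega) hbase).mono (by omega)⟩
  have hmid := alt_glue (m := p + 2) (n := 2 * p - 2) (by omega) (by omega) hbase
  exact ⟨5, by omega, alt_glue (m := 2 * p - 2) (n := n) (by omega) (by omega) hmid⟩

theorem alt_pres (n : ℕ) : ∃ k, PresBy (alternatingGroup (Fin n)) k 22 := by
  obtain ⟨k, -, h⟩ := alt_pres_bound n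
  exact ⟨k, h⟩

theorem exists_prime_tight (n : ℕ) (hn : 7 ≤ n) :
    ∃ p, p.Prime ∧ 5 ≤ p ∧ p + 2 ≤ n ∧ n ≤ 2 * p := by
  by_cases h8 : n ≤ 8
  · exact ⟨5, by norm_num, le_rfl, by omega, by omega⟩
  by_cases h11 : n ≤ 11
  · exact ⟨7, by norm_num, by omega, by omega, by omega⟩
  obtain ⟨p, hp, h1, h2⟩ := Nat.exists_prime_lt_and_le_two_mul ((n - 2) / 2) (by omega)
  by_cases hgood : n ≤ 2 * p
  · exact ⟨p, hp, by omega, by omega, hgood⟩
  obtain ⟨p', hp', h1', h2'⟩ := Nat.exists_prime_lt_and_le_two_mul p (by omega)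
  have hne : p' ≠ 2 * p := fun h => Nat.not_prime_mul (a := 2) (by norm_num) hp.one_lt.ne' (h ▸ hp')
  exact ⟨p', hp', by omega, by omega, by omega⟩

/-- Large alternating groups have a presentation with four generators and fifteen relations. -/
theorem alt_pres_four (n : ℕ) (hn : 7 ≤ n) : PresBy (alternatingGroup (Fin n)) 3 8 ∨ PresBy (alternatingGroup (Fin n)) 4 15 := by
  obtain ⟨p, hp, h5, hlo, hhi⟩ := exists_prime_tight n hn
  have : Fact p.Prime := ⟨hp⟩
  have hbase := alt_prime p h5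
  rcases eq_or_lt_of_le hlo with h | h
  · exact Or.inl (h ▸ hbase)
  exact Or.inr (alt_glue h (by omega) hbase)

end Cfsg.Agent.KnownA.Bounded
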