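import Cfsg.Agent.KnownA.Bounded.SLn
import Cfsg.Agent.KnownA.Pres.Main
import Cfsg.Agent.KnownA.SteinbergPair

/-! Bounded two-generator presentations of the projective special linear groups. -/

set_option autoImplicit false
set_option linter.unusedSectionVars false

namespace Cfsg.Agent.KnownA.Bounded

open Equiv Matrix

universe u

variable {F : Type u} [Field F] [Fintype F]

theorem sl_two_generated (n : ℕ) (hn : 2 ≤ n) :
    ∃ a b : SpecialLinearGroup (Fin n) F, Subgroup.closure ({a, b} : Set _) = ⊤ := by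
  classical
  obtain ⟨n, rfl⟩ : ∃ m, n = m + 1 := ⟨n - 1, by omega⟩
  have h1 : 1 ≤ n := by omega
  have h01 : (0 : Fin (n + 1)) ≠ 1 := by
    intro e
    have := congrArg Fin.val e
    rw [Fin.val_zero, Fin.val_one', Nat.mod_eq_of_lt (by omega)] at this
    omega
  have v1 : ((1 : Fin (n + 1)) : ℕ) = 1 := by rw [Fin.val_one', Nat.mod_eq_of_lt (by omega)]
  let W : Matrix (Fin (n + 1)) (Fin (n + 1)) F := Matrix.of fun i j =>
    if j.val = i.val + 1 then 1 else if i.val = n ∧ j.val = 0 then (-1) ^ n else 0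
  have hW : W.det = 1 := by
    have e : W = Matrix.diagonal (SteinbergPair.sgn (K := F) n) * (finRotate (n + 1)).permMatrix F := by
      ext i j
      rw [SteinbergPair.w_apply (w := W) rfl, Matrix.diagonal_mul]
      simp only [Equiv.Perm.permMatrix, PEquiv.toMatrix_apply, Equiv.toPEquiv_apply, Option.mem_def,
        Option.some.injEq, finRotate_succ_apply]
      by_cases h : j = i + 1 <;> simp [h, Ne.symm]
    rw [e, Matrix.det_mul, Matrix.det_diagonal, Matrix.det_permutation, sign_finRotate,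
      Finset.prod_eq_single (Fin.last n)
        (fun i _ hi => by rw [SteinbergPair.sgn, if_neg fun e => hi (Fin.ext (e.trans (Fin.val_last n).symm))]) (by simp),
      SteinbergPair.sgn, if_pos (Fin.val_last n)]
    push_cast
    rw [← pow_add, ← two_mul, pow_mul, neg_one_sq, one_pow]
  set x : SpecialLinearGroup (Fin (n + 1)) F := SpecialLinearGroup.transvection h01 1
  set w : SpecialLinearGroup (Fin (n + 1)) F := ⟨W, hW⟩
  by_cases hq : Fintype.card F ≤ 3
  · exact ⟨x, w, SteinbergPair.closure_small hq h1 x w rfl rfl⟩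
  · obtain ⟨k, hk⟩ := IsCyclic.exists_generator (α := Fˣ)
    let d : Fin (n + 1) → F := fun i => if i.val = 0 then (k : F) else if i.val = 1 then ((k⁻¹ : Fˣ) : F) else 1
    have hd : (Matrix.diagonal d).det = 1 := by
      rw [Matrix.det_diagonal, Finset.prod_eq_mul 0 1 h01 (fun i _ hi => ?_) (by simp) (by simp)]
      · show (if ((0 : Fin (n + 1)) : ℕ) = 0 then (k : F) else _) * (if ((1 : Fin (n + 1)) : ℕ) = 0 then (k : F) else
          if ((1 : Fin (n + 1)) : ℕ) = 1 then ((k⁻¹ : Fˣ) : F) else 1) = 1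
        rw [v1, Fin.val_zero, if_pos rfl, if_neg one_ne_zero, if_pos rfl, Units.mul_inv]
      · have e0 : i.val ≠ 0 := fun e => hi.1 (Fin.ext e)
        have e1 : i.val ≠ 1 := fun e => hi.2 (Fin.ext (e.trans v1.symm))
        simp only [d, if_neg e0, if_neg e1]
    exact ⟨⟨_, hd⟩, x * w, SteinbergPair.closure_large (by omega) h1 k hk ⟨_, hd⟩ x w rfl rfl rfl⟩

theorem psl_two_generated (n : ℕ) (hn : 2 ≤ n) :
    ∃ a b : ProjectiveSpecialLinearGroup (Fin n) F, Subgroup.closure ({a, b} : Set _) = ⊤ := by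
  obtain ⟨g, g', htop⟩ := sl_two_generated (F := F) n hn
  refine ⟨QuotientGroup.mk' _ g, QuotientGroup.mk' _ g', ?_⟩
  rw [← Set.image_pair, ← MonoidHom.map_closure, htop,
    Subgroup.map_top_of_surjective _ (QuotientGroup.mk'_surjective _)]

theorem psl_pres (n : ℕ) (hn : 2 ≤ n) (h2 : n = 2 → 4 ≤ Fintype.card F) :
    ∃ rels : Finset (FreeGroup (Fin 2)), rels.card ≤ 80 ∧
      Nonempty (PresentedGroup (↑rels : Set (FreeGroup (Fin 2))) ≃* ProjectiveSpecialLinearGroup (Fin n) F) := by
  obtain ⟨a, b, hab⟩ := psl_two_generated (F := F) n hn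
  suffices h : ∃ k, PresBy (ProjectiveSpecialLinearGroup (Fin n) F) k 78 by
    obtain ⟨k, hk⟩ := h
    exact two_gen hk a b hab
  rcases Nat.lt_or_ge n 3 with h3 | h3
  · obtain rfl : n = 2 := by omega
    obtain ⟨rels, hc, e⟩ := (Cfsg.Agent.KnownA.Pres.sl_two_pres (F := F)).2.1
    exact ⟨3, rels, hc.trans (by norm_num), e⟩
  · obtain ⟨k, hk⟩ : ∃ k, PresBy (SpecialLinearGroup (Fin n) F) k 77 := by
      rcases Nat.lt_or_ge n 4 with h4 | h4
      · obtain rfl : n = 3 := by omega
        obtain ⟨rels, hc, e⟩ := Cfsg.Agent.KnownA.Pres3.sl_three_pres (F := F)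
        exact ⟨4, rels, hc.trans (by norm_num), e⟩
      · obtain ⟨k, hk⟩ := sln_pres (F := F) n h4
        exact ⟨k, hk.mono (by norm_num)⟩
    have : NeZero n := ⟨by omega⟩
    have hcyc : IsCyclic (Subgroup.center (SpecialLinearGroup (Fin n) F)) :=
      isCyclic_of_surjective (SpecialLinearGroup.center_equiv_rootsOfUnity' (0 : Fin n)).symm.toMonoidHom
        (SpecialLinearGroup.center_equiv_rootsOfUnity' (0 : Fin n)).symm.surjective
    obtain ⟨⟨z, hz⟩, hgen⟩ := IsCyclic.exists_generator (α := Subgroup.center (SpecialLinearGroup (Fin n) F))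
    have hN : Subgroup.center (SpecialLinearGroup (Fin n) F) = Subgroup.normalClosure {z} := by
      refine le_antisymm (fun y hy => ?_) (Subgroup.normalClosure_le_normal (Set.singleton_subset_iff.mpr hz))
      obtain ⟨m, hm⟩ := Subgroup.mem_zpowers_iff.mp (hgen ⟨y, hy⟩)
      have e := congrArg Subtype.val hm
      simp only [SubgroupClass.coe_zpow] at e
      have hzN : z ∈ Subgroup.normalClosure ({z} : Set (SpecialLinearGroup (Fin n) F)) :=
        Subgroup.subset_normalClosure (Set.mem_singleton z)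
      exact e ▸ Subgroup.zpow_mem _ hzN m
    exact ⟨k, quotient hk (Subgroup.center (SpecialLinearGroup (Fin n) F)) z hN⟩

end Cfsg.Agent.KnownA.Bounded
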