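import Mathlib

/-! Groups with a presentation by boundedly many generators and relations. -/

set_option autoImplicit false
set_option linter.unusedSectionVars false

namespace Cfsg.Agent.KnownA.Bounded

universe u v

/-- The group has a presentation with `k` generators and at most `R` relations. -/
def PresBy (G : Type u) [Group G] (k R : ℕ) : Prop :=
  ∃ rels : Finset (FreeGroup (Fin k)), rels.card ≤ R ∧
    Nonempty (PresentedGroup (↑rels : Set (FreeGroup (Fin k))) ≃* G)

variable {G : Type u} [Group G] {k R : ℕ}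

theorem PresBy.map {H : Type v} [Group H] (h : PresBy G k R) (e : G ≃* H) : PresBy H k R := by
  obtain ⟨rels, hc, ⟨E⟩⟩ := h
  exact ⟨rels, hc, ⟨E.trans e⟩⟩

theorem PresBy.mono {R' : ℕ} (h : PresBy G k R) (hR : R ≤ R') : PresBy G k R' := by
  obtain ⟨rels, hc, e⟩ := h
  exact ⟨rels, hc.trans hR, e⟩

theorem of_relators {k : ℕ} (gens : Fin k → G) (rs : List (FreeGroup (Fin k))) {R : ℕ} (hR : rs.length ≤ R)
    (hrs : ∀ r ∈ rs, FreeGroup.lift gens r = 1)
    (hbij : ∀ (E : Type) [Group E] (f : Fin k → E) (ψ : E →* G), (∀ r ∈ rs, FreeGroup.lift f r = 1) →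
      Subgroup.closure (Set.range f) = ⊤ → (∀ i, ψ (f i) = gens i) → Function.Bijective ψ) :
    PresBy G k R := by
  classical
  refine ⟨rs.toFinset, (List.toFinset_card_le rs).trans hR, ?_⟩
  have h : ∀ r ∈ (↑rs.toFinset : Set (FreeGroup (Fin k))), FreeGroup.lift gens r = 1 := fun r hr =>
    hrs r (List.mem_toFinset.mp (Finset.mem_coe.mp hr))
  refine ⟨MulEquiv.ofBijective (PresentedGroup.toGroup h)
    (hbij _ (fun i => PresentedGroup.of i) _ (fun r hr => ?_) (PresentedGroup.closure_range_of _)
      fun i => PresentedGroup.toGroup.of h)⟩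
  rw [show FreeGroup.lift (fun i => PresentedGroup.of (rels := (↑rs.toFinset : Set (FreeGroup (Fin k)))) i) =
    PresentedGroup.mk _ from FreeGroup.ext_hom _ _ fun a => by simp [PresentedGroup.of]]
  exact PresentedGroup.one_of_mem (Finset.mem_coe.mpr (List.mem_toFinset.mpr hr))

/-- The universal property of a bounded presentation. -/
theorem PresBy.exists_gens (h : PresBy G k R) :
    ∃ (gens : Fin k → G) (rs : List (FreeGroup (Fin k))), rs.length ≤ R ∧ Subgroup.closure (Set.range gens) = ⊤ ∧
      (∀ r ∈ rs, FreeGroup.lift gens r = 1) ∧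
      ∀ (E : Type v) [Group E] (f : Fin k → E), (∀ r ∈ rs, FreeGroup.lift f r = 1) →
        ∃ σ : G →* E, ∀ i, σ (gens i) = f i := by
  classical
  obtain ⟨rels, hc, ⟨e⟩⟩ := h
  refine ⟨fun i => e (PresentedGroup.of i), rels.toList, by simpa using hc, ?_, ?_, ?_⟩
  · have h := congrArg (Subgroup.map e.toMonoidHom)
      (PresentedGroup.closure_range_of (↑rels : Set (FreeGroup (Fin k))))
    rw [MonoidHom.map_closure, Subgroup.map_top_of_surjective _ e.surjective, ← Set.range_comp] at h
    exact h
  · intro r hr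
    rw [show FreeGroup.lift (fun i => e (PresentedGroup.of (rels := (↑rels : Set (FreeGroup (Fin k)))) i)) =
      e.toMonoidHom.comp (PresentedGroup.mk _) from FreeGroup.ext_hom _ _ fun a => by simp [PresentedGroup.of]]
    simp [PresentedGroup.one_of_mem (Finset.mem_coe.mpr (Finset.mem_toList.mp hr))]
  · intro E _ f hf
    have h : ∀ r ∈ (↑rels : Set (FreeGroup (Fin k))), FreeGroup.lift f r = 1 := fun r hr =>
      hf r (Finset.mem_toList.mpr (Finset.mem_coe.mp hr))
    refine ⟨(PresentedGroup.toGroup h).comp e.symm.toMonoidHom, fun i => ?_⟩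
    show PresentedGroup.toGroup h (e.symm (e _)) = _
    rw [MulEquiv.symm_apply_apply]
    exact PresentedGroup.toGroup.of h

theorem exists_word {α : Type*} (gens : α → G) (htop : Subgroup.closure (Set.range gens) = ⊤) (g : G) :
    ∃ w : FreeGroup α, FreeGroup.lift gens w = g := by
  have : g ∈ (FreeGroup.lift gens).range := by
    rw [FreeGroup.range_lift_eq_closure, htop]; trivial
  exact this

/-- Adjoining further generators to a presented group. -/
theorem extend {H : Type v} [Group H] {k R : ℕ} (hH : PresBy H k R) (ι : H →* G) {j : ℕ} (g : Fin j → G)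
    (L : List (FreeGroup (H ⊕ Fin j))) {L₀ : ℕ} (hlen : L.length ≤ L₀)
    (hL : ∀ r ∈ L, FreeGroup.lift (Sum.elim (fun h => ι h) g) r = 1)
    (hbij : ∀ (E : Type) [Group E] (σ : H →* E) (f : Fin j → E) (ψ : E →* G),
      (∀ r ∈ L, FreeGroup.lift (Sum.elim (fun h => σ h) f) r = 1) →
      Subgroup.closure (Set.range σ ∪ Set.range f) = ⊤ → (∀ h, ψ (σ h) = ι h) → (∀ i, ψ (f i) = g i) →
      Function.Bijective ψ) :
    PresBy G (k + j) (R + L₀) := by
  classical
  obtain ⟨gens, rs, hrs, htop, hone, huniv⟩ := PresBy.exists_gens.{v, 0} hH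
  choose W hW using exists_word gens htop
  let inl : FreeGroup (Fin k) →* FreeGroup (Fin (k + j)) :=
    FreeGroup.lift fun i => FreeGroup.of (Fin.castAdd j i)
  let sub : FreeGroup (H ⊕ Fin j) →* FreeGroup (Fin (k + j)) :=
    FreeGroup.lift (Sum.elim (fun h => inl (W h)) fun i => FreeGroup.of (Fin.natAdd k i))
  refine of_relators (Fin.append (fun i => ι (gens i)) g) (rs.map inl ++ L.map sub)
    (by simp; omega) ?_ ?_
  · have hinl : (FreeGroup.lift (Fin.append (fun i => ι (gens i)) g)).comp inl = ι.comp (FreeGroup.lift gens) :=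
      FreeGroup.ext_hom _ _ fun a => by simp [inl]
    intro r hr
    rcases List.mem_append.mp hr with hr | hr
    · obtain ⟨r, hr', rfl⟩ := List.mem_map.mp hr
      rw [← MonoidHom.comp_apply, hinl, MonoidHom.comp_apply, hone r hr', map_one]
    · obtain ⟨r, hr', rfl⟩ := List.mem_map.mp hr
      rw [← MonoidHom.comp_apply,
        show (FreeGroup.lift (Fin.append (fun i => ι (gens i)) g)).comp sub =
          FreeGroup.lift (Sum.elim (fun h => ι h) g) from FreeGroup.ext_hom _ _ fun a => ?_]
      · exact hL r hr'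
      · rcases a with h | i
        · simp only [sub, MonoidHom.comp_apply, FreeGroup.lift_apply_of, Sum.elim_inl]
          rw [← MonoidHom.comp_apply, hinl, MonoidHom.comp_apply, hW]
        · simp [sub]
  · intro E _ f ψ hf hgen hψ
    obtain ⟨σ, hσ⟩ := huniv E (fun i => f (Fin.castAdd j i)) fun r hr => by
      rw [show FreeGroup.lift (fun i => f (Fin.castAdd j i)) = (FreeGroup.lift f).comp inl from
        FreeGroup.ext_hom _ _ fun a => by simp [inl]]
      exact hf _ (List.mem_append_left _ (List.mem_map_of_mem hr))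
    have hσl : (FreeGroup.lift f).comp inl = σ.comp (FreeGroup.lift gens) :=
      FreeGroup.ext_hom _ _ fun a => by simp [inl, hσ]
    refine hbij E σ (fun i => f (Fin.natAdd k i)) ψ (fun r hr => ?_) ?_ ?_ (fun i => by simp [hψ])
    · rw [show FreeGroup.lift (Sum.elim (fun h => σ h) fun i => f (Fin.natAdd k i)) = (FreeGroup.lift f).comp sub from
        FreeGroup.ext_hom _ _ fun a => ?_]
      · exact hf _ (List.mem_append_right _ (List.mem_map_of_mem hr))
      · rcases a with h | i
        · simp only [sub, MonoidHom.comp_apply, FreeGroup.lift_apply_of, Sum.elim_inl]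
          rw [← MonoidHom.comp_apply, hσl, MonoidHom.comp_apply, hW]
        · simp [sub]
    · rw [eq_top_iff, ← hgen, Subgroup.closure_le]
      rintro _ ⟨i, rfl⟩
      refine Subgroup.subset_closure ?_
      induction i using Fin.addCases with
      | left i => exact Or.inl ⟨gens i, hσ i⟩
      | right i => exact Or.inr ⟨i, rfl⟩
    · intro h
      have : ψ.comp σ = ι := MonoidHom.eq_of_eqOn_dense htop (by
        rintro _ ⟨i, rfl⟩
        simp [hσ, hψ])
      exact DFunLike.congr_fun this h

/-- Changing to two generators. -/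
theorem two_gen (hG : PresBy G k R) (a b : G) (htop : Subgroup.closure ({a, b} : Set G) = ⊤) :
    PresBy G 2 (R + 2) := by
  classical
  obtain ⟨gens, rs, hrs, hgtop, hone, huniv⟩ := PresBy.exists_gens.{u, 0} hG
  have hab : Subgroup.closure (Set.range ![a, b]) = ⊤ := by
    rw [← htop]; congr 1; simp [Set.pair_comm a b]
  choose V hV using exists_word ![a, b] hab
  obtain ⟨A, hA⟩ := exists_word gens hgtop a
  obtain ⟨B, hB⟩ := exists_word gens hgtop b
  let s : FreeGroup (Fin k) →* FreeGroup (Fin 2) := FreeGroup.lift fun i => V (gens i)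
  have hs : (FreeGroup.lift ![a, b]).comp s = FreeGroup.lift gens :=
    FreeGroup.ext_hom _ _ fun i => by simp [s, hV]
  refine of_relators ![a, b] (rs.map s ++ [FreeGroup.of 0 * (s A)⁻¹, FreeGroup.of 1 * (s B)⁻¹]) (by simp; omega) ?_ ?_
  · intro r hr
    rcases List.mem_append.mp hr with hr | hr
    · obtain ⟨r, hr', rfl⟩ := List.mem_map.mp hr
      rw [← MonoidHom.comp_apply, hs, hone r hr']
    · simp only [List.mem_cons, List.not_mem_nil, or_false] at hr
      rcases hr with rfl | rfl <;>
        rw [map_mul, map_inv, mul_inv_eq_one, ← MonoidHom.comp_apply, hs, FreeGroup.lift_apply_of]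
      · exact hA.symm
      · exact hB.symm
  · intro E _ f ψ hf hgen hψ
    obtain ⟨σ, hσ⟩ := huniv E (fun i => FreeGroup.lift f (V (gens i))) fun r hr => by
      rw [show FreeGroup.lift (fun i => FreeGroup.lift f (V (gens i))) = (FreeGroup.lift f).comp s from
        FreeGroup.ext_hom _ _ fun a => by simp [s]]
      exact hf _ (List.mem_append_left _ (List.mem_map_of_mem hr))
    have hσl : σ.comp (FreeGroup.lift gens) = (FreeGroup.lift f).comp s :=
      FreeGroup.ext_hom _ _ fun i => by simp [s, hσ]
    have h0 : σ a = f 0 := by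
      have := hf (FreeGroup.of 0 * (s A)⁻¹) (by simp)
      rw [map_mul, map_inv, mul_inv_eq_one, FreeGroup.lift_apply_of, ← MonoidHom.comp_apply, ← hσl] at this
      rw [this, MonoidHom.comp_apply, hA]
    have h1 : σ b = f 1 := by
      have := hf (FreeGroup.of 1 * (s B)⁻¹) (by simp)
      rw [map_mul, map_inv, mul_inv_eq_one, FreeGroup.lift_apply_of, ← MonoidHom.comp_apply, ← hσl] at this
      rw [this, MonoidHom.comp_apply, hB]
    have hsurj : Function.Surjective σ := by
      rw [← MonoidHom.range_eq_top, eq_top_iff, ← hgen, Subgroup.closure_le]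
      rintro _ ⟨i, rfl⟩
      fin_cases i
      exacts [⟨a, h0⟩, ⟨b, h1⟩]
    have hid : ψ.comp σ = MonoidHom.id G := MonoidHom.eq_of_eqOn_dense htop (by
      rintro x (rfl | rfl)
      · show ψ (σ x) = x
        rw [h0, hψ]; rfl
      · show ψ (σ x) = x
        rw [h1, hψ]; rfl)
    refine ⟨fun x y hxy => ?_, fun x => ⟨σ x, DFunLike.congr_fun hid x⟩⟩
    obtain ⟨x, rfl⟩ := hsurj x
    obtain ⟨y, rfl⟩ := hsurj y
    have hx := DFunLike.congr_fun hid x
    have hy := DFunLike.congr_fun hid y
    simp only [MonoidHom.comp_apply, MonoidHom.id_apply] at hx hy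
    rw [← hx, hxy, hy]

/-- Killing one more element. -/
theorem quotient (hG : PresBy G k R) (N : Subgroup G) [N.Normal] (z : G) (hN : N = Subgroup.normalClosure {z}) :
    PresBy (G ⧸ N) k (R + 1) := by
  classical
  obtain ⟨gens, rs, hrs, hgtop, hone, huniv⟩ := PresBy.exists_gens.{u, 0} hG
  obtain ⟨Z, hZ⟩ := exists_word gens hgtop z
  set π := QuotientGroup.mk' N with hπ
  have hcomp : FreeGroup.lift (fun i => π (gens i)) = π.comp (FreeGroup.lift gens) :=
    FreeGroup.ext_hom _ _ fun i => by simp
  have hzN : z ∈ N := hN ▸ Subgroup.subset_normalClosure rfl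
  refine of_relators (fun i => π (gens i)) (rs ++ [Z]) (by simp; omega) ?_ ?_
  · intro r hr
    rw [hcomp, MonoidHom.comp_apply]
    rcases List.mem_append.mp hr with hr | hr
    · rw [hone r hr, map_one]
    · rw [List.mem_singleton.mp hr, hZ]
      exact (QuotientGroup.eq_one_iff z).mpr hzN
  · intro E _ f ψ hf hgen hψ
    obtain ⟨σ, hσ⟩ := huniv E f fun r hr => hf r (List.mem_append_left _ hr)
    have hσl : σ.comp (FreeGroup.lift gens) = FreeGroup.lift f := FreeGroup.ext_hom _ _ fun i => by simp [hσ]
    have hker : N ≤ σ.ker := by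
      rw [hN]
      refine Subgroup.normalClosure_le_normal (Set.singleton_subset_iff.mpr ?_)
      rw [SetLike.mem_coe, MonoidHom.mem_ker, ← hZ, ← MonoidHom.comp_apply, hσl]
      exact hf Z (List.mem_append_right _ (List.mem_singleton_self _))
    set τ := QuotientGroup.lift N σ hker
    have hid : ψ.comp τ = MonoidHom.id (G ⧸ N) := QuotientGroup.monoidHom_ext _ (MonoidHom.eq_of_eqOn_dense hgtop (by
      rintro _ ⟨i, rfl⟩
      show ψ (τ (π (gens i))) = π (gens i)
      rw [show τ (π (gens i)) = σ (gens i) from rfl, hσ, hψ]))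
    have hsurj : Function.Surjective τ := by
      rw [← MonoidHom.range_eq_top, eq_top_iff, ← hgen, Subgroup.closure_le]
      rintro _ ⟨i, rfl⟩
      exact ⟨π (gens i), (show τ (π (gens i)) = σ (gens i) from rfl).trans (hσ i)⟩
    refine ⟨fun x y hxy => ?_, fun x => ⟨τ x, DFunLike.congr_fun hid x⟩⟩
    obtain ⟨x, rfl⟩ := hsurj x
    obtain ⟨y, rfl⟩ := hsurj y
    have hx := DFunLike.congr_fun hid x
    have hy := DFunLike.congr_fun hid y
    simp only [MonoidHom.comp_apply, MonoidHom.id_apply] at hx hy
    rw [← hx, hxy, hy]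

end Cfsg.Agent.KnownA.Bounded
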