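import Cfsg.Agent.Suzuki.SLPresentation
import Cfsg.Agent.KnownA.Pres3.Fill
import Cfsg.Agent.KnownA.Pres.SquareGen

/-! A torus element of `SL₃` as a word in root elements. -/

set_option autoImplicit false
set_option linter.unusedSectionVars false

namespace Cfsg.Agent.KnownA.Bounded

open Matrix

variable {F : Type*} [Field F]

/-- The torus word in the root elements of a pair. -/
def hW {G : Type*} [Group G] {ι : Type*} (x : ι → ι → F → G) (a b : ι) (l : F) : G :=
  x a b l * x b a (-l⁻¹) * x a b l * x a b (-1) * x b a 1 * x a b (-1)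

theorem map_hW {G H : Type*} [Group G] [Group H] (φ : G →* H) {ι κ : Type*} (x : ι → ι → F → G) (y : κ → κ → F → H)
    {a b : ι} {a' b' : κ} (h1 : ∀ t, φ (x a b t) = y a' b' t) (h2 : ∀ t, φ (x b a t) = y b' a' t) (l : F) :
    φ (hW x a b l) = hW y a' b' l := by
  simp only [hW, map_mul, h1, h2]

/-- The root elements of `SL₃`. -/
abbrev T3 (a b : Fin 3) (t : F) : SpecialLinearGroup (Fin 3) F := (Cfsg.Agent.Suzuki.SLSt.slRels F 3).x a b t

theorem coe_T3 {a b : Fin 3} (h : a ≠ b) (t : F) :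
    ((T3 a b t : SpecialLinearGroup (Fin 3) F) : Matrix (Fin 3) (Fin 3) F) = 1 + Matrix.single a b t := by
  rw [T3, Cfsg.Agent.Suzuki.SLSt.slRels_x h]
  rfl

theorem coeMul (A B : SpecialLinearGroup (Fin 3) F) : (A * B).1 = A.1 * B.1 := rfl

set_option maxHeartbeats 4000000 in
theorem hW_conj {a b : Fin 3} (h : a ≠ b) {l : F} (hl : l ≠ 0) (t : F) :
    hW T3 a b l * T3 a b t = T3 a b (l ^ 2 * t) * hW T3 a b l := by
  have hD : ((hW T3 a b l : SpecialLinearGroup (Fin 3) F) : Matrix (Fin 3) (Fin 3) F) =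
      Matrix.diagonal (fun i => if i = a then l else if i = b then l⁻¹ else 1) := by
    simp only [hW, coeMul, coe_T3 h, coe_T3 h.symm]
    fin_cases a <;> fin_cases b <;> (try exact absurd rfl h) <;>
      (ext i j; fin_cases i <;> fin_cases j <;>
        simp [Matrix.mul_apply, Fin.sum_univ_three, Matrix.one_apply, Matrix.single_apply, Matrix.diagonal_apply] <;>
          field_simp <;> ring)
  refine Subtype.ext ?_
  show ((hW T3 a b l * T3 a b t : SpecialLinearGroup (Fin 3) F) : Matrix (Fin 3) (Fin 3) F) =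
    ((T3 a b (l ^ 2 * t) * hW T3 a b l : SpecialLinearGroup (Fin 3) F) : Matrix (Fin 3) (Fin 3) F)
  simp only [coeMul]
  rw [hD, coe_T3 h, coe_T3 h, Matrix.mul_add, Matrix.add_mul, Matrix.mul_one, Matrix.one_mul]
  congr 1
  ext i j
  rw [Matrix.diagonal_mul, Matrix.mul_diagonal]
  by_cases hij : a = i ∧ b = j
  · obtain ⟨rfl, rfl⟩ := hij
    simp [h.symm]
    field_simp
  · simp [Matrix.single_apply, hij]

/-- Two homomorphisms agreeing on a root element and its torus word agree on the root subgroup. -/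
theorem root_agree {p : ℕ} [Fact p.Prime] [Algebra (ZMod p) F] {μ : Fˣ}
    (hadj : Algebra.adjoin (ZMod p) {(μ : F) ^ 2} = ⊤) {E : Type*} [Group E]
    (φ φ' : SpecialLinearGroup (Fin 3) F →* E) {a b a' b' : Fin 3} (h : a ≠ b) (h' : a' ≠ b')
    (h1 : φ (T3 a b 1) = φ' (T3 a' b' 1)) (h2 : φ (hW T3 a b (μ : F)) = φ' (hW T3 a' b' (μ : F))) :
    ∀ t, φ (T3 a b t) = φ' (T3 a' b' t) := by
  have hadd : ∀ (a b : Fin 3), a ≠ b → ∀ s t : F, (T3 a b (s + t) : SpecialLinearGroup (Fin 3) F) = T3 a b s * T3 a b t :=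
    fun a b h s t => ((Cfsg.Agent.Suzuki.SLSt.slRels F 3).add a b h s t).symm
  have h0 : ∀ (a b : Fin 3), a ≠ b → (T3 a b (0 : F) : SpecialLinearGroup (Fin 3) F) = 1 := fun a b h =>
    (Cfsg.Agent.Suzuki.SLSt.slRels F 3).x_zero h
  refine Cfsg.Agent.KnownA.Pres3.spans_of_adjoin one_ne_zero hadj _ ?_ (fun s t hs ht => ?_) (fun t ht => ?_) ?_
  · rw [h0 a b h, h0 a' b' h', map_one, map_one]
  · rw [hadd a b h, hadd a' b' h', map_mul, map_mul, hs, ht]
  · have e := hW_conj h μ.ne_zero t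
    have e' := hW_conj h' μ.ne_zero t
    rw [eq_mul_inv_of_mul_eq e.symm, eq_mul_inv_of_mul_eq e'.symm, map_mul, map_mul, map_inv, map_mul, map_mul,
      map_inv, h2, ht]
  · intro b hb
    rw [List.mem_singleton.mp hb]
    exact h1

end Cfsg.Agent.KnownA.Bounded
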