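import Cfsg.Agent.KnownA.Bounded.AltGlue

/-! Transitivity and pointwise stabilizers in alternating groups. -/

set_option autoImplicit false
set_option linter.unusedSectionVars false

namespace Cfsg.Agent.KnownA.Bounded

open Equiv

variable {n : ℕ}

theorem exists_map {k : ℕ} (f g : Fin k → Fin n) (hf : Function.Injective f) (hg : Function.Injective g) :
    ∃ ρ : Perm (Fin n), ∀ a, ρ (f a) = g a := by
  classical
  let e : {x // x ∈ Set.range f} ≃ {x // x ∈ Set.range g} :=
    (Equiv.ofInjective f hf).symm.trans (Equiv.ofInjective g hg)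
  refine ⟨e.extendSubtype, fun a => ?_⟩
  rw [Equiv.extendSubtype_apply_of_mem e _ (Set.mem_range_self a)]
  show ((Equiv.ofInjective g hg) ((Equiv.ofInjective f hf).symm ⟨f a, _⟩) : Fin n) = g a
  rw [Equiv.ofInjective_symm_apply]
  rfl

/-- An even permutation with the prescribed values, or with two of them exchanged. -/
theorem exists_even_map {k : ℕ} (f g : Fin k → Fin n) (hf : Function.Injective f) (hg : Function.Injective g)
    (x y : Fin k) (hxy : x ≠ y) :
    ∃ π : alternatingGroup (Fin n), (∀ a, (π : Perm (Fin n)) (f a) = g a) ∨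
      (∀ a, (π : Perm (Fin n)) (f a) = g (swap x y a)) := by
  obtain ⟨ρ, hρ⟩ := exists_map f g hf hg
  rcases Int.units_eq_one_or (Perm.sign ρ) with h | h
  · exact ⟨⟨ρ, Perm.mem_alternatingGroup.mpr h⟩, Or.inl hρ⟩
  · refine ⟨⟨ρ * swap (f x) (f y), Perm.mem_alternatingGroup.mpr (by
      rw [map_mul, h, Perm.sign_swap (hf.ne hxy)]; rfl)⟩, Or.inr fun a => ?_⟩
    show ρ (swap (f x) (f y) (f a)) = _
    rw [hf.swap_apply, hρ]

/-- Two elements generating the pointwise stabilizer of the first two points. -/
theorem stab_gen (hn : 4 ≤ n) : ∃ a b : alternatingGroup (Fin n),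
    (∀ g ∈ ({a, b} : Set (alternatingGroup (Fin n))), ∀ i : Fin n, i.val < 2 → (g : Perm (Fin n)) i = i) ∧
    ∀ y : alternatingGroup (Fin n), (∀ i : Fin n, i.val < 2 → (y : Perm (Fin n)) i = i) →
      y ∈ Subgroup.closure ({a, b} : Set (alternatingGroup (Fin n))) := by
  classical
  let p2 : Fin n := ⟨2, by omega⟩
  let p3 : Fin n := ⟨3, by omega⟩
  have h23 : p2 ≠ p3 := by simp [p2, p3]
  obtain ⟨π, hπ⟩ := exists_even_fix (rotI 4 n le_rfl) p2 p3 h23
  let c : alternatingGroup (Fin n) := if h : 4 < n then cycA p2 p3 ⟨4, h⟩ else 1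
  have hπlow : ∀ i : Fin n, i.val < 2 → (π : Perm (Fin n)) i = i := fun i hi => by
    rw [hπ i (by simp [p2, Fin.ext_iff]; omega) (by simp [p3, Fin.ext_iff]; omega), rotI_out _ _ (by omega)]
  refine ⟨c, π, ?_, fun y hy => ?_⟩
  · rintro g (rfl | rfl) i hi
    · by_cases h : 4 < n
      · simp only [c, dif_pos h]
        rw [coe_cycA h23 (by simp [p2])]
        show swap p2 (⟨4, h⟩ : Fin n) (swap p2 p3 i) = i
        rw [swap_apply_of_ne_of_ne (a := p2) (b := p3) (by simp [p2, Fin.ext_iff]; omega)
            (by simp [p3, Fin.ext_iff]; omega),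
          swap_apply_of_ne_of_ne (a := p2) (b := (⟨4, h⟩ : Fin n)) (by simp [p2, Fin.ext_iff]; omega)
            (by simp [Fin.ext_iff]; omega)]
      · simp [c, dif_neg h]
    · exact hπlow i hi
  · set H := Subgroup.closure ({c, π} : Set (alternatingGroup (Fin n)))
    have hcyc : ∀ d, ∀ h : 4 + d < n, cycA p2 p3 (⟨4 + d, h⟩ : Fin n) ∈ H := by
      intro d
      induction d with
      | zero =>
        intro h
        have : c ∈ H := Subgroup.subset_closure (Or.inl rfl)
        simpa [c, dif_pos (show 4 < n by omega)] using this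
      | succ d ih =>
        intro h
        have hπH : π ∈ H := Subgroup.subset_closure (Or.inr rfl)
        have hconj := mul_mem (mul_mem hπH (ih (by omega))) (inv_mem hπH)
        rw [cycA_conj π h23 (by simp [p2]; omega)] at hconj
        have e4 : (π : Perm (Fin n)) ⟨4 + d, by omega⟩ = ⟨4 + (d + 1), h⟩ := by
          rw [hπ _ (by simp [p2, Fin.ext_iff]; omega) (by simp [p3, Fin.ext_iff]; omega)]
          exact Fin.ext (by rw [rotI_succ _ _ (by simp) (by simp; omega)]; simp; omega)
        have h2 : ∀ z : Fin n, (z.val = 2 ∨ z.val = 3) →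
            (((π : Perm (Fin n)) z).val = 2 ∨ ((π : Perm (Fin n)) z).val = 3) := by
          intro z hz
          by_contra hc
          set w := (π : Perm (Fin n)) z with hw
          rcases (show w.val < 2 ∨ 4 ≤ w.val by omega) with hlt | hge
          · have := (π : Perm (Fin n)).injective ((hπlow w hlt).trans hw)
            rw [this] at hlt; omega
          · obtain ⟨u, hu⟩ := (rotI 4 n le_rfl).surjective w
            have hu1 : 4 ≤ u.val := by
              by_contra hc'
              rw [rotI_out _ _ (by omega)] at hu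
              rw [hu] at hc'; omega
            have := (π : Perm (Fin n)).injective
              ((hπ u (by simp [p2, Fin.ext_iff]; omega) (by simp [p3, Fin.ext_iff]; omega)).trans hu |>.trans hw)
            rw [this] at hu1; omega
        have ha := h2 p2 (Or.inl rfl)
        have hb := h2 p3 (Or.inr rfl)
        have hne : ((π : Perm (Fin n)) p2).val ≠ ((π : Perm (Fin n)) p3).val :=
          Fin.val_ne_of_ne ((π : Perm (Fin n)).injective.ne h23)
        rw [e4] at hconj
        rcases ha with h0 | h0
        · rwa [show (π : Perm (Fin n)) p2 = p2 from Fin.ext h0,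
            show (π : Perm (Fin n)) p3 = p3 from Fin.ext (by
              show ((π : Perm (Fin n)) p3).val = 3
              omega)] at hconj
        · rw [show (π : Perm (Fin n)) p2 = p3 from Fin.ext h0,
            show (π : Perm (Fin n)) p3 = p2 from Fin.ext (by
              show ((π : Perm (Fin n)) p3).val = 2
              omega),
            cycA_swap h23 (by simp [p2, Fin.ext_iff]; omega) (by simp [p3, Fin.ext_iff]; omega)] at hconj
          exact inv_mem_iff.mp hconj
    let S := {i : Fin n // 2 ≤ i.val}
    let emb' : alternatingGroup S →* alternatingGroup (Fin n) :=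
      MonoidHom.codRestrict (Perm.ofSubtype.comp (alternatingGroup S).subtype) _ fun g =>
        Perm.mem_alternatingGroup.mpr (by
          show Perm.sign (Perm.ofSubtype (g : Perm S)) = 1
          rw [Perm.sign_ofSubtype]; exact Perm.mem_alternatingGroup.mp g.2)
    have htop : H.comap emb' = ⊤ := by
      refine eq_top_of_cycA (a := (⟨p2, by simp [p2]⟩ : S)) (b := ⟨p3, by simp [p3]⟩) (by simp [p2, p3]) _
        fun i h1 h2 => ?_
      show emb' _ ∈ H
      have hi4 : 4 ≤ i.1.val := by
        have := i.2
        simp only [ne_eq, Subtype.ext_iff, Fin.ext_iff, p2, p3] at h1 h2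
        omega
      have e : emb' (cycA (⟨p2, by simp [p2]⟩ : S) ⟨p3, by simp [p3]⟩ i) = cycA p2 p3 i.1 := by
        refine Subtype.ext ?_
        show Perm.ofSubtype (cycA (⟨p2, by simp [p2]⟩ : S) ⟨p3, by simp [p3]⟩ i : Perm S) = _
        rw [coe_cycA (by simp [p2, p3]) (Ne.symm h1), map_mul, Perm.ofSubtype_swap_eq, Perm.ofSubtype_swap_eq,
          coe_cycA h23 (fun h => h1 (Subtype.ext h.symm))]
      rw [e, show i.1 = (⟨4 + (i.1.val - 4), by omega⟩ : Fin n) from Fin.ext (by simp; omega)]
      exact hcyc _ _
    have hmem : ∀ x : Fin n, 2 ≤ x.val ↔ 2 ≤ ((y : Perm (Fin n)) x).val := by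
      intro x
      constructor
      · intro hx
        by_contra hc
        have := hy _ (Nat.lt_of_not_le hc)
        rw [(y : Perm (Fin n)).injective this] at hc
        exact hc hx
      · intro hx
        by_contra hc
        rw [hy x (by omega)] at hx
        exact hc hx
    let s : Perm S := (y : Perm (Fin n)).subtypePerm fun x => (hmem x).symm
    have hs : Perm.ofSubtype s = (y : Perm (Fin n)) :=
      Perm.ofSubtype_subtypePerm (fun x => (hmem x).symm) (fun x hx => by
        by_contra hc
        exact hx (hy x (by omega)))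
    have hse : s ∈ alternatingGroup S := Perm.mem_alternatingGroup.mpr (by
      rw [← Perm.sign_ofSubtype, hs]; exact Perm.mem_alternatingGroup.mp y.2)
    have : emb' ⟨s, hse⟩ ∈ H := by
      have h := Subgroup.mem_top (⟨s, hse⟩ : alternatingGroup S)
      rw [← htop] at h; exact h
    rwa [show emb' ⟨s, hse⟩ = y from Subtype.ext hs] at this

end Cfsg.Agent.KnownA.Bounded
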