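import Cfsg.Agent.KnownA.Bounded.AltMain
import Cfsg.Agent.KnownA.Bounded.Stab
import Cfsg.Agent.KnownA.Bounded.SL3
import Cfsg.Agent.KnownA.Pres3.Main

/-! Bounded presentations of the special linear groups. -/

set_option autoImplicit false
set_option linter.unusedSectionVars false

namespace Cfsg.Agent.KnownA.Bounded

open Equiv Matrix Cfsg.Agent.Suzuki.SLSt
open scoped commutatorElement

universe u

variable {F : Type u} [Field F]

/-- The matrix of a permutation. -/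
def pMat {n : ℕ} (π : Perm (Fin n)) : Matrix (Fin n) (Fin n) F := Matrix.of fun i j => if π j = i then 1 else 0

theorem pMat_mul {n : ℕ} (π ρ : Perm (Fin n)) : (pMat (π * ρ) : Matrix (Fin n) (Fin n) F) = pMat π * pMat ρ := by
  ext i j
  simp only [pMat, Matrix.mul_apply, Matrix.of_apply, Perm.mul_apply]
  rw [Finset.sum_eq_single (ρ j) (fun b _ hb => by simp [Ne.symm hb]) (by simp)]
  by_cases h : π (ρ j) = i <;> simp [h]

theorem det_pMat {n : ℕ} (π : Perm (Fin n)) : (pMat π : Matrix (Fin n) (Fin n) F).det = Perm.sign π := by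
  have e : (pMat π : Matrix (Fin n) (Fin n) F) = (π⁻¹).permMatrix F := by
    ext i j
    simp only [pMat, Matrix.of_apply, Equiv.Perm.permMatrix, PEquiv.toMatrix_apply, Equiv.toPEquiv_apply,
      Option.mem_def, Option.some.injEq]
    have hiff : (π j = i) ↔ (π⁻¹ i = j) := by
      constructor
      · intro h; rw [← h]; simp
      · intro h; rw [← h]; simp
    simp only [hiff]
  rw [e, Matrix.det_permutation, Perm.sign_inv]

/-- The permutation matrices inside the special linear group. -/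
def pHom (n : ℕ) : alternatingGroup (Fin n) →* SpecialLinearGroup (Fin n) F where
  toFun π := ⟨pMat (π : Perm (Fin n)), by rw [det_pMat, Perm.mem_alternatingGroup.mp π.2]; simp⟩
  map_one' := by
    refine Subtype.ext ?_
    ext i j
    show (if (1 : Perm (Fin n)) j = i then (1 : F) else 0) = (1 : Matrix (Fin n) (Fin n) F) i j
    simp [Matrix.one_apply, eq_comm]
  map_mul' π ρ := Subtype.ext (pMat_mul _ _)

theorem pHom_conj {n : ℕ} (π : alternatingGroup (Fin n)) {i j : Fin n} (h : i ≠ j) (t : F) :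
    pHom n π * (slRels F n).x i j t * (pHom n π)⁻¹ =
      (slRels F n).x ((π : Perm (Fin n)) i) ((π : Perm (Fin n)) j) t := by
  have h' : (π : Perm (Fin n)) i ≠ (π : Perm (Fin n)) j := (π : Perm (Fin n)).injective.ne h
  rw [slRels_x h, slRels_x h', mul_inv_eq_iff_eq_mul]
  refine Subtype.ext ?_
  show pMat (π : Perm (Fin n)) * (1 + Matrix.single i j t) =
    (1 + Matrix.single ((π : Perm (Fin n)) i) ((π : Perm (Fin n)) j) t) * pMat (π : Perm (Fin n))
  rw [Matrix.mul_add, Matrix.add_mul, Matrix.mul_one, Matrix.one_mul]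
  congr 1
  ext a b
  rw [Matrix.mul_apply, Matrix.mul_apply, Finset.sum_eq_single i ?_ (by simp),
    Finset.sum_eq_single ((π : Perm (Fin n)) j) ?_ (by simp)]
  · simp only [pMat, Matrix.of_apply, Matrix.single_apply]
    by_cases hb : j = b
    · subst hb; simp [eq_comm]
    · simp [hb, Ne.symm hb]
  · intro c _ hc; simp [Matrix.single_apply, Ne.symm hc]
  · intro c _ hc; simp [Matrix.single_apply, Ne.symm hc]

/-- Restricting the root elements to three indices. -/
def restrict {n : ℕ} (e : Fin 3 → Fin n) (he : Function.Injective e) :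
    Rels (SpecialLinearGroup (Fin n) F) (Fin 3) F where
  x a b t := (slRels F n).x (e a) (e b) t
  add a b h := (slRels F n).add _ _ (he.ne h)
  comm a b c d h1 h2 h3 h4 := (slRels F n).comm _ _ _ _ (he.ne h1) (he.ne h2) (he.ne h3) (he.ne h4)
  comm3 a b c h1 h2 h3 := (slRels F n).comm3 _ _ _ (he.ne h1) (he.ne h2) (he.ne h3)

variable [Fintype F]

/-- A bounded presentation of the special linear groups of rank at least three. -/
theorem sln_pres (n : ℕ) (hn : 4 ≤ n) : ∃ k, PresBy (SpecialLinearGroup (Fin n) F) k 59 := by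
  classical
  obtain ⟨p, hchar⟩ := CharP.exists F
  obtain ⟨f, hpp, hqf⟩ := FiniteField.card F p
  have : Fact p.Prime := ⟨hpp⟩
  let _ : Algebra (ZMod p) F := ZMod.algebra F p
  obtain ⟨μ, hμ⟩ := IsCyclic.exists_generator (α := Fˣ)
  have hadj : Algebra.adjoin (ZMod p) {(μ : F) ^ 2} = ⊤ := by
    by_cases hp : p = 2
    · subst hp
      rw [eq_top_iff]
      intro a _
      by_cases ha : a = 0
      · subst ha; exact zero_mem _
      obtain ⟨b, rfl⟩ := FiniteField.isSquare_of_char_two (ringChar.eq F 2) a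
      have hb : b ≠ 0 := fun h => ha (by simp [h])
      obtain ⟨k, hk⟩ := mem_powers_iff_mem_zpowers.mpr (hμ (Units.mk0 b hb))
      have hk' : (μ : F) ^ k = b := by simpa using congrArg Units.val hk
      rw [← hk', ← pow_add, show k + k = 2 * k by omega, pow_mul]
      exact pow_mem (Algebra.subset_adjoin (Set.mem_singleton _)) k
    · exact Cfsg.Agent.KnownA.Pres.adjoin_sq_generator hp μ hμ
  have hA3 : PresBy (SpecialLinearGroup (Fin 3) F) 4 14 := by
    obtain ⟨rels, h1, h2⟩ := Cfsg.Agent.KnownA.Pres3.sl_three_pres (F := F)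
    exact ⟨rels, h1, h2⟩
  obtain ⟨ka, hka⟩ := alt_pres n
  obtain ⟨gA, rA, hrA, hgA, honeA, hunivA⟩ := PresBy.exists_gens.{0, 0} hka
  refine ⟨4 + ka, ?_⟩
  -- points and permutations
  let e : Fin 3 → Fin n := Fin.castLE (by omega)
  have he : Function.Injective e := Fin.castLE_injective _
  let p0 : Fin n := ⟨0, by omega⟩
  let p1 : Fin n := ⟨1, by omega⟩
  let p2 : Fin n := ⟨2, by omega⟩
  let p3 : Fin n := ⟨3, by omega⟩
  have he0 : e 0 = p0 := rfl
  have he1 : e 1 = p1 := rfl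
  have he2 : e 2 = p2 := rfl
  let c3 : alternatingGroup (Fin n) := cycA p0 p1 p2
  let pairswap : (a b c d : Fin n) → a ≠ b → c ≠ d → alternatingGroup (Fin n) := fun a b c d hab hcd =>
    ⟨swap a b * swap c d, Perm.mem_alternatingGroup.mpr (by
      rw [map_mul, Perm.sign_swap hab, Perm.sign_swap hcd]; rfl)⟩
  let d0 := pairswap p0 p1 p2 p3 (by simp [p0, p1]) (by simp [p2, p3])
  let s1 := pairswap p0 p2 p1 p3 (by simp [p0, p2]) (by simp [p1, p3])
  let s2 := pairswap p0 p3 p1 p2 (by simp [p0, p3]) (by simp [p1, p2])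
  have hc3 : (c3 : Perm (Fin n)) p0 = p1 ∧ (c3 : Perm (Fin n)) p1 = p2 ∧ (c3 : Perm (Fin n)) p2 = p0 := by
    simp [c3, coe_cycA (show p0 ≠ p1 by simp [p0, p1]) (show p0 ≠ p2 by simp [p0, p2]), swap_apply_def, p0, p1, p2]
  have hd0 : (d0 : Perm (Fin n)) p0 = p1 ∧ (d0 : Perm (Fin n)) p1 = p0 := by
    simp [d0, pairswap, swap_apply_def, p0, p1, p2, p3]
  have hs1 : (s1 : Perm (Fin n)) p0 = p2 ∧ (s1 : Perm (Fin n)) p1 = p3 := by
    simp [s1, pairswap, swap_apply_def, p0, p1, p2, p3]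
  have hs2 : (s2 : Perm (Fin n)) p0 = p3 ∧ (s2 : Perm (Fin n)) p1 = p2 := by
    simp [s2, pairswap, swap_apply_def, p0, p1, p2, p3]
  have hc3i : (↑(c3⁻¹) : Perm (Fin n)) p0 = p2 ∧ (↑(c3⁻¹) : Perm (Fin n)) p1 = p0 := by
    rw [Subgroup.coe_inv]
    exact ⟨by rw [Perm.inv_eq_iff_eq, hc3.2.2], by rw [Perm.inv_eq_iff_eq, hc3.1]⟩
  let five : List (alternatingGroup (Fin n) × Fin 3 × Fin 3) :=
    [(c3, 1, 2), (c3⁻¹, 2, 0), (d0, 1, 0), (c3 * d0, 2, 1), (c3⁻¹ * d0, 0, 2)]
  have hfive : ∀ z ∈ five, z.2.1 ≠ z.2.2 ∧ (z.1 : Perm (Fin n)) p0 = e z.2.1 ∧ (z.1 : Perm (Fin n)) p1 = e z.2.2 := by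
    intro z hz
    simp only [five, List.mem_cons, List.not_mem_nil, or_false] at hz
    rcases hz with rfl | rfl | rfl | rfl | rfl <;>
      refine ⟨by simp, ?_, ?_⟩ <;> simp only [Subgroup.coe_mul, Perm.mul_apply]
    exacts [hc3.1.trans he1.symm, hc3.2.1.trans he2.symm, hc3i.1.trans he2.symm, hc3i.2.trans he0.symm,
      hd0.1.trans he1.symm, hd0.2.trans he0.symm, by rw [hd0.1, hc3.2.1, he2], by rw [hd0.2, hc3.1, he1],
      by rw [hd0.1, hc3i.2, he0], by rw [hd0.2, hc3i.1, he2]]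
  obtain ⟨sa, sb, hsfix, hsgen⟩ := stab_gen hn
  -- the model
  obtain ⟨ι, hι⟩ := Cfsg.Agent.Suzuki.SLSt.exists_section (le_refl 3) (restrict (F := F) e he)
  set Tn := (slRels F n).x with hTn
  have hιT : ∀ a b, a ≠ b → ∀ t, ι (T3 a b t) = Tn (e a) (e b) t := fun a b h t => by
    rw [T3, slRels_x h]; exact hι a b h t
  have hιh : ∀ a b, a ≠ b → ι (hW T3 a b (μ : F)) = hW Tn (e a) (e b) (μ : F) := fun a b h =>
    map_hW ι _ _ (hιT a b h) (hιT b a h.symm) _
  set P := pHom (F := F) n with hP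
  have hPT : ∀ (π : alternatingGroup (Fin n)) {i j : Fin n}, i ≠ j → ∀ t : F,
      P π * Tn i j t * (P π)⁻¹ = Tn ((π : Perm (Fin n)) i) ((π : Perm (Fin n)) j) t := fun π => pHom_conj π
  have hPh : ∀ (π : alternatingGroup (Fin n)) {i j : Fin n}, i ≠ j → ∀ l : F,
      P π * hW Tn i j l * (P π)⁻¹ = hW Tn ((π : Perm (Fin n)) i) ((π : Perm (Fin n)) j) l := fun π i j h l =>
    map_hW (MulAut.conj (P π)).toMonoidHom _ _ (hPT π h) (hPT π h.symm) l
  have hTgen : Subgroup.closure (Set.range fun z : {ij : Fin n × Fin n // ij.1 ≠ ij.2} × F => Tn z.1.1.1 z.1.1.2 z.2) = ⊤ := by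
    have : Nontrivial (Fin n) := Fin.nontrivial_iff_two_le.2 (by omega)
    refine Cfsg.Agent.Linear.eq_top_of_transvection_mem fun i j h c => Subgroup.subset_closure ⟨(⟨(i, j), h⟩, c), ?_⟩
    exact slRels_x h c
  obtain ⟨wc, hwc⟩ := exists_word _ hTgen (P c3)
  have hpick : ∀ z : {ij : Fin n × Fin n // ij.1 ≠ ij.2},
      ∃ π : alternatingGroup (Fin n), (π : Perm (Fin n)) p0 = z.1.1 ∧ (π : Perm (Fin n)) p1 = z.1.2 := by
    intro z
    obtain ⟨ρ, hρ⟩ := exists_map ![p0, p1] ![z.1.1, z.1.2]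
      (by intro a b; fin_cases a <;> fin_cases b <;> simp [p0, p1])
      (by intro a b; fin_cases a <;> fin_cases b <;> simp [z.2, Ne.symm z.2])
    have h0 : ρ p0 = z.1.1 := hρ 0
    have h1 : ρ p1 = z.1.2 := hρ 1
    rcases Int.units_eq_one_or (Perm.sign ρ) with h | h
    · exact ⟨⟨ρ, Perm.mem_alternatingGroup.mpr h⟩, h0, h1⟩
    · refine ⟨⟨ρ * swap p2 p3, Perm.mem_alternatingGroup.mpr (by
        rw [map_mul, h, Perm.sign_swap (show p2 ≠ p3 by simp [p2, p3])]; rfl)⟩, ?_, ?_⟩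
      · show ρ (swap p2 p3 p0) = _
        rw [swap_apply_of_ne_of_ne (by simp [p0, p2]) (by simp [p0, p3]), h0]
      · show ρ (swap p2 p3 p1) = _
        rw [swap_apply_of_ne_of_ne (by simp [p1, p2]) (by simp [p1, p3]), h1]
  choose pick hpick0 hpick1 using hpick
  choose WA hWA using exists_word gA hgA
  -- the relators
  let W := FreeGroup (SpecialLinearGroup (Fin 3) F ⊕ Fin ka)
  let S : SpecialLinearGroup (Fin 3) F → W := fun g => FreeGroup.of (Sum.inl g)
  let inA : FreeGroup (Fin ka) →* W := FreeGroup.lift fun i => FreeGroup.of (Sum.inr i)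
  let R : alternatingGroup (Fin n) → W := fun π => inA (WA π)
  let u0 : SpecialLinearGroup (Fin 3) F := T3 0 1 1
  let h0 : SpecialLinearGroup (Fin 3) F := hW T3 0 1 (μ : F)
  let X : {ij : Fin n × Fin n // ij.1 ≠ ij.2} × F → W := fun z => R (pick z.1) * S (T3 0 1 z.2) * (R (pick z.1))⁻¹
  let cm : W → W → W := fun x y => x * y * (y * x)⁻¹
  let L : List W := rA.map inA ++
    five.map (fun z => R z.1 * S u0 * (R z.1)⁻¹ * (S (T3 z.2.1 z.2.2 1))⁻¹) ++
    five.map (fun z => R z.1 * S h0 * (R z.1)⁻¹ * (S (hW T3 z.2.1 z.2.2 (μ : F)))⁻¹) ++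
    [R c3 * (FreeGroup.lift X wc)⁻¹, cm (R sa) (S u0), cm (R sa) (S h0), cm (R sb) (S u0), cm (R sb) (S h0),
      cm (S u0) (R s1 * S u0 * (R s1)⁻¹), cm (S u0) (R s1 * S h0 * (R s1)⁻¹),
      cm (S h0) (R s1 * S u0 * (R s1)⁻¹), cm (S h0) (R s1 * S h0 * (R s1)⁻¹),
      cm (S u0) (R s2 * S u0 * (R s2)⁻¹), cm (S u0) (R s2 * S h0 * (R s2)⁻¹),
      cm (S h0) (R s2 * S u0 * (R s2)⁻¹), cm (S h0) (R s2 * S h0 * (R s2)⁻¹)]
  refine extend hA3 ι (fun i => P (gA i)) L (L₀ := 45) (by simp [L, five]; omega) ?_ ?_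
  · set φ := FreeGroup.lift (Sum.elim (fun g => ι g) fun i => P (gA i))
    have eS : ∀ g, φ (S g) = ι g := fun g => by simp [φ, S]
    have einA : φ.comp inA = P.comp (FreeGroup.lift gA) := FreeGroup.ext_hom _ _ fun i => by simp [φ, inA]
    have eR : ∀ π, φ (R π) = P π := fun π => by
      show (φ.comp inA) (WA π) = _
      rw [einA, MonoidHom.comp_apply, hWA]
    have h01 : (0 : Fin 3) ≠ 1 := by decide
    have hp01 : p0 ≠ p1 := by simp [p0, p1]
    have eu : φ (S u0) = Tn p0 p1 1 := by rw [eS, hιT 0 1 h01]; rfl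
    have eh : φ (S h0) = hW Tn p0 p1 (μ : F) := by rw [eS, hιh 0 1 h01]; rfl
    have hcm : ∀ x y : W, Commute (φ x) (φ y) → φ (cm x y) = 1 := fun x y h => by
      simp only [cm, map_mul, map_inv, mul_inv_eq_one]; exact h
    have hC : ∀ i j : Fin n, i ≠ j → i.val ≥ 2 → j.val ≥ 2 → ∀ t t' : F,
        Commute (Tn p0 p1 t) (Tn i j t') ∧ Commute (Tn p1 p0 t) (Tn i j t') := by
      intro i j hij hi hj t t'
      exact ⟨(slRels F n).comm _ _ _ _ hp01 hij (by simp [p0, Fin.ext_iff]; omega) (by simp [p1, Fin.ext_iff]; omega) t t',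
        (slRels F n).comm _ _ _ _ hp01.symm hij (by simp [p1, Fin.ext_iff]; omega) (by simp [p0, Fin.ext_iff]; omega) t t'⟩
    intro r hr
    simp only [L, List.mem_append, List.mem_map, List.mem_cons, List.not_mem_nil, or_false] at hr
    rcases hr with ((⟨r, hr, rfl⟩ | ⟨z, hz, rfl⟩) | ⟨z, hz, rfl⟩) | hr
    · rw [← MonoidHom.comp_apply, einA, MonoidHom.comp_apply, honeA r hr, map_one]
    · obtain ⟨h1, h2, h3⟩ := hfive z hz
      rw [map_mul, map_inv, mul_inv_eq_one, map_mul φ (R z.1 * S u0), map_mul φ (R z.1), map_inv, eR, eu, eS, hιT _ _ h1,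
        hPT _ hp01, h2, h3]
    · obtain ⟨h1, h2, h3⟩ := hfive z hz
      rw [map_mul, map_inv, mul_inv_eq_one, map_mul φ (R z.1 * S h0), map_mul φ (R z.1), map_inv, eR, eh, eS, hιh _ _ h1,
        hPh _ hp01, h2, h3]
    have hfixU : ∀ g ∈ ({sa, sb} : Set (alternatingGroup (Fin n))), Commute (P g) (Tn p0 p1 1) ∧
        Commute (P g) (hW Tn p0 p1 (μ : F)) := by
      intro g hg
      have e0 := hsfix g hg p0 (by simp [p0])
      have e1 := hsfix g hg p1 (by simp [p1])
      constructor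
      · have := hPT g hp01 1
        rw [e0, e1] at this
        exact mul_inv_eq_iff_eq_mul.mp this
      · have := hPh g hp01 (μ : F)
        rw [e0, e1] at this
        exact mul_inv_eq_iff_eq_mul.mp this
    have hconj : ∀ (π : alternatingGroup (Fin n)), 2 ≤ ((π : Perm (Fin n)) p0).val → 2 ≤ ((π : Perm (Fin n)) p1).val →
        ∀ a b : W, (a = S u0 ∨ a = S h0) → (b = S u0 ∨ b = S h0) → Commute (φ a) (φ (R π * b * (R π)⁻¹)) := by
      intro π hi hj a b ha hb
      have hne := (π : Perm (Fin n)).injective.ne hp01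
      have key : ∀ y : SpecialLinearGroup (Fin n) F, (∀ t, Commute y (Tn ((π : Perm (Fin n)) p0) ((π : Perm (Fin n)) p1) t) ∧
          Commute y (Tn ((π : Perm (Fin n)) p1) ((π : Perm (Fin n)) p0) t)) → Commute y (φ (R π * b * (R π)⁻¹)) := by
        intro y hy
        rw [map_mul, map_inv, map_mul φ (R π) b, eR]
        rcases hb with rfl | rfl
        · rw [eu, hPT _ hp01]; exact (hy 1).1
        · rw [eh, hPh _ hp01]
          exact (((((hy _).1.mul_right (hy _).2).mul_right (hy _).1).mul_right (hy _).1).mul_right (hy _).2).mul_right (hy _).1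
      refine key _ fun t => ?_
      rcases ha with rfl | rfl
      · rw [eu]; exact ⟨(hC _ _ hne hi hj 1 t).1, (hC _ _ hne.symm hj hi 1 t).1⟩
      · rw [eh]
        exact ⟨(((((hC _ _ hne hi hj _ t).1.mul_left (hC _ _ hne hi hj _ t).2).mul_left (hC _ _ hne hi hj _ t).1).mul_left
            (hC _ _ hne hi hj _ t).1).mul_left (hC _ _ hne hi hj _ t).2).mul_left (hC _ _ hne hi hj _ t).1,
          (((((hC _ _ hne.symm hj hi _ t).1.mul_left (hC _ _ hne.symm hj hi _ t).2).mul_left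
            (hC _ _ hne.symm hj hi _ t).1).mul_left (hC _ _ hne.symm hj hi _ t).1).mul_left
            (hC _ _ hne.symm hj hi _ t).2).mul_left (hC _ _ hne.symm hj hi _ t).1⟩
    have c1 := hconj s1 (by rw [hs1.1]) (by rw [hs1.2]; simp [p3])
    have c2 := hconj s2 (by rw [hs2.1]; simp [p3]) (by rw [hs2.2])
    rcases hr with rfl | rfl | rfl | rfl | rfl | rfl | rfl | rfl | rfl | rfl | rfl | rfl | rfl
    · rw [map_mul, map_inv, mul_inv_eq_one, eR, ← MonoidHom.comp_apply,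
        show φ.comp (FreeGroup.lift X) = FreeGroup.lift fun z : {ij : Fin n × Fin n // ij.1 ≠ ij.2} × F =>
          Tn z.1.1.1 z.1.1.2 z.2 from FreeGroup.ext_hom _ _ fun z => ?_, hwc]
      simp only [MonoidHom.comp_apply, FreeGroup.lift_apply_of, X]
      rw [map_mul, map_inv, map_mul φ (R (pick z.1)), eR, eS, hιT 0 1 h01, he0, he1, hPT _ hp01, hpick0, hpick1]
    · exact hcm _ _ (by rw [eR, eu]; exact (hfixU sa (Or.inl rfl)).1)
    · exact hcm _ _ (by rw [eR, eh]; exact (hfixU sa (Or.inl rfl)).2)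
    · exact hcm _ _ (by rw [eR, eu]; exact (hfixU sb (Or.inr rfl)).1)
    · exact hcm _ _ (by rw [eR, eh]; exact (hfixU sb (Or.inr rfl)).2)
    · exact hcm _ _ (c1 _ _ (Or.inl rfl) (Or.inl rfl))
    · exact hcm _ _ (c1 _ _ (Or.inl rfl) (Or.inr rfl))
    · exact hcm _ _ (c1 _ _ (Or.inr rfl) (Or.inl rfl))
    · exact hcm _ _ (c1 _ _ (Or.inr rfl) (Or.inr rfl))
    · exact hcm _ _ (c2 _ _ (Or.inl rfl) (Or.inl rfl))
    · exact hcm _ _ (c2 _ _ (Or.inl rfl) (Or.inr rfl))
    · exact hcm _ _ (c2 _ _ (Or.inr rfl) (Or.inl rfl))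
    · exact hcm _ _ (c2 _ _ (Or.inr rfl) (Or.inr rfl))
  intro E _ σ fA ψ hf hgenE hψσ hψf
  set φ := FreeGroup.lift (Sum.elim (fun g => σ g) fA)
  have eS : ∀ g, φ (S g) = σ g := fun g => by simp [φ, S]
  obtain ⟨ρ, hρ⟩ := hunivA E fA fun r hr => by
    rw [show FreeGroup.lift fA = φ.comp inA from FreeGroup.ext_hom _ _ fun i => by simp [φ, inA]]
    exact hf _ (List.mem_append_left _ (List.mem_append_left _ (List.mem_append_left _ (List.mem_map_of_mem hr))))
  have eR : ∀ π, φ (R π) = ρ π := fun π => by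
    show (φ.comp inA) (WA π) = _
    rw [show φ.comp inA = ρ.comp (FreeGroup.lift gA) from FreeGroup.ext_hom _ _ fun i => by simp [φ, inA, hρ],
      MonoidHom.comp_apply, hWA]
  have hψρ : ∀ π, ψ (ρ π) = P π := by
    have : ψ.comp ρ = P := MonoidHom.eq_of_eqOn_dense hgA (by
      rintro _ ⟨i, rfl⟩
      simp [hρ, hψf])
    exact DFunLike.congr_fun this
  have f1 : ∀ z ∈ five, φ (R z.1 * S u0 * (R z.1)⁻¹ * (S (T3 z.2.1 z.2.2 1))⁻¹) = 1 := fun z hz =>
    hf _ (List.mem_append_left _ (List.mem_append_left _ (List.mem_append_right _ (List.mem_map.mpr ⟨z, hz, rfl⟩))))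
  have f2 : ∀ z ∈ five, φ (R z.1 * S h0 * (R z.1)⁻¹ * (S (hW T3 z.2.1 z.2.2 (μ : F)))⁻¹) = 1 := fun z hz =>
    hf _ (List.mem_append_left _ (List.mem_append_right _ (List.mem_map.mpr ⟨z, hz, rfl⟩)))
  simp only [map_mul, map_inv, eR, eS, mul_inv_eq_one] at f1 f2
  have frest : ∀ r ∈ [R c3 * (FreeGroup.lift X wc)⁻¹, cm (R sa) (S u0), cm (R sa) (S h0), cm (R sb) (S u0), cm (R sb) (S h0),
      cm (S u0) (R s1 * S u0 * (R s1)⁻¹), cm (S u0) (R s1 * S h0 * (R s1)⁻¹),
      cm (S h0) (R s1 * S u0 * (R s1)⁻¹), cm (S h0) (R s1 * S h0 * (R s1)⁻¹),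
      cm (S u0) (R s2 * S u0 * (R s2)⁻¹), cm (S u0) (R s2 * S h0 * (R s2)⁻¹),
      cm (S h0) (R s2 * S u0 * (R s2)⁻¹), cm (S h0) (R s2 * S h0 * (R s2)⁻¹)], φ r = 1 := fun r hr =>
    hf r (List.mem_append_right _ hr)
  simp only [List.mem_cons, List.not_mem_nil, or_false, forall_eq_or_imp, forall_eq, cm, map_mul, map_inv, eR, eS,
    mul_inv_eq_one] at frest
  obtain ⟨w1, a1, a2, a3, a4, b1, b2, b3, b4, b5, b6, b7, b8⟩ := frest
  -- agreement on root subgroups
  let conjS : alternatingGroup (Fin n) → (SpecialLinearGroup (Fin 3) F →* E) := fun π =>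
    (MulAut.conj (ρ π)).toMonoidHom.comp σ
  have hsix : ∀ a b : Fin 3, a ≠ b → ∃ π : alternatingGroup (Fin n), (π : Perm (Fin n)) p0 = e a ∧
      (π : Perm (Fin n)) p1 = e b ∧ ∀ t, ρ π * σ (T3 0 1 t) * (ρ π)⁻¹ = σ (T3 a b t) := by
    have hz : ∀ z ∈ five, ∀ t, ρ z.1 * σ (T3 0 1 t) * (ρ z.1)⁻¹ = σ (T3 z.2.1 z.2.2 t) := fun z hz =>
      root_agree hadj (conjS z.1) σ (by decide) (hfive z hz).1 (f1 z hz) (f2 z hz)
    intro a b hab
    have hcase : (a = 0 ∧ b = 1) ∨ ∃ z ∈ five, z.2.1 = a ∧ z.2.2 = b := by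
      fin_cases a <;> fin_cases b <;> first
        | exact absurd rfl hab
        | exact Or.inl ⟨rfl, rfl⟩
        | exact Or.inr ⟨(c3, 1, 2), by simp [five], rfl, rfl⟩
        | exact Or.inr ⟨(c3⁻¹, 2, 0), by simp [five], rfl, rfl⟩
        | exact Or.inr ⟨(d0, 1, 0), by simp [five], rfl, rfl⟩
        | exact Or.inr ⟨(c3 * d0, 2, 1), by simp [five], rfl, rfl⟩
        | exact Or.inr ⟨(c3⁻¹ * d0, 0, 2), by simp [five], rfl, rfl⟩
    rcases hcase with ⟨rfl, rfl⟩ | ⟨z, hzm, rfl, rfl⟩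
    · exact ⟨1, by simp [he0], by simp [he1], fun t => by simp⟩
    · exact ⟨z.1, (hfive z hzm).2.1, (hfive z hzm).2.2, hz z hzm⟩
  have hstab : ∀ π : alternatingGroup (Fin n), (π : Perm (Fin n)) p0 = p0 → (π : Perm (Fin n)) p1 = p1 →
      ∀ t, ρ π * σ (T3 0 1 t) * (ρ π)⁻¹ = σ (T3 0 1 t) := by
    intro π h0' h1' t
    have hπ := hsgen π (fun i hi => by
      rcases (show i.val = 0 ∨ i.val = 1 by omega) with h | h
      · rw [show i = p0 from Fin.ext h, h0']
      · rw [show i = p1 from Fin.ext h, h1'])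
    have hK : Subgroup.closure ({sa, sb} : Set (alternatingGroup (Fin n))) ≤
        (Subgroup.centralizer {σ (T3 0 1 t)}).comap ρ := by
      rw [Subgroup.closure_le]
      have hag : ∀ g, ρ g * σ u0 = σ u0 * ρ g → ρ g * σ h0 = σ h0 * ρ g →
          ρ g * σ (T3 0 1 t) * (ρ g)⁻¹ = σ (T3 0 1 t) := fun g e1 e2 =>
        root_agree hadj (conjS g) σ (by decide) (by decide) (mul_inv_eq_iff_eq_mul.mpr e1)
          (mul_inv_eq_iff_eq_mul.mpr e2) t
      rintro g (rfl | rfl) <;>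
        refine Subgroup.mem_centralizer_singleton_iff.mpr (mul_inv_eq_iff_eq_mul.mp ?_)
      · exact hag _ a1 a2
      · exact hag _ a3 a4
    exact mul_inv_eq_iff_eq_mul.mpr (Subgroup.mem_centralizer_singleton_iff.mp (hK hπ))
  let x : Fin n → Fin n → F → E := fun i j t =>
    if h : i ≠ j then ρ (pick ⟨(i, j), h⟩) * σ (T3 0 1 t) * (ρ (pick ⟨(i, j), h⟩))⁻¹ else 1
  have hx : ∀ (π : alternatingGroup (Fin n)) t,
      x ((π : Perm (Fin n)) p0) ((π : Perm (Fin n)) p1) t = ρ π * σ (T3 0 1 t) * (ρ π)⁻¹ := by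
    intro π t
    have hne : (π : Perm (Fin n)) p0 ≠ (π : Perm (Fin n)) p1 :=
      (π : Perm (Fin n)).injective.ne (by simp [p0, p1])
    simp only [x, dif_pos hne]
    set π' := pick ⟨(_, _), hne⟩
    have := hstab (π⁻¹ * π')
      (by rw [Subgroup.coe_mul, Perm.mul_apply, hpick0, Subgroup.coe_inv, Perm.inv_eq_iff_eq])
      (by rw [Subgroup.coe_mul, Perm.mul_apply, hpick1, Subgroup.coe_inv, Perm.inv_eq_iff_eq]) t
    conv_rhs => rw [← this]
    rw [map_mul, map_inv]
    group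
  have hxs : ∀ (π : alternatingGroup (Fin n)) (a b : Fin 3), a ≠ b → ∀ t,
      x ((π : Perm (Fin n)) (e a)) ((π : Perm (Fin n)) (e b)) t = conjS π (T3 a b t) := by
    intro π a b hab t
    obtain ⟨c, hc0, hc1, hc⟩ := hsix a b hab
    rw [← hc0, ← hc1, ← Perm.mul_apply, ← Perm.mul_apply, ← Subgroup.coe_mul, hx]
    show _ = ρ π * σ (T3 a b t) * (ρ π)⁻¹
    rw [← hc, map_mul]
    group
  have htriple : ∀ i j l : Fin n, i ≠ j → i ≠ l → j ≠ l → ∃ (π : alternatingGroup (Fin n)) (a b c : Fin 3),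
      a ≠ b ∧ a ≠ c ∧ b ≠ c ∧ (π : Perm (Fin n)) (e a) = i ∧ (π : Perm (Fin n)) (e b) = j ∧
        (π : Perm (Fin n)) (e c) = l := by
    intro i j l hij hil hjl
    obtain ⟨π, h | h⟩ := exists_even_map e ![i, j, l] he
      (by intro a b; fin_cases a <;> fin_cases b <;> simp [hij, hil, hjl, hij.symm, hil.symm, hjl.symm]) 0 1 (by decide)
    · exact ⟨π, 0, 1, 2, by decide, by decide, by decide, h 0, h 1, h 2⟩
    · refine ⟨π, 1, 0, 2, by decide, by decide, by decide, ?_, ?_, ?_⟩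
      · rw [h 1]; simp
      · rw [h 0]; simp
      · rw [h 2]; simp [swap_apply_def]
  have hfour : ∀ i j k l : Fin n, i ≠ j → i ≠ k → i ≠ l → j ≠ k → j ≠ l → k ≠ l → ∀ t v,
      x i j t * x k l v = x k l v * x i j t := by
    intro i j k l hij hik hil hjk hjl hkl t v
    have base : ∀ s : alternatingGroup (Fin n), ρ s * σ u0 * (ρ s)⁻¹ * σ u0 = σ u0 * (ρ s * σ u0 * (ρ s)⁻¹) →
        ρ s * σ h0 * (ρ s)⁻¹ * σ u0 = σ u0 * (ρ s * σ h0 * (ρ s)⁻¹) →
        ρ s * σ u0 * (ρ s)⁻¹ * σ h0 = σ h0 * (ρ s * σ u0 * (ρ s)⁻¹) →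
        ρ s * σ h0 * (ρ s)⁻¹ * σ h0 = σ h0 * (ρ s * σ h0 * (ρ s)⁻¹) →
        ∀ t v, Commute (σ (T3 0 1 t)) (ρ s * σ (T3 0 1 v) * (ρ s)⁻¹) := by
      intro s e1 e2 e3 e4 t v
      have step : ∀ (φ φ' : SpecialLinearGroup (Fin 3) F →* E) (y : E), Commute y (φ u0) → Commute y (φ h0) →
          ∀ v, Commute y (φ (T3 0 1 v)) := by
        intro φ _ y h1 h2 v
        have := root_agree hadj ((MulAut.conj y).toMonoidHom.comp φ) φ (show (0 : Fin 3) ≠ 1 by decide)
          (show (0 : Fin 3) ≠ 1 by decide) (mul_inv_eq_iff_eq_mul.mpr h1) (mul_inv_eq_iff_eq_mul.mpr h2) v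
        exact mul_inv_eq_iff_eq_mul.mp this
      have hu : ∀ v, Commute (σ u0) (conjS s (T3 0 1 v)) := step (conjS s) σ _ (Eq.symm e1) (Eq.symm e2)
      have hh : ∀ v, Commute (σ h0) (conjS s (T3 0 1 v)) := step (conjS s) σ _ (Eq.symm e3) (Eq.symm e4)
      exact (step σ σ _ (hu v).symm (hh v).symm t).symm
    obtain ⟨π, h⟩ := exists_even_map ![p0, p1, p2, p3] ![i, j, k, l]
      (by intro a b; fin_cases a <;> fin_cases b <;> simp [p0, p1, p2, p3])
      (by intro a b; fin_cases a <;> fin_cases b <;>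
        simp [hij, hik, hil, hjk, hjl, hkl, hij.symm, hik.symm, hil.symm, hjk.symm, hjl.symm, hkl.symm]) 2 3 (by decide)
    have fin : ∀ s : alternatingGroup (Fin n), (∀ t v, Commute (σ (T3 0 1 t)) (ρ s * σ (T3 0 1 v) * (ρ s)⁻¹)) →
        (π : Perm (Fin n)) p0 = i → (π : Perm (Fin n)) p1 = j →
        ((π * s : alternatingGroup (Fin n)) : Perm (Fin n)) p0 = k →
        ((π * s : alternatingGroup (Fin n)) : Perm (Fin n)) p1 = l → x i j t * x k l v = x k l v * x i j t := by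
      intro s hs h0' h1' h2' h3'
      rw [← h2', ← h3', ← h0', ← h1', hx, hx, map_mul]
      have := (hs t v).map (MulAut.conj (ρ π)).toMonoidHom
      simp only [MulEquiv.coe_toMonoidHom, MulAut.conj_apply] at this
      rw [show ρ π * ρ s * σ (T3 0 1 v) * (ρ π * ρ s)⁻¹ = ρ π * (ρ s * σ (T3 0 1 v) * (ρ s)⁻¹) * (ρ π)⁻¹ by group]
      exact this
    rcases h with h | h
    · exact fin s1 (base s1 b1.symm b2.symm b3.symm b4.symm) (h 0) (h 1)
        (by rw [Subgroup.coe_mul, Perm.mul_apply, hs1.1]; exact h 2)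
        (by rw [Subgroup.coe_mul, Perm.mul_apply, hs1.2]; exact h 3)
    · refine fin s2 (base s2 b5.symm b6.symm b7.symm b8.symm) ?_ ?_ ?_ ?_
      · exact (h 0).trans (by simp [swap_apply_def])
      · exact (h 1).trans (by simp [swap_apply_def])
      · rw [Subgroup.coe_mul, Perm.mul_apply, hs2.1]; exact (h 3).trans (by simp [swap_apply_def])
      · rw [Subgroup.coe_mul, Perm.mul_apply, hs2.2]; exact (h 2).trans (by simp [swap_apply_def])
  let RE : Rels E (Fin n) F :=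
    { x := x
      add := fun i j h t v => by
        simp only [x, dif_pos h]
        rw [show T3 0 1 (t + v) = T3 0 1 t * T3 0 1 v from ((slRels F 3).add 0 1 (by decide) t v).symm, map_mul]
        group
      comm3 := fun i j l h1 h2 h3 t v => by
        obtain ⟨π, a, b, c, hab, hac, hbc, rfl, rfl, rfl⟩ := htriple i j l h1 h3 h2
        rw [hxs π a b hab, hxs π b c hbc, hxs π a c hac, ← map_commutatorElement]
        exact congrArg (conjS π) ((slRels F 3).comm3 a b c hab hbc hac t v)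
      comm := fun i j k l h1 h2 h3 h4 t v => by
        by_cases hik : i = k
        · subst hik
          by_cases hjl : j = l
          · subst hjl
            simp only [x, dif_pos h1, conj_mul]
            rw [← map_mul, ← map_mul, show T3 0 1 t * T3 0 1 v = T3 0 1 v * T3 0 1 t from
              (slRels F 3).comm 0 1 0 1 (by decide) (by decide) (by decide) (by decide) t v]
          · obtain ⟨π, a, b, c, hab, hac, hbc, rfl, rfl, rfl⟩ := htriple i j l h1 h3 hjl
            rw [hxs π a b hab, hxs π a c hac, ← map_mul, ← map_mul,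
              (slRels F 3).comm a b a c hab hac hac hab.symm]
        · by_cases hjl : j = l
          · subst hjl
            obtain ⟨π, a, b, c, hab, hac, hbc, rfl, rfl, rfl⟩ := htriple i k j hik h1 h4.symm
            rw [hxs π a c hac, hxs π b c hbc, ← map_mul, ← map_mul,
              (slRels F 3).comm a c b c hac hbc hac hbc.symm]
          · exact hfour i j k l h1 hik h3 h4 hjl h2 t v }
  obtain ⟨sl, hsl⟩ := Cfsg.Agent.Suzuki.SLSt.exists_section (by omega : 3 ≤ n) RE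
  have hψx : ∀ i j, i ≠ j → ∀ t, ψ (x i j t) = Tn i j t := fun i j h t => by
    simp only [x, dif_pos h]
    rw [map_mul, map_mul, map_inv, hψρ, hψσ, hιT 0 1 (by decide), he0, he1, hPT _ (by simp [p0, p1]), hpick0, hpick1]
  have : Nontrivial (Fin n) := Fin.nontrivial_iff_two_le.2 (by omega)
  have hid : ∀ z, ψ (sl z) = z := fun z => by
    refine Cfsg.Agent.Linear.transvection_induction (fun z => ψ (sl z) = z) (fun i j h t => ?_)
      (fun a b ha hb => by rw [map_mul, map_mul, ha, hb]) z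
    rw [hsl i j h t, show RE.x = x from rfl, hψx i j h, hTn, slRels_x h]
  -- generation
  set H := sl.range
  have hxH : ∀ i j, i ≠ j → ∀ t, x i j t ∈ H := fun i j h t => ⟨_, hsl i j h t⟩
  have hσH : ∀ g, σ g ∈ H := fun g => by
    refine Cfsg.Agent.Linear.transvection_induction (fun g => σ g ∈ H) (fun a b h t => ?_)
      (fun g g' hg hg' => by rw [map_mul]; exact mul_mem hg hg') g
    have := hxH _ _ (he.ne h) t
    have e1 := hxs 1 a b h t
    simp only [OneMemClass.coe_one, Perm.one_apply] at e1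
    rw [e1] at this
    have e2 : (SpecialLinearGroup.transvection h t : SpecialLinearGroup (Fin 3) F) = T3 a b t := (slRels_x h t).symm
    rw [e2]
    simpa [conjS] using this
  have hnorm : ∀ π z, ρ π * sl z * (ρ π)⁻¹ ∈ H := fun π z => by
    refine Cfsg.Agent.Linear.transvection_induction (fun z => ρ π * sl z * (ρ π)⁻¹ ∈ H) (fun i j h t => ?_)
      (fun a b ha hb => ?_) z
    · rw [hsl i j h t]
      show ρ π * x i j t * (ρ π)⁻¹ ∈ H
      simp only [x, dif_pos h]
      have e1 := hx (π * pick ⟨(i, j), h⟩) t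
      rw [map_mul] at e1
      rw [show ρ π * (ρ (pick ⟨(i, j), h⟩) * σ (T3 0 1 t) * (ρ (pick ⟨(i, j), h⟩))⁻¹) * (ρ π)⁻¹ =
        ρ π * ρ (pick ⟨(i, j), h⟩) * σ (T3 0 1 t) * (ρ π * ρ (pick ⟨(i, j), h⟩))⁻¹ by group, ← e1]
      exact hxH _ _ (((π * pick ⟨(i, j), h⟩ : alternatingGroup (Fin n)) : Perm (Fin n)).injective.ne
        (by simp [p0, p1])) t
    · rw [show ρ π * sl (a * b) * (ρ π)⁻¹ = (ρ π * sl a * (ρ π)⁻¹) * (ρ π * sl b * (ρ π)⁻¹) by
        rw [map_mul]; group]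
      exact mul_mem ha hb
  have hρc : ρ c3 ∈ H := by
    rw [w1, ← MonoidHom.comp_apply]
    have hle : (φ.comp (FreeGroup.lift X)).range ≤ H := by
      rw [show φ.comp (FreeGroup.lift X) = FreeGroup.lift (fun z : {ij : Fin n × Fin n // ij.1 ≠ ij.2} × F =>
        x z.1.1.1 z.1.1.2 z.2) from FreeGroup.ext_hom _ _ fun z => by simp [X, x, eR, eS, z.1.2],
        FreeGroup.range_lift_eq_closure, Subgroup.closure_le]
      rintro _ ⟨z, rfl⟩
      exact hxH _ _ z.1.2 _
    exact hle ⟨wc, rfl⟩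
  have hρH : H.comap ρ = ⊤ := by
    refine eq_top_of_cycA (show p0 ≠ p1 by simp [p0, p1]) _ fun i hi0 hi1 => ?_
    obtain ⟨π, h⟩ := exists_even_map ![p0, p1, p2] ![p0, p1, i]
      (by intro a b; fin_cases a <;> fin_cases b <;> simp [p0, p1, p2])
      (by intro a b; fin_cases a <;> fin_cases b <;> simp [p0, p1, hi0, hi1, Ne.symm hi0, Ne.symm hi1]) 0 1 (by decide)
    obtain ⟨z, hz⟩ := hρc
    have hmem : π * c3 * π⁻¹ ∈ H.comap ρ := by
      show ρ (π * c3 * π⁻¹) ∈ H
      rw [map_mul, map_mul, map_inv, ← hz]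
      exact hnorm π z
    have hcyc := cycA_conj π (show p0 ≠ p1 by simp [p0, p1]) (show p0 ≠ p2 by simp [p0, p2])
    rw [show π * c3 * π⁻¹ = cycA ((π : Perm (Fin n)) p0) ((π : Perm (Fin n)) p1) ((π : Perm (Fin n)) p2) from hcyc] at hmem
    rcases h with h | h
    · have g0 : (π : Perm (Fin n)) p0 = p0 := h 0
      have g1 : (π : Perm (Fin n)) p1 = p1 := h 1
      have g2 : (π : Perm (Fin n)) p2 = i := h 2
      rwa [g0, g1, g2] at hmem
    · have g0 : (π : Perm (Fin n)) p0 = p1 := h 0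
      have g1 : (π : Perm (Fin n)) p1 = p0 := h 1
      have g2 : (π : Perm (Fin n)) p2 = i := h 2
      rw [g0, g1, g2] at hmem
      rw [cycA_swap (show p0 ≠ p1 by simp [p0, p1]) (Ne.symm hi0) (Ne.symm hi1)] at hmem
      exact inv_mem_iff.mp hmem
  have hsurj : Function.Surjective sl := by
    rw [← MonoidHom.range_eq_top, eq_top_iff, ← hgenE, Subgroup.closure_le]
    rintro _ (⟨g, rfl⟩ | ⟨i, rfl⟩)
    · exact hσH g
    · have : gA i ∈ H.comap ρ := hρH ▸ Subgroup.mem_top _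
      rw [← hρ i]; exact this
  refine ⟨fun a b hab => ?_, fun z => ⟨sl z, hid z⟩⟩
  obtain ⟨a, rfl⟩ := hsurj a
  obtain ⟨b, rfl⟩ := hsurj b
  rw [← hid a, hab, hid b]

end Cfsg.Agent.KnownA.Bounded
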