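import Cfsg.Agent.KnownA.Bounded.SpPerm
import Cfsg.Agent.KnownA.Bounded.Stab
import Cfsg.Agent.Suzuki.SpStep

/-! Gluing a symplectic group out of one block and the permutations of the classes. -/

set_option autoImplicit false
set_option linter.unusedSectionVars false

namespace Cfsg.Agent.KnownA.Bounded

open Matrix Cfsg.Agent.Suzuki.SpSt Cfsg.Agent.KnownB.Proj.Symp
open Equiv (Perm swap)
open scoped commutatorElement

universe u v

variable {F : Type u} [Field F] {m : ℕ}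

/-- The first four classes. -/
def pt (hm : 3 ≤ m) (i : Fin 3) : Fin m := Fin.castLE hm i

theorem pt_ne (hm : 3 ≤ m) {i j : Fin 3} (h : i ≠ j) : pt hm i ≠ pt hm j := (Fin.castLE_injective hm).ne h

variable {E : Type v} [Group E] {Γ : Type} [Group Γ]

/-- The conjugate of the block. -/
def cj (σ : Matrix.symplecticGroup (Fin 2) F →* E) (ρ : Γ →* E) (g : Γ) :
    Matrix.symplecticGroup (Fin 2) F →* E :=
  (MulAut.conj (ρ g)).toMonoidHom.comp σ

theorem cj_apply (σ : Matrix.symplecticGroup (Fin 2) F →* E) (ρ : Γ →* E) (g : Γ)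
    (x : Matrix.symplecticGroup (Fin 2) F) : cj σ ρ g x = ρ g * σ x * (ρ g)⁻¹ := rfl

theorem cj_mul (σ : Matrix.symplecticGroup (Fin 2) F →* E) (ρ : Γ →* E) (g h : Γ)
    (x : Matrix.symplecticGroup (Fin 2) F) : cj σ ρ (g * h) x = ρ g * cj σ ρ h x * (ρ g)⁻¹ := by
  rw [cj_apply, cj_apply, map_mul]; group

/-- An element of the block giving a root element. -/
noncomputable def yA : Matrix.symplecticGroup (Fin 2) F := Y (.inl 0) (.inl 1) 1

/-- An element of the block giving a root element. -/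
noncomputable def yB : Matrix.symplecticGroup (Fin 2) F := Y (.inr 0) (.inl 1) 1

theorem sp_glue (hm : 3 ≤ m) (pr : Γ →* Perm (Fin m)) (σ : Matrix.symplecticGroup (Fin 2) F →* E) (ρ : Γ →* E)
    (ψ : E →* Matrix.symplecticGroup (Fin m) F)
    (hψσ : ∀ x, ψ (σ x) = blk (pt hm 0) (pt hm 1) (pt_ne hm (by decide)) x)
    (hψρ : ∀ g, ψ (ρ g) = permS (pr g))
    (htr3 : ∀ a b c : Fin m, a ≠ b → b ≠ c → a ≠ c →
      ∃ g, pr g (pt hm 0) = a ∧ pr g (pt hm 1) = b ∧ pr g (pt hm 2) = c)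
    (htr4 : ∀ (h4 : 4 ≤ m) (a b c d : Fin m), a ≠ b → a ≠ c → a ≠ d → b ≠ c → b ≠ d → c ≠ d →
      ∃ g, pr g (pt hm 0) = a ∧ pr g (pt hm 1) = b ∧ ((pr g (pt hm 2) = c ∧ pr g ⟨3, by omega⟩ = d) ∨
        (pr g (pt hm 2) = d ∧ pr g ⟨3, by omega⟩ = c)))
    (gs gl gd : Γ) (hgs : pr gs (pt hm 0) = pt hm 1 ∧ pr gs (pt hm 1) = pt hm 0)
    (hgl : pr gl (pt hm 0) = pt hm 0 ∧ pr gl (pt hm 1) = pt hm 2)
    (hgd : pr gd (pt hm 0) = pt hm 1 ∧ pr gd (pt hm 1) = pt hm 2)
    (hstab : ∀ g : Γ, pr g (pt hm 0) = pt hm 0 → pr g (pt hm 1) = pt hm 1 → ∀ x, cj σ ρ g x = σ x)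
    (hswap : ∀ x, cj σ ρ gs x = σ (sw x))
    (hlong : ∀ y, cj σ ρ gl (e0 y) = σ (e0 y))
    (hdisj : ∀ y, Commute (σ (e0 y)) (cj σ ρ gd yA))
    (hr1 : ⁅σ yA, cj σ ρ gd yB⁆ ∈ (cj σ ρ gl).range)
    (hr2 : Commute (σ yA) (cj σ ρ gl yA))
    (hr3 : ∀ h4 : 4 ≤ m, ∃ g3 : Γ, pr g3 (pt hm 0) = pt hm 2 ∧ pr g3 (pt hm 1) = (⟨3, by omega⟩ : Fin m) ∧
      Commute (σ yA) (cj σ ρ g3 yA))
    (hgen : Subgroup.closure (Set.range σ ∪ Set.range ρ) = ⊤)
    (τ₀ : Γ) (hnc : Subgroup.normalClosure ({τ₀} : Set Γ) = ⊤)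
    (hρH : ∃ w ∈ Subgroup.closure {g : E | ∃ π x, g = cj σ ρ π x}, ρ τ₀ = w) :
    Function.Bijective ψ := by
  classical
  set q0 := pt hm 0 with hq0
  set q1 := pt hm 1 with hq1
  set q2 := pt hm 2 with hq2
  have h01 : q0 ≠ q1 := pt_ne hm (by decide)
  have h02 : q0 ≠ q2 := pt_ne hm (by decide)
  have h12 : q1 ≠ q2 := pt_ne hm (by decide)
  -- the blocks
  have hthird : ∀ a b : Fin m, ∃ c, b ≠ c ∧ a ≠ c := fun a b => by
    by_contra hc
    push Not at hc
    have h := Finset.card_le_card (show (Finset.univ : Finset (Fin m)) ⊆ {a, b} from fun x _ => by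
      rcases eq_or_ne b x with h | h
      · simp [h]
      · simp [hc x h])
    rw [Finset.card_univ, Fintype.card_fin] at h
    have := Finset.card_le_two (a := a) (b := b)
    omega
  have hpick : ∀ a b : Fin m, a ≠ b → ∃ g : Γ, pr g q0 = a ∧ pr g q1 = b := fun a b h => by
    obtain ⟨c, hbc, hac⟩ := hthird a b
    obtain ⟨g, g0, g1, -⟩ := htr3 a b c h hbc hac
    exact ⟨g, g0, g1⟩
  choose pick pick0 pick1 using hpick
  let S : ∀ a b : Fin m, a ≠ b → (Matrix.symplecticGroup (Fin 2) F →* E) := fun a b h => cj σ ρ (pick a b h)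
  have hS : ∀ (g : Γ) a b h, pr g q0 = a → pr g q1 = b → ∀ x, cj σ ρ g x = S a b h x := by
    intro g a b h g0 g1 x
    show cj σ ρ g x = cj σ ρ (pick a b h) x
    rw [show g = pick a b h * ((pick a b h)⁻¹ * g) by group, cj_mul, hstab, cj_apply]
    · rw [map_mul, map_inv, Equiv.Perm.mul_apply, g0, Equiv.Perm.inv_eq_iff_eq, pick0]
    · rw [map_mul, map_inv, Equiv.Perm.mul_apply, g1, Equiv.Perm.inv_eq_iff_eq, pick1]
  have hSg : ∀ (g : Γ) a b h x, ρ g * S a b h x * (ρ g)⁻¹ = S (pr g a) (pr g b) ((pr g).injective.ne h) x := by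
    intro g a b h x
    show ρ g * cj σ ρ _ x * (ρ g)⁻¹ = _
    rw [← cj_mul]
    exact hS _ _ _ _ (by rw [map_mul, Equiv.Perm.mul_apply, pick0]) (by rw [map_mul, Equiv.Perm.mul_apply, pick1]) x
  have hψcj : ∀ (g : Γ) x, ψ (cj σ ρ g x) = blk (pr g q0) (pr g q1) ((pr g).injective.ne h01) x := fun g x => by
    rw [cj_apply, map_mul, map_mul, map_inv, hψρ, hψσ, permS_blk]
  have hψS : ∀ a b h x, ψ (S a b h x) = blk a b h x := fun a b h x => by
    show ψ (cj σ ρ _ x) = _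
    rw [hψcj]
    exact ext_congr (by rw [pick0, pick1]) _ _ x
  have hSsw : ∀ a b (h : a ≠ b) x, S b a h.symm x = S a b h (sw x) := by
    intro a b h x
    rw [← hS (pick a b h * gs) b a h.symm (by rw [map_mul, Equiv.Perm.mul_apply, hgs.1, pick1])
      (by rw [map_mul, Equiv.Perm.mul_apply, hgs.2, pick0]) x, cj_mul, hswap, ← cj_apply]
  -- the rank one subgroups
  have hstab0 : ∀ g : Γ, pr g q0 = q0 → ∀ y, cj σ ρ g (e0 y) = σ (e0 y) := by
    intro g g0 y
    by_cases g1 : pr g q1 = q1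
    · exact hstab g g0 g1 _
    have e0' : pr g q1 ≠ q0 := fun e' => h01 ((pr g).injective (e'.trans g0.symm)).symm
    obtain ⟨h, a0, a1, a2⟩ := htr3 q0 q1 (pr g q1) h01 (Ne.symm g1) e0'.symm
    have b0 : pr ((h * gl)⁻¹ * g) q0 = q0 := by
      rw [map_mul, map_inv, Equiv.Perm.mul_apply, g0, Equiv.Perm.inv_eq_iff_eq, map_mul, Equiv.Perm.mul_apply, hgl.1, a0]
    have b1 : pr ((h * gl)⁻¹ * g) q1 = q1 := by
      rw [map_mul, map_inv, Equiv.Perm.mul_apply, Equiv.Perm.inv_eq_iff_eq, map_mul, Equiv.Perm.mul_apply, hgl.2, a2]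
    rw [show g = h * gl * ((h * gl)⁻¹ * g) by group, cj_mul, hstab _ b0 b1, ← cj_apply, cj_mul,
      hlong, ← cj_apply, hstab h a0 a1]
  have hpick' : ∀ a : Fin m, ∃ g : Γ, pr g q0 = a := fun a => by
    obtain ⟨b, hb, -⟩ := hthird a a
    exact ⟨pick a b hb, pick0 a b hb⟩
  choose pk pk0 using hpick'
  let L : Fin m → (Matrix.symplecticGroup (Fin 1) F →* E) := fun a => (cj σ ρ (pk a)).comp e0
  have hL : ∀ a b h y, L a y = S a b h (e0 y) := by
    intro a b h y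
    show cj σ ρ (pk a) (e0 y) = cj σ ρ (pick a b h) (e0 y)
    rw [show pk a = pick a b h * ((pick a b h)⁻¹ * pk a) by group, cj_mul, hstab0, cj_apply]
    rw [map_mul, map_inv, Equiv.Perm.mul_apply, pk0, Equiv.Perm.inv_eq_iff_eq, pick0]
  have hoth : ∀ a : Fin m, ∃ b, a ≠ b := fun a => by
    by_cases h : a = q0
    · exact ⟨q1, h ▸ h01⟩
    · exact ⟨q0, h⟩
  choose oth hoth using hoth
  have hψL : ∀ a y, ψ (L a y) = one a y := fun a y => by rw [hL a (oth a) (hoth a), hψS, blk_e0]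
  have hLin : ∀ a b c (h : b ≠ c), (a = b ∨ a = c) → ∀ y, L a y ∈ (S b c h).range := by
    rintro a b c h (rfl | rfl) y
    · exact ⟨_, (hL a c h y).symm⟩
    · exact ⟨sw (e0 y), by rw [← hSsw, ← hL a b h.symm y]⟩
  have hLcomm : ∀ a b (h : a ≠ b) y y', Commute (L a y) (L b y') := by
    intro a b h y y'
    obtain ⟨x, hx⟩ := hLin a a b h (Or.inl rfl) y
    obtain ⟨x', hx'⟩ := hLin b a b h (Or.inr rfl) y'
    show L a y * L b y' = L b y' * L a y
    rw [← hx, ← hx', ← map_mul, ← map_mul]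
    congr 1
    have i1 := hψS a b h x
    have i2 := hψS a b h x'
    rw [hx, hψL] at i1
    rw [hx', hψL] at i2
    refine ext_injective ![a, b] (pair_inj h) ?_
    show blk a b h (x * x') = blk a b h (x' * x)
    rw [map_mul, map_mul, ← i1, ← i2]
    exact spOn_commute (s := {a}) (t := {b}) (by simp [h]) (mem_range_one.1 ⟨y, rfl⟩) (mem_range_one.1 ⟨y', rfl⟩)
  have hdisj' : ∀ y x, Commute (L q0 y) (S q1 q2 h12 x) := by
    intro y x
    have htop : (Subgroup.centralizer {L q0 y}).comap (S q1 q2 h12) = ⊤ := by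
      refine sp_four_eq_top _ (fun y' => ?_) (fun y' => ?_) ?_ <;>
        refine Subgroup.mem_comap.2 (Subgroup.mem_centralizer_singleton_iff.2 ?_)
      · rw [← hL q1 q2 h12]; exact (hLcomm q0 q1 h01 y y').symm.eq
      · rw [← hSsw q1 q2 h12, ← hL q2 q1 h12.symm]; exact (hLcomm q0 q2 h02 y y').symm.eq
      · have e1 := hS 1 q0 q1 h01 (by simp) (by simp) (e0 y)
        rw [cj_apply, map_one, one_mul, inv_one, mul_one, ← hL q0 q1 h01] at e1
        have hh := hdisj y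
        rw [hS gd q1 q2 h12 hgd.1 hgd.2, e1] at hh
        exact hh.symm.eq
    exact (Subgroup.mem_centralizer_singleton_iff.1 (Subgroup.mem_comap.1 (htop ▸ Subgroup.mem_top x))).symm
  have hLout : ∀ a b c (h : b ≠ c), a ≠ b → a ≠ c → ∀ y x, Commute (L a y) (S b c h x) := by
    intro a b c h hab hac y x
    obtain ⟨g, g0, g1, g2⟩ := htr3 a b c hab h hac
    have e1 : L a y = ρ g * L q0 y * (ρ g)⁻¹ := by
      rw [hL a b hab, hL q0 q1 h01, hSg]
      congr 2 <;> simp [g0, g1]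
    have e2 : S b c h x = ρ g * S q1 q2 h12 x * (ρ g)⁻¹ := by
      rw [hSg]
      congr 2 <;> simp [g1, g2]
    rw [e1, e2]
    exact (hdisj' y x).map (MulAut.conj (ρ g)).toMonoidHom
  -- elements permuting the blocks
  let Good : E → Perm (Fin m) → Prop := fun G g =>
    ∀ a b h x, ∃ x', G * S a b h x * G⁻¹ = S (g a) (g b) (g.injective.ne h) x'
  have goodρ : ∀ g, Good (ρ g) (pr g) := fun g a b h x => ⟨x, hSg g a b h x⟩
  have goodL : ∀ a y, Good (L a y) 1 := by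
    intro a y b c h x
    show ∃ x', L a y * S b c h x * (L a y)⁻¹ = S b c h x'
    by_cases hb : a = b
    · obtain ⟨z, hz⟩ := hLin a b c h (Or.inl hb) y
      exact ⟨z * x * z⁻¹, by rw [map_mul, map_mul, map_inv, hz]⟩
    by_cases hc : a = c
    · obtain ⟨z, hz⟩ := hLin a b c h (Or.inr hc) y
      exact ⟨z * x * z⁻¹, by rw [map_mul, map_mul, map_inv, hz]⟩
    exact ⟨x, by rw [(hLout a b c h hb hc y x).eq, mul_inv_cancel_right]⟩
  have goodmul : ∀ G g G' g', Good G g → Good G' g' → Good (G * G') (g * g') := by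
    intro G g G' g' hG hG' a b h x
    obtain ⟨x1, h1⟩ := hG' a b h x
    obtain ⟨x2, h2⟩ := hG (g' a) (g' b) (g'.injective.ne h) x1
    refine ⟨x2, ?_⟩
    rw [show G * G' * S a b h x * (G * G')⁻¹ = G * (G' * S a b h x * G'⁻¹) * G⁻¹ by group, h1, h2]
    rfl
  -- the root elements
  let lo1 : Fin m ⊕ Fin m → Fin 1 ⊕ Fin 1 := fun p => Sum.map (fun _ => 0) (fun _ => 0) p
  let y : Fin m ⊕ Fin m → Fin m ⊕ Fin m → F → E := fun p r c =>
    if h : cls p = cls r then L (cls p) (Y (lo1 p) (lo1 p) c) else S (cls p) (cls r) h (Y (lo p) (hi r) c)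
  have ys : ∀ {p r} (h : cls p ≠ cls r) c, y p r c = S (cls p) (cls r) h (Y (lo p) (hi r) c) := fun h c => dif_neg h
  have yl : ∀ p c, y p p c = L (cls p) (Y (lo1 p) (lo1 p) c) := fun p c => dif_pos rfl
  have hone : ∀ p c, one (cls p) (Y (lo1 p) (lo1 p) c) = (Y p p c : Matrix.symplecticGroup (Fin m) F) := fun p c => by
    rw [one, ext_Y]
    rcases p with p | p <;> rfl
  have same : ∀ {p r : Fin m ⊕ Fin m}, r ≠ bar p → cls p = cls r → r = p := fun hne h =>
    (eq_or_bar h.symm).resolve_right hne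
  have hmap : ∀ p r, r ≠ bar p → ∀ c, ψ (y p r c) = Y p r c := by
    intro p r hne c
    by_cases h : cls p = cls r
    · obtain rfl := same hne h
      rw [yl, hψL, hone]
    · rw [ys h, hψS, blk_Y_short]
  have mem : ∀ {a b : Fin m} (h : a ≠ b) {p r}, cls p ∈ ({a, b} : Finset (Fin m)) → cls r ∈ ({a, b} : Finset (Fin m)) →
      r ≠ bar p → ∀ c, y p r c ∈ (S a b h).range := by
    intro a b h p r hp hr hne c
    rw [mem_two] at hp hr
    by_cases hpr : cls p = cls r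
    · obtain rfl := same hne hpr
      rw [yl]
      exact hLin _ a b h hp _
    rw [ys hpr]
    rcases hp with rfl | rfl <;> rcases hr with hr | hr
    · exact absurd hr.symm hpr
    · subst hr; exact ⟨_, rfl⟩
    · subst hr; exact ⟨_, (hSsw _ _ h _).symm⟩
    · exact absurd hr.symm hpr
  have eqr : ∀ {a b : Fin m} (h : a ≠ b) {g g' : E}, g ∈ (S a b h).range → g' ∈ (S a b h).range → ψ g = ψ g' → g = g' := by
    rintro a b h _ _ ⟨x, rfl⟩ ⟨x', rfl⟩ e'
    rw [hψS, hψS] at e'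
    exact congrArg _ (ext_injective _ _ e')
  have inj2 : ∀ a b : Fin m, ∀ g ∈ Subgroup.closure {g | ∃ p r c, cls p ∈ ({a, b} : Finset (Fin m)) ∧
      cls r ∈ ({a, b} : Finset (Fin m)) ∧ r ≠ bar p ∧ g = y p r c}, ψ g = 1 → g = 1 := by
    intro a b g hg h1
    obtain ⟨a', b', hab, hsub⟩ : ∃ a' b', ∃ _ : a' ≠ b', ({a, b} : Finset (Fin m)) ⊆ {a', b'} := by
      by_cases h : a = b
      · exact ⟨a, oth a, hoth a, by simp [h]⟩
      · exact ⟨a, b, h, Finset.Subset.refl _⟩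
    refine eqr hab ((Subgroup.closure_le _).2 ?_ hg) (one_mem _) (h1.trans (map_one ψ).symm)
    rintro _ ⟨p, r, c, hp, hr, hne, rfl⟩
    exact mem hab (hsub hp) (hsub hr) hne c
  have mem' : ∀ {p r : Fin m ⊕ Fin m} (h : cls p ≠ cls r) c, y p r c ∈ (S (cls p) (cls r) h).range := fun h c =>
    mem h (mem_two.2 (Or.inl rfl)) (mem_two.2 (Or.inr rfl)) (ne_bar_of_cls h) c
  have symm : ∀ p r, r ≠ bar p → ∀ c, y p r c = y r p c := by
    intro p r hne c
    by_cases h : cls p = cls r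
    · rw [same hne h]
    exact eqr h (mem' h c) (mem h (mem_two.2 (Or.inr rfl)) (mem_two.2 (Or.inl rfl)) (bar_symm hne) c)
      (by rw [hmap _ _ hne, hmap _ _ (bar_symm hne), Y_symm hne])
  have yzero : ∀ {p r : Fin m ⊕ Fin m}, cls p ≠ cls r → y p r 0 = 1 := fun {p r} h =>
    eqr h (mem' h 0) (one_mem _) (by rw [hmap _ _ (ne_bar_of_cls h), Y_zero (ne_bar_of_cls h), map_one])
  -- moving root elements
  have move : ∀ G g, Good G g → ∀ (p r p' r' : Fin m ⊕ Fin m) (α β : F), cls p ≠ cls r → cls p' = g (cls p) →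
      cls r' = g (cls r) → (ψ G).1 *ᵥ e p = α • e p' → (ψ G).1 *ᵥ e r = β • e r' →
      ∀ c, G * y p r c * G⁻¹ = y p' r' (α * β * c) := by
    intro G g hG p r p' r' α β hpr hp' hr' e1 e2 c
    have hne : r ≠ bar p := ne_bar_of_cls hpr
    have hpr' : cls p' ≠ cls r' := by rw [hp', hr']; exact g.injective.ne hpr
    have hne' : r' ≠ bar p' := ne_bar_of_cls hpr'
    obtain ⟨x, hx⟩ := mem' hpr c
    obtain ⟨x', hx'⟩ := hG _ _ hpr x
    rw [hx] at hx'
    refine eqr (g.injective.ne hpr) ⟨x', hx'.symm⟩ (mem _ (mem_two.2 (Or.inl hp')) (mem_two.2 (Or.inr hr')) hne' _) ?_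
    rw [map_mul, map_mul, map_inv, hmap _ _ hne, hmap _ _ hne', Y_short (ne_of_cls hpr), Y_short (ne_of_cls hpr'),
      S_conj, e1, e2, S_smul_left (by rw [B_smul_right, B_e_e hne', mul_zero]),
      S_symm (by rw [B_smul_right, B_e_e hne', mul_zero]), S_smul_left (B_e_e (bar_symm hne')),
      S_symm (B_e_e (bar_symm hne'))]
    ring_nf
  -- monomial elements on one class
  have mono1 : ∀ (b p : Fin m ⊕ Fin m) (α : F), cls p = cls b → α ≠ 0 → ∃ G, Good G 1 ∧
      (ψ G).1 *ᵥ e b = α • (e p : Fin m ⊕ Fin m → F) ∧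
      (ψ G).1 *ᵥ e (bar b) = (α⁻¹ * sg p * sg b) • (e (bar p) : Fin m ⊕ Fin m → F) ∧
      ∀ k, cls k ≠ cls b → (ψ G).1 *ᵥ e k = (e k : Fin m ⊕ Fin m → F) := by
    intro b p α hpb hα
    set β : F := α⁻¹ * sg p * sg b with hβ
    have hsupp : ∀ (t : F) (k : Fin m ⊕ Fin m), cls k = cls b → Supp ({cls b} : Finset (Fin m)) (t • (e k : Fin m ⊕ Fin m → F)) :=
      fun t k hk i hi => by
        rw [Pi.smul_apply, e_ne (fun h => hi (by rw [h, hk]; simp)), smul_zero]
    obtain ⟨g, hg, g1, g2⟩ := exists_pair (t := {cls b}) (b := b) (F := F) (v := α • e p) (w := β • e (bar p))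
      (by simp) (hsupp α p hpb) (hsupp β (bar p) ((cls_bar p).trans hpb))
      (by rw [B_smul_left, B_smul_right, B_e_left, e_self, mul_one, hβ,
            show α * (α⁻¹ * sg p * sg b * sg p) = (α * α⁻¹) * (sg p * sg p) * sg b by ring,
            mul_inv_cancel₀ hα, sg_mul_self, one_mul, one_mul])
    have hg' := Ys_le_spOn _ hg
    obtain ⟨x, hx⟩ := mem_range_one.2 hg'
    refine ⟨L (cls b) x, goodL _ x, ?_, ?_, fun k hk => ?_⟩
    · rw [hψL, hx, g1]
    · rw [hψL, hx, g2]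
    · rw [hψL, hx]; exact hg' k (by simpa using hk)
  have mono : ∀ (p r s : Fin m ⊕ Fin m) (α γ : F), cls p ≠ cls r → cls r ≠ cls s → cls p ≠ cls s → α ≠ 0 → γ ≠ 0 →
      ∀ γg : Γ, pr γg q0 = cls p → pr γg q1 = cls r → pr γg q2 = cls s →
      ∃ G, Good G (pr γg) ∧ (ψ G).1 *ᵥ e (.inl q0) = α • (e p : Fin m ⊕ Fin m → F) ∧
        (ψ G).1 *ᵥ e (.inl q1) = (e r : Fin m ⊕ Fin m → F) ∧
        (ψ G).1 *ᵥ e (.inr q1) = (-(sg r : F)) • (e (bar r) : Fin m ⊕ Fin m → F) ∧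
        (ψ G).1 *ᵥ e (.inl q2) = γ • (e s : Fin m ⊕ Fin m → F) ∧
        ∀ k, cls k ≠ q0 → cls k ≠ q1 → cls k ≠ q2 → (ψ G).1 *ᵥ e k = e (Sum.map (pr γg) (pr γg) k) := by
    intro p r s α γ hpr hrs hps hα hγ γg g0 g1 g2
    set g := pr γg with hg_def
    obtain ⟨A, hA, A1, -, A3⟩ := mono1 (.inl (cls p)) p α rfl hα
    obtain ⟨R, hR, R1, R2, R3⟩ := mono1 (.inl (cls r)) r 1 rfl one_ne_zero
    obtain ⟨C, hC, C1, -, C3⟩ := mono1 (.inl (cls s)) s γ rfl hγ
    have hgood := goodmul _ _ _ _ (goodmul _ _ _ _ (goodmul _ _ _ _ hA hR) hC) (goodρ γg)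
    simp only [one_mul] at hgood
    have hval : ∀ k, (ψ (A * R * C * ρ γg)).1 *ᵥ e k =
        (ψ A).1 *ᵥ ((ψ R).1 *ᵥ ((ψ C).1 *ᵥ (e (Sum.map g g k) : Fin m ⊕ Fin m → F))) := fun k => by
      rw [map_mul, map_mul, map_mul, sp_mul_mulVec, sp_mul_mulVec, sp_mul_mulVec, hψρ, permS_e]
    refine ⟨_, hgood, ?_, ?_, ?_, ?_, fun k k0 k1 k2 => ?_⟩
    · rw [hval, show Sum.map g g (Sum.inl q0) = (Sum.inl (cls p) : Fin m ⊕ Fin m) by simp [g0],
        C3 _ (show cls (Sum.inl (cls p) : Fin m ⊕ Fin m) ≠ cls s from hps), R3 _ (show cls (Sum.inl (cls p) : Fin m ⊕ Fin m) ≠ cls r from hpr), A1]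
    · rw [hval, show Sum.map g g (Sum.inl q1) = (Sum.inl (cls r) : Fin m ⊕ Fin m) by simp [g1],
        C3 _ (show cls (Sum.inl (cls r) : Fin m ⊕ Fin m) ≠ cls s from hrs), R1, one_smul, A3 _ (show cls r ≠ cls p from hpr.symm)]
    · rw [hval, show Sum.map g g (Sum.inr q1) = (bar (Sum.inl (cls r)) : Fin m ⊕ Fin m) by simp [g1, bar],
        C3 _ (by rw [cls_bar]; exact hrs), R2, Matrix.mulVec_smul, A3 _ (by rw [cls_bar]; exact hpr.symm)]
      rw [show (1 : F)⁻¹ * sg r * sg (Sum.inl (cls r) : Fin m ⊕ Fin m) = -sg r by simp [sg]]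
    · rw [hval, show Sum.map g g (Sum.inl q2) = (Sum.inl (cls s) : Fin m ⊕ Fin m) by simp [g2], C1,
        Matrix.mulVec_smul, R3 _ (show cls s ≠ cls r from hrs.symm), Matrix.mulVec_smul, A3 _ (show cls s ≠ cls p from hps.symm)]
    · have n0 : cls (Sum.map g g k) = g (cls k) := cls_map _ k
      rw [hval, C3 _ (by rw [n0]; exact fun h => k2 (g.injective (h.trans g2.symm))),
        R3 _ (by rw [n0]; exact fun h => k1 (g.injective (h.trans g1.symm))),
        A3 _ (by rw [n0]; exact fun h => k0 (g.injective (h.trans g0.symm)))]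
  -- the basic root elements
  have baseP : ∀ (g : Γ) (p r : Fin m ⊕ Fin m) (h : cls p ≠ cls r) (x : Fin 2 ⊕ Fin 2) (x' : Fin 2 ⊕ Fin 2),
      pr g q0 = cls p → pr g q1 = cls r → lo p = x → hi r = x' → cj σ ρ g (Y x x' 1) = y p r 1 := by
    intro g p r h x x' g0 g1 hx hx'
    subst hx hx'
    rw [ys h]
    exact hS g _ _ h g0 g1 _
  have base01 : σ yA = y (.inl q0) (.inl q1) 1 := by
    rw [← baseP 1 (.inl q0) (.inl q1) (show cls (Sum.inl q0 : Fin m ⊕ Fin m) ≠ cls (Sum.inl q1) from h01)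
      (.inl 0) (.inl 1) (by simp [cls]) (by simp [cls]) rfl rfl, cj_apply, map_one, one_mul, inv_one, mul_one]
    rfl
  have hB : cj σ ρ gd yB = y (.inr q1) (.inl q2) 1 := baseP _ (.inr q1) (.inl q2) h12 _ _ hgd.1 hgd.2 rfl rfl
  have hC : cj σ ρ gl yA = y (.inl q0) (.inl q2) 1 := baseP _ (.inl q0) (.inl q2) h02 _ _ hgl.1 hgl.2 rfl rfl
  -- the relations
  have comm3 : ∀ p r s, cls p ≠ cls r → cls r ≠ cls s → cls p ≠ cls s → ∀ c d,
      ⁅y p r c, y (bar r) s d⁆ = y p s (sg (bar r) * c * d) := by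
    intro p r s hpr hrs hps c d
    have hrs' : cls (bar r) ≠ cls s := by rwa [cls_bar]
    rcases eq_or_ne c 0 with rfl | hc
    · rw [yzero hpr, commutatorElement_one_left, mul_zero, zero_mul, yzero hps]
    rcases eq_or_ne d 0 with rfl | hd
    · rw [yzero hrs', commutatorElement_one_right, mul_zero, yzero hps]
    obtain ⟨γg, g0, g1, g2⟩ := htr3 _ _ _ hpr hrs hps
    obtain ⟨G, hG, f0, f1, f1', f2, -⟩ := mono p r s c (d * -sg r) hpr hrs hps hc
      (mul_ne_zero hd (neg_ne_zero.2 (sg_ne r))) γg g0 g1 g2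
    set g := pr γg
    have m1 : G * y (.inl q0) (.inl q1) 1 * G⁻¹ = y p r c := by
      rw [move G g hG (.inl q0) (.inl q1) p r c 1 h01 g0.symm g1.symm f0 (by rw [one_smul]; exact f1) 1, mul_one,
        mul_one]
    have m2 : G * y (.inr q1) (.inl q2) 1 * G⁻¹ = y (bar r) s d := by
      rw [move G g hG (.inr q1) (.inl q2) (bar r) s (-sg r) (d * -sg r) h12 ((cls_bar r).trans g1.symm) g2.symm f1' f2 1]
      congr 1
      linear_combination d * sg_mul_self (F := F) r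
    obtain ⟨x, hx⟩ := hr1
    rw [base01, hB, hS gl q0 q2 h02 hgl.1 hgl.2 x] at hx
    obtain ⟨x', hx'⟩ := hG q0 q2 h02 x
    have key : ⁅y p r c, y (bar r) s d⁆ = S (g q0) (g q2) (g.injective.ne h02) x' := by
      rw [← hx', hx, ← m1, ← m2]
      simp only [commutatorElement_def]
      group
    rw [key]
    refine eqr (g.injective.ne h02) ⟨x', rfl⟩
      (mem _ (mem_two.2 (Or.inl g0.symm)) (mem_two.2 (Or.inr g2.symm)) (ne_bar_of_cls hps) _) ?_
    rw [← key, map_commutatorElement, hmap _ _ (ne_bar_of_cls hpr), hmap _ _ (ne_bar_of_cls hrs'),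
      hmap _ _ (ne_bar_of_cls hps), Y_comm3 hpr hrs hps]
  have shared : ∀ (p r r' : Fin m ⊕ Fin m), cls p ≠ cls r → cls p ≠ cls r' → cls r ≠ cls r' →
      ∀ c d, y p r c * y p r' d = y p r' d * y p r c := by
    intro p r s hpr hps hrs c d
    rcases eq_or_ne c 0 with rfl | hc
    · rw [yzero hpr, one_mul, mul_one]
    rcases eq_or_ne d 0 with rfl | hd
    · rw [yzero hps, one_mul, mul_one]
    obtain ⟨γg, g0, g1, g2⟩ := htr3 _ _ _ hpr hrs hps
    obtain ⟨G, hG, f0, f1, -, f2, -⟩ := mono p r s c (d / c) hpr hrs hps hc (div_ne_zero hd hc) γg g0 g1 g2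
    set g := pr γg
    have m1 : G * y (.inl q0) (.inl q1) 1 * G⁻¹ = y p r c := by
      rw [move G g hG (.inl q0) (.inl q1) p r c 1 h01 g0.symm g1.symm f0 (by rw [one_smul]; exact f1) 1, mul_one,
        mul_one]
    have m2 : G * y (.inl q0) (.inl q2) 1 * G⁻¹ = y p s d := by
      rw [move G g hG (.inl q0) (.inl q2) p s c (d / c) h02 g0.symm g2.symm f0 f2 1, mul_one,
        mul_div_cancel₀ d hc]
    rw [base01, hC] at hr2
    rw [← m1, ← m2]
    exact hr2.map (MulAut.conj G).toMonoidHom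
  have four : ∀ (p r p' r' : Fin m ⊕ Fin m), cls p ≠ cls r → cls p' ≠ cls r' → cls p' ≠ cls p → cls p' ≠ cls r →
      cls r' ≠ cls p → cls r' ≠ cls r → ∀ c d, y p r c * y p' r' d = y p' r' d * y p r c := by
    intro p r p' r' hpr hpr' a1 a2 a3 a4 c d
    rcases eq_or_ne c 0 with rfl | hc
    · rw [yzero hpr, one_mul, mul_one]
    rcases eq_or_ne d 0 with rfl | hd
    · rw [yzero hpr', one_mul, mul_one]
    have h4 : 4 ≤ m := by
      have := Finset.card_le_univ ({cls p, cls r, cls p', cls r'} : Finset (Fin m))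
      rw [Finset.card_insert_of_notMem (by simp [hpr, a1.symm, a3.symm]),
        Finset.card_insert_of_notMem (by simp [a2.symm, a4.symm]), Finset.card_pair hpr', Fintype.card_fin] at this
      omega
    set q3 : Fin m := ⟨3, by omega⟩
    have d3 : q0 ≠ q3 ∧ q1 ≠ q3 ∧ q2 ≠ q3 := by simp [hq0, hq1, hq2, q3, pt, Fin.ext_iff]
    obtain ⟨γg, g0, g1, g23⟩ := htr4 h4 (cls p) (cls r) (cls p') (cls r') hpr a1.symm a3.symm a2.symm a4.symm hpr'
    suffices H : ∀ (p' r' : Fin m ⊕ Fin m), cls p' ≠ cls r' → cls p' ≠ cls p → cls p' ≠ cls r →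
        cls r' ≠ cls p → cls r' ≠ cls r → pr γg q2 = cls p' → pr γg q3 = cls r' →
        y p r c * y p' r' d = y p' r' d * y p r c by
      rcases g23 with ⟨g2, g3⟩ | ⟨g2, g3⟩
      · exact H p' r' hpr' a1 a2 a3 a4 g2 g3
      · rw [symm p' r' (ne_bar_of_cls hpr')]
        exact H r' p' hpr'.symm a3 a4 a1 a2 g2 g3
    intro p' r' hpr' a1 a2 a3 a4 g2 g3
    obtain ⟨G, hG, f0, f1, -, f2, fk⟩ := mono p r p' c d hpr a2.symm a1.symm hc hd γg g0 g1 g2
    set g := pr γg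
    obtain ⟨D, hD, D1, -, D3⟩ := mono1 (.inl (cls r')) r' 1 rfl one_ne_zero
    have hGD := goodmul _ _ _ _ hD hG
    rw [one_mul] at hGD
    have out : ∀ (k : Fin m ⊕ Fin m) (t : F) (u : Fin m ⊕ Fin m), cls u ≠ cls r' →
        (ψ G).1 *ᵥ e k = t • (e u : Fin m ⊕ Fin m → F) → (ψ (D * G)).1 *ᵥ e k = t • (e u : Fin m ⊕ Fin m → F) :=
      fun k t u hu h => by rw [map_mul, sp_mul_mulVec, h, Matrix.mulVec_smul, D3 u hu]
    have f3 : (ψ (D * G)).1 *ᵥ e (.inl q3) = (1 : F) • (e r' : Fin m ⊕ Fin m → F) := by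
      rw [map_mul, sp_mul_mulVec, fk (.inl q3) d3.1.symm d3.2.1.symm d3.2.2.symm,
        show Sum.map g g (Sum.inl q3) = (Sum.inl (cls r') : Fin m ⊕ Fin m) by simp [g3], D1]
    have m1 : D * G * y (.inl q0) (.inl q1) 1 * (D * G)⁻¹ = y p r c := by
      rw [move _ g hGD (.inl q0) (.inl q1) p r c 1 h01 g0.symm g1.symm (out _ _ _ a3.symm f0)
        (out _ _ _ a4.symm (by rw [one_smul]; exact f1)) 1, mul_one, mul_one]
    have m2 : D * G * y (.inl q2) (.inl q3) 1 * (D * G)⁻¹ = y p' r' d := by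
      rw [move _ g hGD (.inl q2) (.inl q3) p' r' d 1 d3.2.2 g2.symm g3.symm (out _ _ _ hpr' f2) f3 1, mul_one,
        mul_one]
    obtain ⟨g3', k0, k1, h⟩ := hr3 h4
    have e23 : cj σ ρ g3' yA = y (.inl q2) (.inl q3) 1 := baseP _ (.inl q2) (.inl q3) d3.2.2 _ _ k0 k1 rfl rfl
    rw [base01, e23] at h
    rw [← m1, ← m2]
    exact h.map (MulAut.conj (D * G)).toMonoidHom
  have comm : ∀ p r p' r', r ≠ bar p → r' ≠ bar p' → Free p r p' r' → ∀ c d,
      y p r c * y p' r' d = y p' r' d * y p r c := by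
    intro p r p' r' hne hne' hf c d
    have two : ∀ a b : Fin m, cls p ∈ ({a, b} : Finset (Fin m)) → cls r ∈ ({a, b} : Finset (Fin m)) →
        cls p' ∈ ({a, b} : Finset (Fin m)) → cls r' ∈ ({a, b} : Finset (Fin m)) →
        y p r c * y p' r' d = y p' r' d * y p r c := by
      intro a b h1 h2 h3 h4
      have m1 : ∀ {p r}, cls p ∈ ({a, b} : Finset (Fin m)) → cls r ∈ ({a, b} : Finset (Fin m)) → r ≠ bar p → ∀ c,
          y p r c ∈ Subgroup.closure {g | ∃ p r c, cls p ∈ ({a, b} : Finset (Fin m)) ∧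
            cls r ∈ ({a, b} : Finset (Fin m)) ∧ r ≠ bar p ∧ g = y p r c} := fun hp hr h c =>
        Subgroup.subset_closure ⟨_, _, c, hp, hr, h, rfl⟩
      refine mul_inv_eq_one.1 (inj2 a b _ (mul_mem (mul_mem (m1 h1 h2 hne c) (m1 h3 h4 hne' d))
        (inv_mem (mul_mem (m1 h3 h4 hne' d) (m1 h1 h2 hne c)))) ?_)
      rw [map_mul, map_inv, map_mul, map_mul, hmap _ _ hne, hmap _ _ hne', Y_comm hne hf, mul_inv_cancel]
    have long : ∀ (p p' r' : Fin m ⊕ Fin m), cls p ≠ cls p' → cls p ≠ cls r' → cls p' ≠ cls r' →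
        ∀ c d, y p p c * y p' r' d = y p' r' d * y p p c := by
      intro p p' r' h h' hh c d
      obtain ⟨x, hx⟩ := mem' hh d
      rw [yl, ← hx]
      exact hLout _ _ _ hh h h' _ x
    by_cases h1 : cls p = cls r
    · by_cases h2 : cls p' = cls r'
      · exact two (cls p) (cls p') (by simp) (by simp [← h1]) (by simp) (by simp [← h2])
      · by_cases h3 : cls p' = cls p
        · exact two (cls p) (cls r') (by simp) (by simp [← h1]) (by simp [h3]) (by simp)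
        by_cases h4 : cls r' = cls p
        · exact two (cls p) (cls p') (by simp) (by simp [← h1]) (by simp) (by simp [h4])
        obtain rfl := same hne h1
        exact long r p' r' (Ne.symm h3) (Ne.symm h4) h2 c d
    by_cases h2 : cls p' = cls r'
    · by_cases h3 : cls p = cls p'
      · exact two (cls p) (cls r) (by simp) (by simp) (by simp [h3]) (by simp [← h2, h3])
      by_cases h4 : cls r = cls p'
      · exact two (cls p) (cls r) (by simp) (by simp) (by simp [h4]) (by simp [← h2, h4])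
      obtain rfl := same hne' h2
      exact (long r' p r (Ne.symm h3) (Ne.symm h4) h1 d c).symm
    by_cases hsub : cls p' ∈ ({cls p, cls r} : Finset (Fin m)) ∧ cls r' ∈ ({cls p, cls r} : Finset (Fin m))
    · exact two (cls p) (cls r) (by simp) (by simp) hsub.1 hsub.2
    by_cases hd : cls p' ∉ ({cls p, cls r} : Finset (Fin m)) ∧ cls r' ∉ ({cls p, cls r} : Finset (Fin m))
    · simp only [mem_two, not_or] at hd
      exact four p r p' r' h1 h2 hd.1.1 hd.1.2 hd.2.1 hd.2.2 c d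
    simp only [mem_two] at hsub hd
    obtain ⟨f1, f2, f3, f4⟩ := hf
    by_cases a1 : cls p' = cls p
    · obtain rfl := (eq_or_bar a1).resolve_right f1
      exact shared p' r r' h1 h2 (fun e' => hsub ⟨Or.inl rfl, Or.inr e'.symm⟩) c d
    by_cases a2 : cls p' = cls r
    · obtain rfl := (eq_or_bar a2).resolve_right f2
      rw [symm p p' hne]
      exact shared p' p r' (Ne.symm h1) h2 (fun e' => hsub ⟨Or.inr rfl, Or.inl e'.symm⟩) c d
    by_cases a3 : cls r' = cls p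
    · obtain rfl := (eq_or_bar a3).resolve_right f3
      rw [symm p' r' hne']
      exact shared r' r p' h1 (Ne.symm h2) (fun e' => a2 e'.symm) c d
    by_cases a4 : cls r' = cls r
    · obtain rfl := (eq_or_bar a4).resolve_right f4
      rw [symm p r' hne, symm p' r' hne']
      exact shared r' p p' (Ne.symm h1) (Ne.symm h2) (fun e' => a1 e'.symm) c d
    exact absurd ⟨fun e' => e'.elim a1 a2, fun e' => e'.elim a3 a4⟩ hd
  let R : Rels ψ := ⟨y, hmap, symm, inj2, comm, comm3⟩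
  -- generation
  have hSU : ∀ a b h x, S a b h x ∈ R.U Finset.univ := by
    intro a b h x
    obtain ⟨u, hu, hux⟩ := R.exists_lift_U (t := {a, b}) (spOn_le_Ys _ ((mem_range_blk h).1 ⟨x, rfl⟩))
    have : u = S a b h x := eqr h ((Subgroup.closure_le _).2 (by
      rintro _ ⟨p, r, c, hp, hr, hne, rfl⟩
      exact mem h hp hr hne c) hu) ⟨x, rfl⟩ (by rw [hux, hψS])
    exact this ▸ R.U_mono (Finset.subset_univ _) hu
  have hcjU : ∀ π x, cj σ ρ π x ∈ R.U Finset.univ := fun π x => by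
    rw [hS π _ _ ((pr π).injective.ne h01) rfl rfl]; exact hSU _ _ _ x
  have hτ : ρ τ₀ ∈ R.U Finset.univ := by
    obtain ⟨w, hw, e'⟩ := hρH
    rw [e']
    refine (Subgroup.closure_le _).2 ?_ hw
    rintro _ ⟨π, x, rfl⟩
    exact hcjU π x
  have hnorm : ∀ π, R.U Finset.univ ≤ (R.U Finset.univ).comap (MulAut.conj (ρ π)).toMonoidHom := fun π =>
    R.U_le fun p r c _ _ hne => by
      show ρ π * y p r c * (ρ π)⁻¹ ∈ R.U Finset.univ
      obtain ⟨a, b, hab, hp, hr⟩ : ∃ a b, a ≠ b ∧ cls p ∈ ({a, b} : Finset (Fin m)) ∧ cls r ∈ ({a, b} : Finset (Fin m)) := by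
        by_cases h : cls p = cls r
        · exact ⟨cls p, oth (cls p), hoth _, by simp, by simp [← h]⟩
        · exact ⟨cls p, cls r, h, by simp, by simp⟩
      obtain ⟨x, hx⟩ := mem hab hp hr hne c
      rw [← hx, hSg]
      exact hSU _ _ _ _
  have hρU : (R.U Finset.univ).comap ρ = ⊤ := by
    rw [eq_top_iff, ← hnc, Subgroup.normalClosure, Subgroup.closure_le]
    intro x hx
    obtain ⟨a, ha, hconj⟩ := Group.mem_conjugatesOfSet_iff.1 hx
    rw [Set.mem_singleton_iff.1 ha] at hconj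
    obtain ⟨g, rfl⟩ := isConj_iff.1 hconj
    show ρ (g * τ₀ * g⁻¹) ∈ R.U Finset.univ
    rw [map_mul, map_mul, map_inv]
    exact hnorm _ hτ
  have htop : R.U Finset.univ = ⊤ := by
    rw [eq_top_iff, ← hgen, Subgroup.closure_le]
    rintro _ (⟨x, rfl⟩ | ⟨π, rfl⟩)
    · have := hcjU 1 x
      rwa [cj_apply, map_one, one_mul, inv_one, mul_one] at this
    · have : π ∈ (R.U Finset.univ).comap ρ := hρU ▸ Subgroup.mem_top π
      exact this
  refine ⟨(injective_iff_map_eq_one ψ).2 fun g hg => R.eq_one_of_map_eq_one (htop ▸ Subgroup.mem_top g) hg, ?_⟩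
  rw [← MonoidHom.range_eq_top, MonoidHom.range_eq_map, ← htop, R.map_U, Ys_univ]

end Cfsg.Agent.KnownA.Bounded
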