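import Cfsg.Agent.Suzuki.SpLift
import Cfsg.Agent.S0244
import Mathlib

/-! Permutations of the classes and the blocks of the symplectic groups. -/

set_option autoImplicit false
set_option linter.unusedSectionVars false

namespace Cfsg.Agent.KnownA.Bounded

open Matrix Cfsg.Agent.Suzuki.SpSt Cfsg.Agent.KnownB.Proj.Symp

universe u

variable {F : Type u} [Field F] {m k l : ℕ}

local notation "Spm" => Matrix.symplecticGroup (Fin m) F

theorem projM_comp (e : Fin k → Fin m) (f : Fin l → Fin k) :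
    (projM (F := F) f : Matrix (Fin l ⊕ Fin l) (Fin k ⊕ Fin k) F) * projM (F := F) e = projM (F := F) (e ∘ f) := by
  ext i j
  rcases i with i | i <;> simp [projM, Matrix.mul_apply, Matrix.one_apply] <;>
    (rw [Finset.sum_eq_single (f i)] <;> simp +contextual [eq_comm])

theorem ext_ext (e : Fin k → Fin m) (he : Function.Injective e) (f : Fin l → Fin k) (hf : Function.Injective f)
    (x : Matrix.symplecticGroup (Fin l) F) : ext e he (ext f hf x) = ext (e ∘ f) (he.comp hf) x := by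
  refine Subtype.ext ?_
  rw [ext_val, ext_val, ext_val, add_sub_cancel_left, ← projM_comp e f, Matrix.transpose_mul]
  simp only [Matrix.mul_assoc]

theorem ext_congr {e e' : Fin k → Fin m} (h : e = e') (he : Function.Injective e) (he' : Function.Injective e')
    (x : Matrix.symplecticGroup (Fin k) F) : ext e he x = ext e' he' x := by
  subst h; rfl

theorem projM_id : (projM (F := F) (id : Fin m → Fin m) : Matrix (Fin m ⊕ Fin m) (Fin m ⊕ Fin m) F) = 1 := by
  simp [projM]

theorem projM_perm_transpose (g : Equiv.Perm (Fin m)) :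
    ((projM (F := F) g : Matrix (Fin m ⊕ Fin m) (Fin m ⊕ Fin m) F))ᵀ = projM (F := F) ⇑g⁻¹ := by
  ext i j
  rcases i with i | i <;> rcases j with j | j <;> simp [projM, Matrix.one_apply, eq_comm, Equiv.Perm.inv_eq_iff_eq, Equiv.eq_symm_apply]

/-- The symplectic matrix of a permutation of the classes. -/
def permS : Equiv.Perm (Fin m) →* Spm where
  toFun g := ⟨projM (F := F) ⇑g⁻¹, by
    rw [SymplecticGroup.mem_iff, projM_J g⁻¹.injective, Matrix.mul_assoc, projM_mul_transpose g⁻¹.injective,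
      Matrix.mul_one]⟩
  map_one' := Subtype.ext projM_id
  map_mul' g h := Subtype.ext (by
    show (projM (F := F) ⇑(g * h)⁻¹ : Matrix (Fin m ⊕ Fin m) (Fin m ⊕ Fin m) F) =
      projM (F := F) ⇑g⁻¹ * projM (F := F) ⇑h⁻¹
    rw [projM_comp, _root_.mul_inv_rev, Equiv.Perm.coe_mul])

theorem permS_e (g : Equiv.Perm (Fin m)) (p : Fin m ⊕ Fin m) :
    (permS g : Spm).1 *ᵥ e p = e (Sum.map g g p) := by
  funext i
  show ((projM (F := F) ⇑g⁻¹) *ᵥ e p) i = _
  rw [projM_mulVec, e_apply, e_apply]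
  rcases p with p | p <;> rcases i with i | i <;> simp [Equiv.Perm.inv_eq_iff_eq, Equiv.symm_apply_eq]

theorem permS_ext (g : Equiv.Perm (Fin m)) (f : Fin k → Fin m) (hf : Function.Injective f)
    (x : Matrix.symplecticGroup (Fin k) F) :
    permS g * ext f hf x * (permS g)⁻¹ = ext (⇑g ∘ f) (g.injective.comp hf) x := by
  rw [mul_inv_eq_iff_eq_mul]
  refine Subtype.ext ?_
  show projM (F := F) ⇑g⁻¹ * (1 + (projM (F := F) f)ᵀ * (x.1 - 1) * projM (F := F) f) =
    (1 + (projM (F := F) (⇑g ∘ f))ᵀ * (x.1 - 1) * projM (F := F) (⇑g ∘ f)) * projM (F := F) ⇑g⁻¹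
  have e1 : (projM (F := F) f : Matrix (Fin k ⊕ Fin k) (Fin m ⊕ Fin m) F) * projM (F := F) ⇑g = projM (F := F) (⇑g ∘ f) :=
    projM_comp _ _
  have e2 : (projM (F := F) ⇑g⁻¹ : Matrix (Fin m ⊕ Fin m) (Fin m ⊕ Fin m) F) * (projM (F := F) f)ᵀ =
      (projM (F := F) (⇑g ∘ f))ᵀ := by
    rw [← e1, Matrix.transpose_mul, projM_perm_transpose]
  have e3 : (projM (F := F) (⇑g ∘ f) : Matrix (Fin k ⊕ Fin k) (Fin m ⊕ Fin m) F) * projM (F := F) ⇑g⁻¹ =
      projM (F := F) f := by
    rw [projM_comp]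
    congr 1
    funext i
    simp
  rw [Matrix.mul_add, Matrix.add_mul, Matrix.mul_one, Matrix.one_mul]
  congr 1
  rw [← Matrix.mul_assoc, ← Matrix.mul_assoc, e2, Matrix.mul_assoc _ (projM (F := F) (⇑g ∘ f)), e3]

theorem inj_one (a : Fin m) : Function.Injective ![a] := fun x y _ => Subsingleton.elim x y

/-- The rank one subgroup of a class. -/
noncomputable def one (a : Fin m) : Matrix.symplecticGroup (Fin 1) F →* Spm := ext ![a] (inj_one a)

/-- The first class of a block. -/
noncomputable def e0 : Matrix.symplecticGroup (Fin 1) F →* Matrix.symplecticGroup (Fin 2) F := one 0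

/-- The exchange of the classes of a block. -/
noncomputable def sw : Matrix.symplecticGroup (Fin 2) F →* Matrix.symplecticGroup (Fin 2) F :=
  blk 1 0 (by decide)

theorem blk_e0 {a b : Fin m} (h : a ≠ b) (y : Matrix.symplecticGroup (Fin 1) F) : blk a b h (e0 y) = one a y := by
  rw [blk, e0, one, one, ext_ext]
  exact ext_congr (by funext i; fin_cases i; rfl) _ _ y

theorem blk_sw {a b : Fin m} (h : a ≠ b) (x : Matrix.symplecticGroup (Fin 2) F) : blk a b h (sw x) = blk b a h.symm x := by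
  rw [blk, sw, blk, blk, ext_ext]
  exact ext_congr (by funext i; fin_cases i <;> rfl) _ _ x

theorem permS_blk (g : Equiv.Perm (Fin m)) {a b : Fin m} (h : a ≠ b) (x : Matrix.symplecticGroup (Fin 2) F) :
    permS g * blk a b h x * (permS g)⁻¹ = blk (g a) (g b) (g.injective.ne h) x := by
  rw [blk, blk, permS_ext]
  exact ext_congr (by funext i; fin_cases i <;> rfl) _ _ x

theorem mem_range_one {a : Fin m} {g : Spm} : g ∈ (one (F := F) a).range ↔ g ∈ spOn ({a} : Finset (Fin m)) := by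
  rw [one, range_ext, show Finset.univ.image ![a] = ({a} : Finset (Fin m)) by ext x; simp [eq_comm]]

/-- The rank one symplectic group as the special linear group. -/
noncomputable def slSp : Matrix.SpecialLinearGroup (Fin 2) F →* Matrix.symplecticGroup (Fin 1) F where
  toFun A := ⟨(A : Matrix (Fin 2) (Fin 2) F).submatrix finSumFinEquiv finSumFinEquiv,
    (Cfsg.Agent.S0244.result _).2 (by rw [Matrix.det_submatrix_equiv_self]; exact A.2)⟩
  map_one' := Subtype.ext (by simp)
  map_mul' A B := Subtype.ext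
    (Matrix.submatrix_mul_equiv (A : Matrix (Fin 2) (Fin 2) F) (B : Matrix (Fin 2) (Fin 2) F) _ _ _).symm

theorem slSp_surjective : Function.Surjective (slSp (F := F)) := fun g => by
  refine ⟨⟨g.1.submatrix (finSumFinEquiv (m := 1) (n := 1)).symm (finSumFinEquiv (m := 1) (n := 1)).symm, ?_⟩,
    Subtype.ext ?_⟩
  · rw [Matrix.det_submatrix_equiv_self]; exact (Cfsg.Agent.S0244.result _).1 g.2
  · show (g.1.submatrix (finSumFinEquiv (m := 1) (n := 1)).symm (finSumFinEquiv (m := 1) (n := 1)).symm).submatrix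
      (finSumFinEquiv (m := 1) (n := 1)) (finSumFinEquiv (m := 1) (n := 1)) = g.1
    rw [Matrix.submatrix_submatrix]
    simp

/-- The two rank one subgroups and one short root element generate the block. -/
theorem sp_four_eq_top (H : Subgroup (Matrix.symplecticGroup (Fin 2) F)) (h0 : ∀ y, e0 y ∈ H)
    (h1 : ∀ y, sw (e0 y) ∈ H) (hA : Y (.inl 0) (.inl 1) 1 ∈ H) : H = ⊤ := by
  have hone : ∀ (i : Fin 2) y, one i y ∈ H := by
    intro i y
    fin_cases i
    · exact h0 y
    · have e : blk (1 : Fin 2) 0 (by decide) (e0 y) = one (1 : Fin 2) y := blk_e0 _ y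
      exact e ▸ h1 y
  have hlong : ∀ p c, (Y p p c : Matrix.symplecticGroup (Fin 2) F) ∈ H := fun p c => by
    obtain ⟨y, hy⟩ := mem_range_one.2 (Y_mem_spOn (F := F) (t := {cls p}) (bar_ne p).symm (by simp) (by simp) c)
    exact hy ▸ hone _ y
  have move : ∀ (p : Fin 2 ⊕ Fin 2) (α : F), α ≠ 0 → ∃ g, g ∈ H ∧ g.1 *ᵥ e (.inl (cls p)) = α • (e p : Fin 2 ⊕ Fin 2 → F) ∧
      ∀ k, cls k ≠ cls p → g.1 *ᵥ e k = (e k : Fin 2 ⊕ Fin 2 → F) := by
    intro p α hα
    have hsupp : ∀ (t : F) (k : Fin 2 ⊕ Fin 2), cls k = cls p → Supp ({cls p} : Finset (Fin 2)) (t • (e k : Fin 2 ⊕ Fin 2 → F)) :=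
      fun t k hk i hi => by
        rw [Pi.smul_apply, e_ne (fun h => hi (by rw [h, hk]; simp)), smul_zero]
    obtain ⟨g, hg, g1, -⟩ := exists_pair (t := {cls p}) (b := .inl (cls p)) (F := F) (v := α • e p)
      (w := (α⁻¹ * sg p * sg (Sum.inl (cls p) : Fin 2 ⊕ Fin 2)) • e (bar p))
      (by simp [cls]) (hsupp _ p rfl) (hsupp _ (bar p) (cls_bar p))
      (by rw [B_smul_left, B_smul_right, B_e_left, e_self, mul_one,
            show ∀ s t : F, α * (α⁻¹ * s * t * s) = (α * α⁻¹) * (s * s) * t from fun s t => by ring,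
            mul_inv_cancel₀ hα, sg_mul_self, one_mul, one_mul])
    obtain ⟨y, hy⟩ := mem_range_one.2 (Ys_le_spOn _ hg)
    exact ⟨g, hy ▸ hone _ y, g1, fun k hk => Ys_le_spOn _ hg k (by simpa using hk)⟩
  have hshort : ∀ (p r : Fin 2 ⊕ Fin 2), cls p = 0 → cls r = 1 → ∀ c, (Y p r c : Matrix.symplecticGroup (Fin 2) F) ∈ H := by
    intro p r hp hr c
    have hpr : cls p ≠ cls r := by rw [hp, hr]; decide
    rcases eq_or_ne c 0 with rfl | hc
    · rw [Y_zero (ne_bar_of_cls hpr)]; exact one_mem _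
    obtain ⟨g, hg, g1, g2⟩ := move p c hc
    obtain ⟨g', hg', g1', g2'⟩ := move r 1 one_ne_zero
    have hG : g * g' * Y (.inl 0) (.inl 1) 1 * (g * g')⁻¹ = (Y p r c : Matrix.symplecticGroup (Fin 2) F) := by
      rw [Y_short (by simp), S_conj, sp_mul_mulVec, sp_mul_mulVec, g2' _ (by rw [hr]; decide),
        show (Sum.inl 0 : Fin 2 ⊕ Fin 2) = Sum.inl (cls p) by rw [hp], g1,
        show (Sum.inl 1 : Fin 2 ⊕ Fin 2) = Sum.inl (cls r) by rw [hr], g1', one_smul, g2 r hpr.symm,
        S_smul_left (B_e_e (ne_bar_of_cls hpr)), mul_one, Y_short (ne_of_cls hpr)]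
    exact hG ▸ mul_mem (mul_mem (mul_mem hg hg') hA) (inv_mem (mul_mem hg hg'))
  rw [eq_top_iff, ← Ys_univ, Ys, Subgroup.closure_le]
  rintro _ ⟨p, r, c, -, -, hne, rfl⟩
  by_cases h : cls p = cls r
  · obtain rfl : r = p := (eq_or_bar h.symm).resolve_right hne
    exact hlong _ c
  · rcases (show (cls p = 0 ∧ cls r = 1) ∨ (cls p = 1 ∧ cls r = 0) by
      revert h; generalize cls p = a; generalize cls r = b; revert a b; decide) with ⟨hp, hr⟩ | ⟨hp, hr⟩
    · exact hshort p r hp hr c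
    · rw [Y_symm hne]; exact hshort r p hr hp c

end Cfsg.Agent.KnownA.Bounded
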