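import Cfsg.Agent.KnownA.Bounded.AltMain
import Cfsg.Agent.KnownA.Bounded.Stab

/-! Bounded presentations of the symmetric groups. -/

set_option autoImplicit false
set_option linter.unusedSectionVars false

namespace Cfsg.Agent.KnownA.Bounded

open Equiv

theorem sym_of_alt {n k R : ℕ} (hn : 2 ≤ n) (hA : PresBy (alternatingGroup (Fin n)) k R) :
    PresBy (Perm (Fin n)) (k + 1) (R + (k + 1)) := by
  classical
  obtain ⟨gA, rA, -, hgA, -, -⟩ := PresBy.exists_gens.{0, 0} hA
  let a : Fin n := ⟨0, by omega⟩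
  let b : Fin n := ⟨1, by omega⟩
  have hab : a ≠ b := by simp [a, b]
  let τ : Perm (Fin n) := swap a b
  have hτ : ∀ i, τ * (gA i : Perm (Fin n)) * τ⁻¹ ∈ alternatingGroup (Fin n) := fun i => by
    rw [Perm.mem_alternatingGroup, map_mul, map_mul, Perm.mem_alternatingGroup.mp (gA i).2, mul_one, ← map_mul,
      mul_inv_cancel, map_one]
  let W := FreeGroup (alternatingGroup (Fin n) ⊕ Fin 1)
  let A : alternatingGroup (Fin n) → W := fun g => FreeGroup.of (Sum.inl g)
  let t : W := FreeGroup.of (Sum.inr 0)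
  let L : List W := (t * t) :: List.ofFn fun i => t * A (gA i) * t⁻¹ * (A ⟨_, hτ i⟩)⁻¹
  refine extend hA (alternatingGroup (Fin n)).subtype (fun _ : Fin 1 => τ) L (L₀ := k + 1) (by simp [L]) ?_ ?_
  · intro r hr
    simp only [L, List.mem_cons, List.mem_ofFn] at hr
    rcases hr with rfl | ⟨i, rfl⟩
    · simp [t, τ, swap_mul_self]
    · simp [t, A]
  · intro E _ σ f ψ hf hgen hψσ hψf
    set φ := FreeGroup.lift (Sum.elim (fun g => σ g) f)
    have h2 : f 0 * f 0 = 1 := by
      have := hf (t * t) (List.mem_cons_self)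
      simpa [φ, t] using this
    have hconj : ∀ i, f 0 * σ (gA i) * (f 0)⁻¹ ∈ σ.range := fun i => by
      have := hf _ (List.mem_cons_of_mem _ (List.mem_ofFn.mpr ⟨i, rfl⟩))
      simp only [map_mul, map_inv, mul_inv_eq_one] at this
      refine ⟨⟨_, hτ i⟩, ?_⟩
      simpa [φ, t, A] using this.symm
    have hnorm : ∀ z, f 0 * σ z * (f 0)⁻¹ ∈ σ.range := by
      intro z
      have hz : z ∈ Subgroup.closure (Set.range gA) := hgA ▸ Subgroup.mem_top z
      induction hz using Subgroup.closure_induction with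
      | mem x hx => obtain ⟨i, rfl⟩ := hx; exact hconj i
      | one => simp [one_mem]
      | mul x y _ _ hx hy =>
        rw [show f 0 * σ (x * y) * (f 0)⁻¹ = (f 0 * σ x * (f 0)⁻¹) * (f 0 * σ y * (f 0)⁻¹) by rw [map_mul]; group]
        exact mul_mem hx hy
      | inv x _ hx =>
        rw [show f 0 * σ x⁻¹ * (f 0)⁻¹ = (f 0 * σ x * (f 0)⁻¹)⁻¹ by rw [map_inv]; group]
        exact inv_mem hx
    have hinv : (f 0)⁻¹ = f 0 := inv_eq_of_mul_eq_one_right h2
    have hform : ∀ e : E, e ∈ σ.range ∨ ∃ z, e = f 0 * σ z := by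
      intro e
      have he : e ∈ Subgroup.closure (Set.range σ ∪ Set.range f) := hgen ▸ Subgroup.mem_top e
      induction he using Subgroup.closure_induction with
      | mem x hx =>
        rcases hx with ⟨z, rfl⟩ | ⟨i, rfl⟩
        · exact Or.inl ⟨z, rfl⟩
        · exact Or.inr ⟨1, by rw [map_one, mul_one, Subsingleton.elim i 0]⟩
      | one => exact Or.inl (one_mem _)
      | mul x y _ _ hx hy =>
        rcases hx with ⟨x, rfl⟩ | ⟨x, rfl⟩ <;> rcases hy with ⟨y, rfl⟩ | ⟨y, rfl⟩
        · exact Or.inl ⟨x * y, map_mul σ x y⟩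
        · obtain ⟨x', hx'⟩ := hnorm x
          refine Or.inr ⟨x' * y, ?_⟩
          rw [map_mul, hx', hinv, show f 0 * (f 0 * σ x * f 0 * σ y) = (f 0 * f 0) * (σ x * f 0 * σ y) by group, h2, one_mul]
          group
        · exact Or.inr ⟨x * y, by rw [map_mul]; group⟩
        · obtain ⟨x', hx'⟩ := hnorm x
          refine Or.inl ⟨x' * y, ?_⟩
          rw [map_mul, hx', hinv]
          group
      | inv x _ hx =>
        rcases hx with ⟨x, rfl⟩ | ⟨x, rfl⟩
        · exact Or.inl ⟨x⁻¹, map_inv σ x⟩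
        · obtain ⟨x', hx'⟩ := hnorm x⁻¹
          refine Or.inr ⟨x', ?_⟩
          rw [hx', _root_.mul_inv_rev, hinv, map_inv, ← mul_assoc, ← mul_assoc, h2, one_mul]
    refine ⟨(injective_iff_map_eq_one ψ).mpr fun e he => ?_, fun g => ?_⟩
    · rcases hform e with ⟨z, rfl⟩ | ⟨z, rfl⟩
      · rw [hψσ] at he
        rw [show z = 1 from Subtype.ext he, map_one]
      · exfalso
        rw [map_mul, hψσ, hψf] at he
        have := congrArg Perm.sign he
        rw [map_mul, map_one, Perm.sign_swap hab] at this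
        rw [show Perm.sign ((alternatingGroup (Fin n)).subtype z) = 1 from Perm.mem_alternatingGroup.mp z.2] at this
        exact absurd this (by decide)
    · rcases Int.units_eq_one_or (Perm.sign g) with h | h
      · exact ⟨σ ⟨g, Perm.mem_alternatingGroup.mpr h⟩, hψσ _⟩
      · refine ⟨f 0 * σ ⟨τ * g, Perm.mem_alternatingGroup.mpr (by rw [map_mul, Perm.sign_swap hab, h]; rfl)⟩, ?_⟩
        rw [map_mul, hψσ, hψf]
        show swap a b * (swap a b * g) = g
        rw [← mul_assoc, swap_mul_self, one_mul]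

theorem sym_pres (n : ℕ) (hn : 2 ≤ n) : ∃ k, PresBy (Perm (Fin n)) k 28 := by
  obtain ⟨k, hk5, hA⟩ := alt_pres_bound n
  exact ⟨k + 1, (sym_of_alt hn hA).mono (by omega)⟩

/-- Two permutations generating the pointwise stabilizer of the first two points. -/
theorem perm_stab_gen (n : ℕ) : ∃ a b : Perm (Fin n),
    (∀ g ∈ ({a, b} : Set (Perm (Fin n))), ∀ i : Fin n, i.val < 2 → g i = i) ∧
    ∀ y : Perm (Fin n), (∀ i : Fin n, i.val < 2 → y i = i) → y ∈ Subgroup.closure ({a, b} : Set (Perm (Fin n))) := by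
  classical
  let S := {i : Fin n // 2 ≤ i.val}
  obtain ⟨a, b, hab⟩ : ∃ a b : Perm S, Subgroup.closure ({a, b} : Set (Perm S)) = ⊤ := by
    rcases subsingleton_or_nontrivial S with hS | hS
    · exact ⟨1, 1, Subsingleton.elim _ _⟩
    · have h2 : 2 ≤ Fintype.card S := Fintype.one_lt_card
      let x : Fin (Fintype.card S) := ⟨0, by omega⟩
      let e : Perm (Fin (Fintype.card S)) ≃* Perm S := (Fintype.equivFin S).symm.permCongrHom
      refine ⟨e (finRotate _), e (swap x (finRotate _ x)), ?_⟩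
      rw [← Set.image_pair]
      change Subgroup.closure (e.toMonoidHom '' {finRotate _, swap x (finRotate _ x)}) = ⊤
      rw [← MonoidHom.map_closure,
        Equiv.Perm.closure_cycle_adjacent_swap (isCycle_finRotate_of_le h2) (support_finRotate_of_le h2) x]
      exact Subgroup.map_top_of_surjective _ e.surjective
  refine ⟨Perm.ofSubtype a, Perm.ofSubtype b, ?_, fun y hy => ?_⟩
  · rintro g (rfl | rfl) i hi <;> exact Perm.ofSubtype_apply_of_not_mem _ (by omega)
  · have hmem : ∀ x : Fin n, 2 ≤ (y x).val ↔ 2 ≤ x.val := by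
      intro x
      by_cases hx : x.val < 2
      · rw [hy x hx]
      · refine iff_of_true ?_ (by omega)
        by_contra hc
        have := hy _ (Nat.lt_of_not_le hc)
        rw [y.injective this] at hc
        omega
    have e : Perm.ofSubtype (y.subtypePerm hmem) = y :=
      Perm.ofSubtype_subtypePerm hmem fun x hx => by
        by_contra hc
        exact hx (hy x (Nat.lt_of_not_le hc))
    rw [← e, ← Set.image_pair, ← MonoidHom.map_closure, hab]
    exact Subgroup.mem_map_of_mem _ (Subgroup.mem_top _)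

end Cfsg.Agent.KnownA.Bounded
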