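import Cfsg.Agent.KnownA.Bounded.SpGlue
import Cfsg.Agent.KnownA.Bounded.Sym
import Cfsg.Agent.KnownA.Bounded.Main
import Cfsg.Agent.KnownA.Pres4.Main
import Cfsg.Agent.S2411
import Cfsg.Agent.S0269
import Cfsg.Agent.S0246
import Cfsg.Agent.Linear.Sp42

/-! Bounded presentations of the symplectic groups. -/

set_option autoImplicit false
set_option linter.unusedSectionVars false

namespace Cfsg.Agent.KnownA.Bounded

open Matrix Cfsg.Agent.Suzuki.SpSt Cfsg.Agent.KnownB.Proj.Symp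
open Equiv (Perm swap)
open scoped commutatorElement

universe u v

theorem hom_eq_of_pair {H : Type*} {E : Type*} [Group H] [Group E] {a b : H}
    (hab : Subgroup.closure ({a, b} : Set H) = ⊤) {f f' : H →* E} (ha : f a = f' a) (hb : f b = f' b) (x : H) :
    f x = f' x :=
  DFunLike.congr_fun (MonoidHom.eq_of_eqOn_dense hab (by rintro y (rfl | rfl) <;> assumption)) x

theorem commute_of_pair {H : Type*} {E : Type*} [Group H] [Group E] {a b : H}
    (hab : Subgroup.closure ({a, b} : Set H) = ⊤) (f : H →* E) {y : E} (ha : Commute y (f a)) (hb : Commute y (f b))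
    (x : H) : Commute y (f x) := by
  have := hom_eq_of_pair hab (f := (MulAut.conj y).toMonoidHom.comp f) (f' := f)
    (mul_inv_eq_iff_eq_mul.2 ha) (mul_inv_eq_iff_eq_mul.2 hb) x
  exact mul_inv_eq_iff_eq_mul.1 this

variable {F : Type u} [Field F] [Fintype F]

theorem sp_four_two_generated :
    ∃ a b : Matrix.symplecticGroup (Fin 2) F, Subgroup.closure ({a, b} : Set _) = ⊤ := by
  classical
  by_cases hq : 2 < Fintype.card F
  · obtain ⟨a, b, hab⟩ := Cfsg.Agent.S2411.result (F := F) 2 le_rfl fun _ => hq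
    obtain ⟨a, rfl⟩ := QuotientGroup.mk'_surjective _ a
    obtain ⟨b, rfl⟩ := QuotientGroup.mk'_surjective _ b
    refine ⟨a, b, ?_⟩
    set K := Subgroup.closure ({a, b} : Set (Matrix.symplecticGroup (Fin 2) F))
    have hsplit : ∀ g, ∃ k ∈ K, ∃ z ∈ Subgroup.center (Matrix.symplecticGroup (Fin 2) F), g = k * z := by
      intro g
      have hg : QuotientGroup.mk' (Subgroup.center (Matrix.symplecticGroup (Fin 2) F)) g ∈ K.map (QuotientGroup.mk' _) := by
        rw [MonoidHom.map_closure, Set.image_pair]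
        exact hab ▸ Subgroup.mem_top _
      obtain ⟨k, hk, e'⟩ := hg
      exact ⟨k, hk, k⁻¹ * g, (QuotientGroup.eq).1 e', by group⟩
    rw [eq_top_iff, ← Cfsg.Agent.S0269.result (F := F) 2 (Or.inr (Or.inl ⟨rfl, hq⟩)), commutator_eq_closure,
      Subgroup.closure_le]
    rintro _ ⟨g, h, rfl⟩
    obtain ⟨k, hk, z, hz, rfl⟩ := hsplit g
    obtain ⟨k', hk', z', hz', rfl⟩ := hsplit h
    have hz := Subgroup.mem_center_iff.1 hz
    have hz' := Subgroup.mem_center_iff.1 hz'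
    rw [show ⁅k * z, k' * z'⁆ = ⁅k, k'⁆ by
      simp only [commutatorElement_def, _root_.mul_inv_rev]
      rw [show k * z * (k' * z') * (z⁻¹ * k⁻¹) * (z'⁻¹ * k'⁻¹) = k * (z * (k' * z')) * z⁻¹ * k⁻¹ * z'⁻¹ * k'⁻¹ by group,
        ← hz (k' * z'), show k * (k' * z' * z) * z⁻¹ * k⁻¹ * z'⁻¹ * k'⁻¹ = k * k' * (z' * k⁻¹) * z'⁻¹ * k'⁻¹ by group,
        ← hz' k⁻¹]
      group]
    exact mul_mem (mul_mem (mul_mem hk hk') (inv_mem hk)) (inv_mem hk')
  · have hq2 : Fintype.card F = 2 := by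
      have := Fintype.one_lt_card (α := F)
      omega
    let r : ZMod 2 ≃+* F := ZMod.ringEquivOfPrime F Nat.prime_two hq2
    let e : Perm (Fin 6) →* Matrix.symplecticGroup (Fin 2) F :=
      (Cfsg.Agent.Linear.spCongr r).toMonoidHom.comp Cfsg.Agent.Linear.sixHom
    refine ⟨e (finRotate 6), e (swap 0 (finRotate 6 0)), ?_⟩
    rw [← Set.image_pair, ← MonoidHom.map_closure,
      Equiv.Perm.closure_cycle_adjacent_swap isCycle_finRotate (support_finRotate (n := 4)) 0]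
    exact Subgroup.map_top_of_surjective _
      ((Cfsg.Agent.Linear.spCongr r).surjective.comp Cfsg.Agent.Linear.sixHom_bijective.2)

theorem sp_one_two_generated :
    ∃ a b : Matrix.symplecticGroup (Fin 1) F, Subgroup.closure ({a, b} : Set _) = ⊤ := by
  obtain ⟨a, b, hab⟩ := sl_two_generated (F := F) 2 le_rfl
  refine ⟨slSp a, slSp b, ?_⟩
  rw [← Set.image_pair, ← MonoidHom.map_closure, hab]
  exact Subgroup.map_top_of_surjective _ slSp_surjective

/-- The symplectic group from a block and a group permuting the classes. -/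
theorem sp_pres_gen (m : ℕ) (hm : 3 ≤ m) {Γ : Type} [Group Γ] (pr : Γ →* Perm (Fin m)) {k R₀ : ℕ}
    (hΓ : PresBy Γ k R₀)
    (htr3 : ∀ a b c : Fin m, a ≠ b → b ≠ c → a ≠ c →
      ∃ g, pr g (pt hm 0) = a ∧ pr g (pt hm 1) = b ∧ pr g (pt hm 2) = c)
    (htr4 : ∀ (h4 : 4 ≤ m) (a b c d : Fin m), a ≠ b → a ≠ c → a ≠ d → b ≠ c → b ≠ d → c ≠ d →
      ∃ g, pr g (pt hm 0) = a ∧ pr g (pt hm 1) = b ∧ ((pr g (pt hm 2) = c ∧ pr g ⟨3, by omega⟩ = d) ∨
        (pr g (pt hm 2) = d ∧ pr g ⟨3, by omega⟩ = c)))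
    (hstabgen : ∃ sa sb : Γ, (∀ g ∈ ({sa, sb} : Set Γ), ∀ i : Fin m, i.val < 2 → pr g i = i) ∧
      ∀ y : Γ, (∀ i : Fin m, i.val < 2 → pr y i = i) → y ∈ Subgroup.closure ({sa, sb} : Set Γ))
    (τ₀ : Γ) (hnc : Subgroup.normalClosure ({τ₀} : Set Γ) = ⊤) :
    PresBy (Matrix.symplecticGroup (Fin m) F) (6 + k) (28 + (R₀ + 14)) := by
  classical
  have hA : PresBy (Matrix.symplecticGroup (Fin 2) F) 6 28 := by
    obtain ⟨rs, hlen, ⟨e⟩, -⟩ := Cfsg.Agent.KnownA.Pres4.sp_four_model (F := F)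
    refine ⟨rs.toFinset, (List.toFinset_card_le rs).trans hlen, ?_⟩
    rw [show (↑rs.toFinset : Set (FreeGroup (Fin 6))) = {r | r ∈ rs} by ext r; simp]
    exact ⟨e⟩
  obtain ⟨gS, rS, hrS, hgS, honeS, hunivS⟩ := PresBy.exists_gens.{0, 0} hΓ
  obtain ⟨g1, g2, hg⟩ := sp_four_two_generated (F := F)
  obtain ⟨u1, u2, hu⟩ := sp_one_two_generated (F := F)
  obtain ⟨sa, sb, hsfix, hsgen⟩ := hstabgen
  set q0 := pt hm 0 with hq0
  set q1 := pt hm 1 with hq1
  set q2 := pt hm 2 with hq2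
  have h01 : q0 ≠ q1 := pt_ne hm (by decide)
  have h02 : q0 ≠ q2 := pt_ne hm (by decide)
  have h12 : q1 ≠ q2 := pt_ne hm (by decide)
  obtain ⟨gs, gs0, gs1, -⟩ := htr3 q1 q0 q2 h01.symm h02 h12
  obtain ⟨gl, gl0, gl1, -⟩ := htr3 q0 q2 q1 h02 h12.symm h01
  obtain ⟨gd, gd0, gd1, -⟩ := htr3 q1 q2 q0 h12 h02.symm h01.symm
  set ι : Matrix.symplecticGroup (Fin 2) F →* Matrix.symplecticGroup (Fin m) F := blk q0 q1 h01 with hι
  set P : Γ →* Matrix.symplecticGroup (Fin m) F := permS.comp pr with hP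
  have hPι : ∀ (g : Γ) x, cj ι P g x = blk (pr g q0) (pr g q1) ((pr g).injective.ne h01) x := fun g x =>
    permS_blk (pr g) h01 x
  have hcongr : ∀ {a b a' b' : Fin m} (h : a ≠ b) (h' : a' ≠ b'), a = a' → b = b' →
      ∀ x : Matrix.symplecticGroup (Fin 2) F, blk a b h x = blk a' b' h' x := by
    intro a b a' b' h h' ea eb x; subst ea eb; rfl
  have hA' : ι yA = Y (.inl q0) (.inl q1) 1 := by rw [hι, yA, blk_Y]; rfl
  have hB' : cj ι P gd yB = Y (.inr q1) (.inl q2) 1 := by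
    rw [hPι, hcongr _ h12 gd0 gd1, yB, blk_Y]
    rfl
  have hC' : cj ι P gl yA = Y (.inl q0) (.inl q2) 1 := by
    rw [hPι, hcongr _ h02 gl0 gl1, yA, blk_Y]
    rfl
  obtain ⟨xC, hxC⟩ : ∃ xC, cj ι P gl xC = ⁅ι yA, cj ι P gd yB⁆ := by
    rw [hA', hB', ← show bar (Sum.inl q1 : Fin m ⊕ Fin m) = Sum.inr q1 from rfl, Y_comm3 (p := Sum.inl q0) (r := Sum.inl q1) (s := Sum.inl q2) h01 h12 h02]
    obtain ⟨x, hx⟩ := (mem_range_blk h02).2 (Y_mem_spOn (F := F) (t := {q0, q2}) (p := Sum.inl q0) (r := Sum.inl q2)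
      (by simp [bar]) (by simp [cls]) (by simp [cls]) (sg (bar (Sum.inl q1 : Fin m ⊕ Fin m)) * 1 * 1))
    exact ⟨x, by rw [hPι, hcongr _ h02 gl0 gl1, hx]⟩
  have hTgen : Subgroup.closure (Set.range fun z : Γ × Matrix.symplecticGroup (Fin 2) F => cj ι P z.1 z.2) = ⊤ := by
    have : Nontrivial (Fin m) := Fin.nontrivial_iff_two_le.2 (by omega)
    rw [eq_top_iff, ← Ys_univ, Ys, Subgroup.closure_le]
    rintro _ ⟨p, r, c, -, -, hne, rfl⟩
    obtain ⟨a, b, hab, hp, hr⟩ : ∃ a b, a ≠ b ∧ cls p ∈ ({a, b} : Finset (Fin m)) ∧ cls r ∈ ({a, b} : Finset (Fin m)) := by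
      by_cases h : cls p = cls r
      · obtain ⟨b, hb⟩ := exists_ne (cls p)
        exact ⟨cls p, b, hb.symm, by simp, by simp [← h]⟩
      · exact ⟨cls p, cls r, h, by simp, by simp⟩
    obtain ⟨cc, hcc⟩ : ∃ cc, b ≠ cc ∧ a ≠ cc := by
      by_contra hc
      push Not at hc
      have h := Finset.card_le_card (show (Finset.univ : Finset (Fin m)) ⊆ {a, b} from fun x _ => by
        rcases eq_or_ne b x with h | h
        · simp [h]
        · simp [hc x h])
      rw [Finset.card_univ, Fintype.card_fin] at h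
      have := Finset.card_le_two (a := a) (b := b)
      omega
    obtain ⟨g, g0', g1', -⟩ := htr3 a b cc hab hcc.1 hcc.2
    obtain ⟨x, hx⟩ := (mem_range_blk hab).2 (Y_mem_spOn hne hp hr c)
    exact Subgroup.subset_closure ⟨(g, x), by
      show cj ι P g x = _
      rw [hPι, hcongr _ hab g0' g1', hx]⟩
  obtain ⟨wc, hwc⟩ := exists_word _ hTgen (P τ₀)
  choose WS hWS using exists_word gS hgS
  let W := FreeGroup (Matrix.symplecticGroup (Fin 2) F ⊕ Fin k)
  let S : Matrix.symplecticGroup (Fin 2) F → W := fun g => FreeGroup.of (Sum.inl g)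
  let inS : FreeGroup (Fin k) →* W := FreeGroup.lift fun i => FreeGroup.of (Sum.inr i)
  let R : Γ → W := fun π => inS (WS π)
  let C : Γ → Matrix.symplecticGroup (Fin 2) F → W := fun π x => R π * S x * (R π)⁻¹
  let cm : W → W → W := fun x y => x * y * (y * x)⁻¹
  have hg3 : ∀ h : 4 ≤ m, ∃ g, pr g q0 = q2 ∧ pr g q1 = (⟨3, by omega⟩ : Fin m) := fun h => by
    obtain ⟨g, g0, g1, -⟩ := htr3 q2 ⟨3, by omega⟩ q0 (by simp [hq2, pt, Fin.ext_iff]) (by simp [hq0, pt, Fin.ext_iff]) h02.symm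
    exact ⟨g, g0, g1⟩
  choose g3 hg3 using hg3
  let r3 : W := if h : 4 ≤ m then cm (S yA) (C (g3 h) yA) else 1
  let L : List W := rS.map inS ++
    [C sa g1 * (S g1)⁻¹, C sa g2 * (S g2)⁻¹, C sb g1 * (S g1)⁻¹, C sb g2 * (S g2)⁻¹,
      C gs g1 * (S (sw g1))⁻¹, C gs g2 * (S (sw g2))⁻¹,
      C gl (e0 u1) * (S (e0 u1))⁻¹, C gl (e0 u2) * (S (e0 u2))⁻¹,
      cm (S (e0 u1)) (C gd yA), cm (S (e0 u2)) (C gd yA),
      C gl xC * ⁅S yA, C gd yB⁆⁻¹,
      cm (S yA) (C gl yA), r3, R τ₀ * (FreeGroup.lift (fun z => C z.1 z.2) wc)⁻¹]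
  refine extend hA ι (fun i => P (gS i)) L (L₀ := R₀ + 14) (by simp [L]; omega) ?_ ?_
  · set φ := FreeGroup.lift (Sum.elim (fun g => ι g) fun i => P (gS i))
    have eS : ∀ g, φ (S g) = ι g := fun g => by simp [φ, S]
    have einS : φ.comp inS = P.comp (FreeGroup.lift gS) := FreeGroup.ext_hom _ _ fun i => by simp [φ, inS]
    have eR : ∀ π, φ (R π) = P π := fun π => by
      show (φ.comp inS) (WS π) = _
      rw [einS, MonoidHom.comp_apply, hWS]
    have eC : ∀ π x, φ (C π x) = cj ι P π x := fun π x => by simp only [C, map_mul, map_inv, eR, eS, cj_apply]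
    have hcm : ∀ x y : W, Commute (φ x) (φ y) → φ (cm x y) = 1 := fun x y h => by
      simp only [cm, map_mul, map_inv, mul_inv_eq_one]; exact h
    have hfix : ∀ g ∈ ({sa, sb} : Set Γ), ∀ x, cj ι P g x = ι x := fun g hg' x => by
      rw [hPι]
      exact hcongr _ h01 (hsfix g hg' q0 (by simp [hq0, pt])) (hsfix g hg' q1 (by simp [hq1, pt])) x
    have hsw : ∀ x, cj ι P gs x = ι (sw x) := fun x => by
      rw [hPι, hι, blk_sw]
      exact hcongr _ h01.symm gs0 gs1 x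
    have hlong : ∀ y, cj ι P gl (e0 y) = ι (e0 y) := fun y => by
      rw [hPι, hι, blk_e0, blk_e0, gl0]
    have hdisj : ∀ y x, Commute (ι (e0 y)) (cj ι P gd x) := fun y x => by
      rw [hPι, hι, blk_e0, hcongr _ h12 gd0 gd1]
      exact spOn_commute (s := {q0}) (t := {q1, q2}) (by simp [h01, h02]) (mem_range_one.1 ⟨y, rfl⟩)
        ((mem_range_blk h12).1 ⟨x, rfl⟩)
    intro r hr
    simp only [L, List.mem_append, List.mem_map, List.mem_cons, List.not_mem_nil, or_false] at hr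
    rcases hr with ⟨r, hr', rfl⟩ | hr
    · rw [← MonoidHom.comp_apply, einS, MonoidHom.comp_apply, honeS r hr', map_one]
    rcases hr with rfl | rfl | rfl | rfl | rfl | rfl | rfl | rfl | rfl | rfl | rfl | rfl | rfl | rfl
    · rw [map_mul, map_inv, mul_inv_eq_one, eC, eS, hfix sa (Or.inl rfl)]
    · rw [map_mul, map_inv, mul_inv_eq_one, eC, eS, hfix sa (Or.inl rfl)]
    · rw [map_mul, map_inv, mul_inv_eq_one, eC, eS, hfix sb (Or.inr rfl)]
    · rw [map_mul, map_inv, mul_inv_eq_one, eC, eS, hfix sb (Or.inr rfl)]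
    · rw [map_mul, map_inv, mul_inv_eq_one, eC, eS, hsw]
    · rw [map_mul, map_inv, mul_inv_eq_one, eC, eS, hsw]
    · rw [map_mul, map_inv, mul_inv_eq_one, eC, eS, hlong]
    · rw [map_mul, map_inv, mul_inv_eq_one, eC, eS, hlong]
    · exact hcm _ _ (by rw [eS, eC]; exact hdisj _ _)
    · exact hcm _ _ (by rw [eS, eC]; exact hdisj _ _)
    · rw [map_mul, map_inv, mul_inv_eq_one, map_commutatorElement, eC, eC, eS, hxC]
    · refine hcm _ _ ?_
      rw [eS, eC, hA', hC']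
      exact Y_comm (by simp [bar]) ⟨(bar_ne _).symm, by simp [bar], by simp [bar], by simp [bar]⟩ _ _
    · simp only [r3]
      split_ifs with h4
      · refine hcm _ _ ?_
        have d3 : q0 ≠ ⟨3, by omega⟩ ∧ q1 ≠ ⟨3, by omega⟩ ∧ q2 ≠ (⟨3, by omega⟩ : Fin m) := by
          simp [hq0, hq1, hq2, pt, Fin.ext_iff]
        rw [eS, eC, hA', hPι, hcongr _ d3.2.2 (hg3 h4).1 (hg3 h4).2, yA, blk_Y]
        exact Y_comm (by simp [bar]) ⟨by simp [bar], by simp [bar], by simp [bar], by simp [bar]⟩ _ _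
      · rw [map_one]
    · rw [map_mul, map_inv, mul_inv_eq_one, eR, ← hwc, ← MonoidHom.comp_apply]
      congr 1
      exact FreeGroup.ext_hom _ _ fun z => by simp [eC]
  intro E _ σ fS ψ hf hgenE hψσ hψf
  set φ := FreeGroup.lift (Sum.elim (fun g => σ g) fS)
  have eS : ∀ g, φ (S g) = σ g := fun g => by simp [φ, S]
  obtain ⟨ρ, hρ⟩ := hunivS E fS fun r hr => by
    rw [show FreeGroup.lift fS = φ.comp inS from FreeGroup.ext_hom _ _ fun i => by simp [φ, inS]]
    exact hf _ (List.mem_append_left _ (List.mem_map_of_mem hr))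
  have eR : ∀ π, φ (R π) = ρ π := fun π => by
    show (φ.comp inS) (WS π) = _
    rw [show φ.comp inS = ρ.comp (FreeGroup.lift gS) from FreeGroup.ext_hom _ _ fun i => by simp [φ, inS, hρ],
      MonoidHom.comp_apply, hWS]
  have eC : ∀ π x, φ (C π x) = cj σ ρ π x := fun π x => by simp only [C, map_mul, map_inv, eR, eS, cj_apply]
  have hψρ : ∀ π, ψ (ρ π) = P π := by
    have : ψ.comp ρ = P := MonoidHom.eq_of_eqOn_dense hgS (by
      rintro _ ⟨i, rfl⟩
      simp [hρ, hψf])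
    exact DFunLike.congr_fun this
  have hrest : ∀ r ∈ [C sa g1 * (S g1)⁻¹, C sa g2 * (S g2)⁻¹, C sb g1 * (S g1)⁻¹, C sb g2 * (S g2)⁻¹,
      C gs g1 * (S (sw g1))⁻¹, C gs g2 * (S (sw g2))⁻¹,
      C gl (e0 u1) * (S (e0 u1))⁻¹, C gl (e0 u2) * (S (e0 u2))⁻¹,
      cm (S (e0 u1)) (C gd yA), cm (S (e0 u2)) (C gd yA),
      C gl xC * ⁅S yA, C gd yB⁆⁻¹,
      cm (S yA) (C gl yA), r3, R τ₀ * (FreeGroup.lift (fun z => C z.1 z.2) wc)⁻¹], φ r = 1 := fun r hr =>
    hf r (List.mem_append_right _ hr)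
  simp only [List.mem_cons, List.not_mem_nil, or_false, forall_eq_or_imp, forall_eq, cm, map_mul, map_inv, map_commutatorElement,
    eC, eR, eS, mul_inv_eq_one] at hrest
  obtain ⟨a1, a2, a3, a4, b1, b2, c1, c2, d1, d2, k1, k2, k3, k4⟩ := hrest
  refine sp_glue hm pr σ ρ ψ hψσ hψρ htr3 htr4 gs gl gd ⟨gs0, gs1⟩ ⟨gl0, gl1⟩ ⟨gd0, gd1⟩
    (fun g g0 g1' x => ?_) ?_ ?_ (fun y => ?_) ?_ k2 (fun h4 => ?_) ?_ τ₀ hnc ?_
  · have hmem := hsgen g (fun i hi => by
      rcases (show i.val = 0 ∨ i.val = 1 by omega) with h | h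
      · rw [show i = q0 from Fin.ext (by simp [hq0, pt, h])]; exact g0
      · rw [show i = q1 from Fin.ext (by simp [hq1, pt, h])]; exact g1')
    have hK : Subgroup.closure ({sa, sb} : Set Γ) ≤ (Subgroup.centralizer {σ x}).comap ρ := by
      rw [Subgroup.closure_le]
      rintro h (rfl | rfl) <;> refine Subgroup.mem_centralizer_singleton_iff.mpr (mul_inv_eq_iff_eq_mul.mp ?_)
      · exact hom_eq_of_pair hg (f := cj σ ρ h) (f' := σ) a1 a2 x
      · exact hom_eq_of_pair hg (f := cj σ ρ h) (f' := σ) a3 a4 x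
    exact mul_inv_eq_iff_eq_mul.mpr (Subgroup.mem_centralizer_singleton_iff.mp (hK hmem))
  · exact hom_eq_of_pair hg (f := cj σ ρ gs) (f' := σ.comp sw) b1 b2
  · exact hom_eq_of_pair hu (f := (cj σ ρ gl).comp e0) (f' := σ.comp e0) c1 c2
  · exact (commute_of_pair hu (σ.comp e0) (Commute.symm d1) (Commute.symm d2) y).symm
  · exact ⟨xC, k1⟩
  · have : φ r3 = 1 := k3
    simp only [r3, dif_pos h4, cm, map_mul, map_inv, eC, eS, mul_inv_eq_one] at this
    exact ⟨g3 h4, (hg3 h4).1, (hg3 h4).2, this⟩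
  · rw [eq_top_iff, ← hgenE, Subgroup.closure_le]
    rintro _ (⟨g, rfl⟩ | ⟨i, rfl⟩)
    · exact Subgroup.subset_closure (Or.inl ⟨g, rfl⟩)
    · exact Subgroup.subset_closure (Or.inr ⟨gS i, hρ i⟩)
  · refine ⟨φ (FreeGroup.lift (fun z => C z.1 z.2) wc), ?_, k4⟩
    have hle : (φ.comp (FreeGroup.lift fun z : Γ × _ => C z.1 z.2)).range ≤
        Subgroup.closure {g : E | ∃ π x, g = cj σ ρ π x} := by
      rw [show φ.comp (FreeGroup.lift fun z : Γ × _ => C z.1 z.2) = FreeGroup.lift (fun z => cj σ ρ z.1 z.2) from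
        FreeGroup.ext_hom _ _ fun z => by simp [eC], FreeGroup.range_lift_eq_closure, Subgroup.closure_le]
      rintro _ ⟨z, rfl⟩
      exact Subgroup.subset_closure ⟨z.1, z.2, rfl⟩
    exact hle ⟨wc, rfl⟩

theorem sym_transitive {m : ℕ} {k : ℕ} (f g : Fin k → Fin m) (hf : Function.Injective f) (hg : Function.Injective g) :
    ∃ ρ : Perm (Fin m), ∀ a, ρ (f a) = g a := exists_map f g hf hg

theorem inj_three {m : ℕ} {a b c : Fin m} (hab : a ≠ b) (hbc : b ≠ c) (hac : a ≠ c) : Function.Injective ![a, b, c] := by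
  intro i j; fin_cases i <;> fin_cases j <;> simp [hab, hab.symm, hbc, hbc.symm, hac, hac.symm]

theorem inj_four {m : ℕ} {a b c d : Fin m} (hab : a ≠ b) (hac : a ≠ c) (had : a ≠ d) (hbc : b ≠ c) (hbd : b ≠ d)
    (hcd : c ≠ d) : Function.Injective ![a, b, c, d] := by
  intro i j; fin_cases i <;> fin_cases j <;>
    simp [hab, hab.symm, hac, hac.symm, had, had.symm, hbc, hbc.symm, hbd, hbd.symm, hcd, hcd.symm]

theorem pt_inj_four {m : ℕ} (hm : 3 ≤ m) (h4 : 4 ≤ m) :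
    Function.Injective ![pt hm 0, pt hm 1, pt hm 2, (⟨3, by omega⟩ : Fin m)] :=
  inj_four (pt_ne hm (by decide)) (pt_ne hm (by decide)) (by simp [pt, Fin.ext_iff]) (pt_ne hm (by decide))
    (by simp [pt, Fin.ext_iff]) (by simp [pt, Fin.ext_iff])

/-- With all permutations of the classes. -/
theorem sp_pres_sym (m : ℕ) (hm : 3 ≤ m) {k R : ℕ} (h : PresBy (Perm (Fin m)) k R) :
    PresBy (Matrix.symplecticGroup (Fin m) F) (6 + k) (28 + (R + 14)) := by
  refine sp_pres_gen m hm (MonoidHom.id _) h (fun a b c hab hbc hac => ?_) (fun h4 a b c d h1 h2 h3 h5 h6 h7 => ?_)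
    (perm_stab_gen m) (swap (pt hm 0) (pt hm 1)) ?_
  · obtain ⟨g, hg⟩ := exists_map ![pt hm 0, pt hm 1, pt hm 2] ![a, b, c]
      (inj_three (pt_ne hm (by decide)) (pt_ne hm (by decide)) (pt_ne hm (by decide))) (inj_three hab hbc hac)
    exact ⟨g, hg 0, hg 1, hg 2⟩
  · obtain ⟨g, hg⟩ := exists_map ![pt hm 0, pt hm 1, pt hm 2, (⟨3, by omega⟩ : Fin m)] ![a, b, c, d]
      (pt_inj_four hm h4) (inj_four h1 h2 h3 h5 h6 h7)
    exact ⟨g, hg 0, hg 1, Or.inl ⟨hg 2, hg 3⟩⟩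
  · rw [eq_top_iff, ← Equiv.Perm.closure_isSwap, Subgroup.closure_le]
    rintro _ ⟨a, b, hab, rfl⟩
    obtain ⟨g, hg⟩ := exists_map ![pt hm 0, pt hm 1] ![a, b] (pair_inj (pt_ne hm (by decide))) (pair_inj hab)
    have g0 : g (pt hm 0) = a := hg 0
    have g1 : g (pt hm 1) = b := hg 1
    rw [show swap a b = g * swap (pt hm 0) (pt hm 1) * g⁻¹ by rw [← Equiv.swap_apply_apply, g0, g1]]
    exact Subgroup.normalClosure_normal.conj_mem _ (Subgroup.subset_normalClosure (Set.mem_singleton _)) g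

/-- A bounded presentation of the symplectic groups of rank at least three. -/
theorem sp_pres (m : ℕ) (hm : 3 ≤ m) : ∃ k, PresBy (Matrix.symplecticGroup (Fin m) F) k 72 := by
  obtain ⟨k, hk⟩ := sym_pres m (by omega)
  exact ⟨6 + k, (sp_pres_sym m hm hk).mono (by omega)⟩

/-- With the even permutations of the classes. -/
theorem sp_pres_alt (m : ℕ) (hm : 5 ≤ m) {k R : ℕ} (h : PresBy (alternatingGroup (Fin m)) k R) :
    PresBy (Matrix.symplecticGroup (Fin m) F) (6 + k) (28 + (R + 14)) := by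
  have hm3 : 3 ≤ m := by omega
  refine sp_pres_gen m hm3 (alternatingGroup (Fin m)).subtype h (fun a b c hab hbc hac => ?_)
    (fun h4 a b c d h1 h2 h3 h5 h6 h7 => ?_) (stab_gen (by omega)) (cycA (pt hm3 0) (pt hm3 1) (pt hm3 2)) ?_
  · obtain ⟨ρ, hρ⟩ := exists_map ![pt hm3 0, pt hm3 1, pt hm3 2] ![a, b, c]
      (inj_three (pt_ne hm3 (by decide)) (pt_ne hm3 (by decide)) (pt_ne hm3 (by decide))) (inj_three hab hbc hac)
    let q3 : Fin m := ⟨3, by omega⟩
    let q4 : Fin m := ⟨4, by omega⟩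
    have hd : ∀ i : Fin 3, pt hm3 i ≠ q3 ∧ pt hm3 i ≠ q4 := fun i => by
      have := i.isLt
      simp [pt, q3, q4, Fin.ext_iff]; omega
    rcases Int.units_eq_one_or (Perm.sign ρ) with h' | h'
    · exact ⟨⟨ρ, Perm.mem_alternatingGroup.mpr h'⟩, hρ 0, hρ 1, hρ 2⟩
    · refine ⟨⟨ρ * swap q3 q4, Perm.mem_alternatingGroup.mpr (by
        rw [map_mul, h', Perm.sign_swap (show q3 ≠ q4 by simp [q3, q4])]; rfl)⟩, ?_, ?_, ?_⟩
      all_goals
        show ρ (swap q3 q4 _) = _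
        rw [Equiv.swap_apply_of_ne_of_ne (hd _).1 (hd _).2]
      exacts [hρ 0, hρ 1, hρ 2]
  · obtain ⟨g, hg | hg⟩ := exists_even_map ![pt hm3 0, pt hm3 1, pt hm3 2, (⟨3, by omega⟩ : Fin m)] ![a, b, c, d]
      (pt_inj_four hm3 h4) (inj_four h1 h2 h3 h5 h6 h7) 2 3 (by decide)
    · exact ⟨g, hg 0, hg 1, Or.inl ⟨hg 2, hg 3⟩⟩
    · exact ⟨g, hg 0, hg 1, Or.inr ⟨hg 2, hg 3⟩⟩
  · have : IsSimpleGroup (alternatingGroup (Fin m)) := alternatingGroup.isSimpleGroup (by simpa using hm)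
    refine (Subgroup.normalClosure_normal.eq_bot_or_eq_top).resolve_left fun hbot => ?_
    have h1 : cycA (pt hm3 0) (pt hm3 1) (pt hm3 2) ∈ (⊥ : Subgroup (alternatingGroup (Fin m))) :=
      hbot ▸ Subgroup.subset_normalClosure (Set.mem_singleton _)
    rw [Subgroup.mem_bot] at h1
    have n01 : pt hm3 0 ≠ pt hm3 1 := pt_ne hm3 (by decide)
    have h2 : (cycA (pt hm3 0) (pt hm3 1) (pt hm3 2) : Perm (Fin m)) (pt hm3 0) = pt hm3 0 := by
      rw [h1]; rfl
    rw [coe_cycA n01 (pt_ne hm3 (by decide)), Perm.mul_apply, Equiv.swap_apply_left,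
      Equiv.swap_apply_of_ne_of_ne n01.symm (pt_ne hm3 (by decide))] at h2
    exact n01 h2.symm

/-- Passing to the central quotient. -/
theorem psp_of_sp {m k R : ℕ} (hm : 1 ≤ m) (hk : PresBy (Matrix.symplecticGroup (Fin m) F) k R) :
    PresBy (Cfsg.PSp m F) k (R + 1) := by
  classical
  have hcard : Nat.card (Subgroup.center (Matrix.symplecticGroup (Fin m) F)) ≤ 2 := by
    rw [Cfsg.Agent.S0246.result rfl m (by omega)]
    exact Nat.le_of_dvd two_pos (Nat.gcd_dvd_left _ _)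
  obtain ⟨z, hz, hall⟩ : ∃ z ∈ Subgroup.center (Matrix.symplecticGroup (Fin m) F),
      ∀ y ∈ Subgroup.center (Matrix.symplecticGroup (Fin m) F), y = 1 ∨ y = z := by
    by_cases h : ∃ z ∈ Subgroup.center (Matrix.symplecticGroup (Fin m) F), z ≠ 1
    · obtain ⟨z, hz, hz1⟩ := h
      refine ⟨z, hz, fun y hy => or_iff_not_imp_left.2 fun hy1 => ?_⟩
      by_contra hne
      have : Fintype (Subgroup.center (Matrix.symplecticGroup (Fin m) F)) := Fintype.ofFinite _
      have hle := Finset.card_le_univ ({1, ⟨y, hy⟩, ⟨z, hz⟩} : Finset (Subgroup.center (Matrix.symplecticGroup (Fin m) F)))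
      rw [Finset.card_insert_of_notMem (by
          rw [Finset.mem_insert, Finset.mem_singleton]
          rintro (h | h)
          exacts [hy1 (congrArg Subtype.val h).symm, hz1 (congrArg Subtype.val h).symm]),
        Finset.card_pair (fun h => hne (congrArg Subtype.val h)), ← Nat.card_eq_fintype_card] at hle
      omega
    · push Not at h
      exact ⟨1, one_mem _, fun y hy => Or.inl (h y hy)⟩
  have hN : Subgroup.center (Matrix.symplecticGroup (Fin m) F) = Subgroup.normalClosure {z} := by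
    refine le_antisymm (fun y hy => ?_) (Subgroup.normalClosure_le_normal (Set.singleton_subset_iff.mpr hz))
    rcases hall y hy with rfl | rfl
    · exact one_mem _
    · exact Subgroup.subset_normalClosure (Set.mem_singleton _)
  exact quotient hk (Subgroup.center (Matrix.symplecticGroup (Fin m) F)) z hN

theorem psp_pres (m : ℕ) (hm : 2 ≤ m) (h22 : ¬ (m = 2 ∧ Fintype.card F = 2)) :
    ∃ rels : Finset (FreeGroup (Fin 2)), rels.card ≤ 80 ∧
      Nonempty (PresentedGroup (↑rels : Set (FreeGroup (Fin 2))) ≃* Cfsg.PSp m F) := by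
  classical
  obtain ⟨a, b, hab⟩ := Cfsg.Agent.S2411.result (F := F) m hm fun h => by
    have := Fintype.one_lt_card (α := F)
    have : Fintype.card F ≠ 2 := fun h' => h22 ⟨h, h'⟩
    omega
  suffices h : ∃ k, PresBy (Cfsg.PSp m F) k 78 by
    obtain ⟨k, hk⟩ := h
    exact two_gen hk a b hab
  rcases Nat.lt_or_ge m 3 with h3 | h3
  · obtain rfl : m = 2 := by omega
    obtain ⟨rels, hc, e'⟩ := (Cfsg.Agent.KnownA.Pres4.sp_four_pres (F := F)).2
    exact ⟨6, rels, hc.trans (by norm_num), e'⟩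
  obtain ⟨k, hk⟩ := sp_pres (F := F) m h3
  exact ⟨k, (psp_of_sp (by omega) hk).mono (by norm_num)⟩

end Cfsg.Agent.KnownA.Bounded
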