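import Cfsg.Agent.KnownA.Bounded.SpPres

/-! Presentations of the symplectic groups with at most ten generators. -/

set_option autoImplicit false
set_option linter.unusedSectionVars false

namespace Cfsg.Agent.KnownA.Bounded

open Equiv (Perm)

universe u

theorem pad {G : Type u} [Group G] {k R : ℕ} (h : PresBy G k R) (j : ℕ) : PresBy G (k + j) (R + j) := by
  classical
  let L : List (FreeGroup (G ⊕ Fin j)) := List.ofFn fun i => FreeGroup.of (Sum.inr i)
  refine extend h (MonoidHom.id G) (fun _ : Fin j => (1 : G)) L (L₀ := j) (by simp [L]) ?_ ?_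
  · intro r hr
    obtain ⟨i, rfl⟩ := List.mem_ofFn.mp hr
    simp
  · intro E _ σ f ψ hf hgen hψσ hψf
    have hf1 : ∀ i, f i = 1 := fun i => by
      have := hf _ (List.mem_ofFn.mpr ⟨i, rfl⟩)
      simpa using this
    have hsurj : Function.Surjective σ := by
      rw [← MonoidHom.range_eq_top, eq_top_iff, ← hgen, Subgroup.closure_le]
      rintro _ (⟨g, rfl⟩ | ⟨i, rfl⟩)
      · exact ⟨g, rfl⟩
      · exact ⟨1, by rw [map_one, hf1]⟩
    refine ⟨fun a b hab => ?_, fun g => ⟨σ g, hψσ g⟩⟩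
    obtain ⟨a, rfl⟩ := hsurj a
    obtain ⟨b, rfl⟩ := hsurj b
    rw [hψσ, hψσ] at hab
    exact congrArg σ hab

theorem pad_to {G : Type u} [Group G] {k R : ℕ} (h : PresBy G k R) {k' R' : ℕ} (hk : k ≤ k')
    (hR : R + (k' - k) ≤ R') : PresBy G k' R' := by
  obtain ⟨j, rfl⟩ := Nat.exists_eq_add_of_le hk
  exact (pad h j).mono (by omega)

/-- Carmichael's presentation of the alternating group of degree six, without repetitions. -/
theorem alt_six : PresBy (alternatingGroup (Fin 6)) 4 10 := by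
  classical
  let a : Fin 6 := 0
  let b : Fin 6 := 1
  let pts : Fin 4 → Fin 6 := ![2, 3, 4, 5]
  have hab : a ≠ b := by decide
  have hne : ∀ i, a ≠ pts i ∧ b ≠ pts i := by decide
  have hinj : ∀ i j, i ≠ j → pts i ≠ pts j := by decide
  let P : List (Fin 4 × Fin 4) := [(0, 1), (0, 2), (0, 3), (1, 2), (1, 3), (2, 3)]
  have hP : ∀ i j : Fin 4, i ≠ j → (i, j) ∈ P ∨ (j, i) ∈ P := by decide
  have hP' : ∀ z ∈ P, z.1 ≠ z.2 := by decide
  refine of_relators (fun i => cycA a b (pts i))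
    ((List.ofFn fun i : Fin 4 => FreeGroup.of i ^ 3) ++ P.map fun z => (FreeGroup.of z.1 * FreeGroup.of z.2) ^ 2)
    (by simp [P]) ?_ ?_
  · intro r hr
    rcases List.mem_append.mp hr with hr | hr
    · obtain ⟨i, rfl⟩ := List.mem_ofFn.mp hr
      rw [map_pow, FreeGroup.lift_apply_of]
      exact cycA_cube hab (hne i).1 (hne i).2
    · obtain ⟨z, hz, rfl⟩ := List.mem_map.mp hr
      rw [map_pow, map_mul, FreeGroup.lift_apply_of, FreeGroup.lift_apply_of]
      exact cycA_pair hab (hne _).1 (hne _).2 (hne _).1 (hne _).2 (hinj _ _ (hP' z hz))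
  · intro E _ f ψ hf hgen hψ
    refine carmichael_bij (by simp) hab pts ?_ f (fun i => ?_) (fun i j hij => ?_) hgen ψ hψ
    · decide
    · simpa using hf (FreeGroup.of i ^ 3) (List.mem_append_left _ (List.mem_ofFn.mpr ⟨i, rfl⟩))
    · have key : ∀ i j, (i, j) ∈ P → (f i * f j) ^ 2 = 1 := fun i j h => by
        simpa using hf ((FreeGroup.of i * FreeGroup.of j) ^ 2) (List.mem_append_right _ (List.mem_map.mpr ⟨(i, j), h, rfl⟩))
      rcases hP i j hij with h | h
      · exact key i j h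
      · rw [show f i * f j = (f j)⁻¹ * (f j * f i) * (f j)⁻¹⁻¹ by group, conj_pow, key j i h, mul_one, mul_inv_cancel]

variable {F : Type u} [Field F] [Fintype F]

theorem sp_ten (m : ℕ) :
    (4 ≤ m → PresBy (Matrix.symplecticGroup (Fin m) F) 10 58) ∧
    ((m = 4 ∨ m = 5) → PresBy (Matrix.symplecticGroup (Fin m) F) 9 57) ∧
    (m = 3 → PresBy (Matrix.symplecticGroup (Fin m) F) 8 52) := by
  have h45 : (m = 4 ∨ m = 5) → PresBy (Matrix.symplecticGroup (Fin m) F) 9 54 := by
    rintro (rfl | rfl)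
    · exact (sp_pres_sym 4 (by norm_num) (sym_of_alt (by norm_num) (alt_small 2))).mono (by norm_num)
    · exact (sp_pres_alt 5 (by norm_num) (alt_small 3)).mono (by norm_num)
  refine ⟨fun h4 => ?_, fun h => (h45 h).mono (by norm_num), ?_⟩
  · by_cases h5 : m = 4 ∨ m = 5
    · exact pad_to (h45 h5) (by norm_num) (by norm_num)
    by_cases h6 : m = 6
    · subst h6
      exact (sp_pres_alt 6 (by norm_num) alt_six).mono (by norm_num)
    rcases alt_pres_four m (by omega) with hA | hA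
    · exact pad_to (sp_pres_alt m (by omega) hA) (by norm_num) (by norm_num)
    · exact (sp_pres_alt m (by omega) hA).mono (by norm_num)
  · rintro rfl
    exact (sp_pres_sym 3 (by norm_num) (sym_of_alt (by norm_num) (alt_small 1))).mono (by norm_num)

theorem sp_ten_pres (n : ℕ) :
    (4 ≤ n → (∃ rels : Finset (FreeGroup (Fin 10)), rels.card ≤ 58 ∧ Nonempty (PresentedGroup (↑rels : Set (FreeGroup (Fin 10))) ≃* Matrix.symplecticGroup (Fin n) F)) ∧ (∃ rels : Finset (FreeGroup (Fin 10)), rels.card ≤ 59 ∧ Nonempty (PresentedGroup (↑rels : Set (FreeGroup (Fin 10))) ≃* Cfsg.PSp n F))) ∧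
    ((n = 4 ∨ n = 5) → (∃ rels : Finset (FreeGroup (Fin 9)), rels.card ≤ 57 ∧ Nonempty (PresentedGroup (↑rels : Set (FreeGroup (Fin 9))) ≃* Matrix.symplecticGroup (Fin n) F)) ∧ (∃ rels : Finset (FreeGroup (Fin 9)), rels.card ≤ 58 ∧ Nonempty (PresentedGroup (↑rels : Set (FreeGroup (Fin 9))) ≃* Cfsg.PSp n F))) ∧
    (n = 3 → (∃ rels : Finset (FreeGroup (Fin 8)), rels.card ≤ 52 ∧ Nonempty (PresentedGroup (↑rels : Set (FreeGroup (Fin 8))) ≃* Matrix.symplecticGroup (Fin n) F)) ∧ (∃ rels : Finset (FreeGroup (Fin 8)), rels.card ≤ 53 ∧ Nonempty (PresentedGroup (↑rels : Set (FreeGroup (Fin 8))) ≃* Cfsg.PSp n F))) := by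
  obtain ⟨a, b, c⟩ := sp_ten (F := F) n
  exact ⟨fun h => ⟨a h, psp_of_sp (by omega) (a h)⟩, fun h => ⟨b h, psp_of_sp (by omega) (b h)⟩,
    fun h => ⟨c h, psp_of_sp (by omega) (c h)⟩⟩

end Cfsg.Agent.KnownA.Bounded
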